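import Cfsg.Agent.Lib.BT.CaseTwo
import Cfsg.Agent.Lib.Char.Burnside
import Cfsg.Agent.Lib.H8Group.CharVal

/-! The block of a character of degree a power of two, in a simple group. -/

set_option autoImplicit false
set_option linter.unusedSectionVars false
set_option linter.unusedVariables false

namespace Cfsg.Agent.Lib.BT

open Cfsg Cfsg.Agent.Lib.Char Cfsg.Agent.Lib.Blocks Cfsg.Agent.Lib.Small.BD Subgroup MulAction Module
open scoped ComplexConjugate

universe u

variable {G : Type u} [Group G] [Fintype G]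

/-- In a perfect simple group, an element on which a nonlinear irreducible character has norm equal to the degree is
trivial. -/
theorem eq_one_of_norm_eq [IsSimpleGroup G] (hperf : commutator G = ⊤) {χ : IrrCharacter G}
    (hχ : 1 < charDegree (χ : G → ℂ)) {g : G} (hn : ‖(χ : G → ℂ) g‖ = (charDegree (χ : G → ℂ) : ℝ)) : g = 1 := by
  classical
  have hc := IsIrrCharacter.isCharacter χ.2
  have hd := apply_one_eq_charDegree hc
  obtain ⟨n, ρ, hirr, hρ⟩ := χ.2
  have hfin : finrank ℂ (Fin n → ℂ) = charDegree (χ : G → ℂ) := by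
    have h2 : ρ.character 1 = (finrank ℂ (Fin n → ℂ) : ℂ) := Representation.char_one ρ
    rw [hρ, hd] at h2
    exact_mod_cast h2.symm
  have h1' : ‖ρ.character g‖ = (finrank ℂ (Fin n → ℂ) : ℝ) := by rw [hρ, hfin]; exact hn
  obtain ⟨ω, hω⟩ := (norm_character_eq_finrank_iff ρ g).mp h1'
  haveI hkerN := charKer_normal hc
  have hker : charKer (χ : G → ℂ) = ⊥ := by
    rcases hkerN.eq_bot_or_eq_top with h | h
    · exact h
    · exfalso
      have hconst : ∀ x, (χ : G → ℂ) x = (χ : G → ℂ) 1 := fun x =>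
        (mem_charKer hc).mp (by rw [h]; trivial)
      have h0 := classInner_irr_self χ.2
      simp only [classInner, hconst] at h0
      rw [Finset.sum_const, Finset.card_univ, nsmul_eq_mul, ← Nat.card_eq_fintype_card] at h0
      have hG : ((Nat.card G : ℕ) : ℂ) ≠ 0 := by exact_mod_cast Nat.card_pos.ne'
      rw [← mul_assoc, inv_mul_cancel₀ hG, one_mul, hd, Complex.conj_natCast] at h0
      have h1 : charDegree (χ : G → ℂ) * charDegree (χ : G → ℂ) = 1 := by exact_mod_cast h0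
      have h2 : charDegree (χ : G → ℂ) ∣ 1 := ⟨_, h1.symm⟩
      have h3 := Nat.le_of_dvd one_pos h2
      omega
  have hcent : ∀ x : G, x * g = g * x := by
    intro x
    have hcomm' : ρ (x * g) = ρ (g * x) := by
      rw [map_mul, map_mul, hω]
      ext v
      simp
    have hcm : x * g * (g * x)⁻¹ ∈ charKer (χ : G → ℂ) := by
      rw [mem_charKer hc, ← hρ, Representation.char_one]
      apply (character_eq_finrank_iff ρ _).mpr
      rw [map_mul, hcomm', ← map_mul, mul_inv_cancel, map_one]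
      rfl
    rw [hker] at hcm
    have hcm' : x * g * (g * x)⁻¹ = 1 := by simpa using hcm
    exact mul_inv_eq_one.mp hcm'
  have hz : g ∈ center G := by
    rw [mem_center_iff]
    exact hcent
  rcases (inferInstance : (center G).Normal).eq_bot_or_eq_top with h | h
  · rw [h] at hz
    exact hz
  · exfalso
    have hcomm : ∀ a b : G, a * b = b * a := fun a b => by
      have : b ∈ center G := by rw [h]; trivial
      exact (mem_center_iff.mp this a)
    have h3 : commutator G = ⊥ := by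
      rw [commutator_def, eq_bot_iff, commutator_le]
      intro a _ b _
      rw [mem_bot, commutatorElement_def, hcomm a b]
      group
    rw [h3] at hperf
    exact bot_ne_top hperf

/-- A central element of a Sylow `2`-subgroup. -/
theorem exists_central_sylow (Q : Sylow 2 G) (h2 : 2 ∣ Nat.card G) :
    ∃ z : G, z ≠ 1 ∧ z ∈ (Q : Subgroup G) ∧ ¬ 2 ∣ (centralizer ({z} : Set G)).index := by
  classical
  haveI : Fact (Nat.Prime 2) := ⟨Nat.prime_two⟩
  have hne : (Q : Subgroup G) ≠ ⊥ := Q.ne_bot_of_dvd_card h2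
  haveI : Nontrivial (Q : Subgroup G) := (Subgroup.nontrivial_iff_ne_bot _).mpr hne
  have hp : IsPGroup 2 (Q : Subgroup G) := Q.isPGroup'
  haveI := hp.center_nontrivial
  obtain ⟨c, hc⟩ := exists_ne (1 : center (Q : Subgroup G))
  have hz1 : ((c : (Q : Subgroup G)) : G) ≠ 1 := by
    intro h0
    apply hc
    apply Subtype.ext
    apply Subtype.ext
    simpa using h0
  refine ⟨((c : (Q : Subgroup G)) : G), hz1, (c : (Q : Subgroup G)).2, ?_⟩
  intro hdvd
  have hle : (Q : Subgroup G) ≤ centralizer ({((c : (Q : Subgroup G)) : G)} : Set G) := by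
    intro x hx
    rw [mem_centralizer_singleton_iff]
    have h3 := (mem_center_iff.mp c.2) ⟨x, hx⟩
    have h4 := congrArg Subtype.val h3
    simpa using h4
  have hdvd' := Subgroup.index_dvd_of_le hle
  exact Q.not_dvd_index (hdvd.trans hdvd')

variable {M : Ideal AlgInt}

/-- Central characters of characters of odd degree at an element of `2`-power order. -/
theorem not_memLocalIdeal_centralChar (hM : IsPModular 2 M) [M.IsPrime] (η : IrrCharacter G) (hη : ¬ 2 ∣ charDegree (η : G → ℂ))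
    {z : G} {j : ℕ} (hz : z ^ (2 ^ j) = 1) (hI : ¬ 2 ∣ (centralizer ({z} : Set G)).index) :
    ¬ MemLocalIdeal M (centralChar (η : G → ℂ) z) := by
  haveI : Fact (Nat.Prime 2) := ⟨Nat.prime_two⟩
  intro hmem
  have hc := IsIrrCharacter.isCharacter η.2
  have hd := apply_one_eq_charDegree hc
  have hf0 : ((charDegree (η : G → ℂ) : ℕ) : ℂ) ≠ 0 := by
    rw [← hd]
    exact irr_apply_one_ne_zero η
  have h1 : ((centralizer ({z} : Set G)).index : ℂ) * (η : G → ℂ) z = centralChar (η : G → ℂ) z * (charDegree (η : G → ℂ) : ℂ) := by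
    rw [centralChar, hd]
    field_simp
  have hlocz : MemLocalRing M ((η : G → ℂ) z) := memLocalRing_of_isIntegral (irr_isIntegral η z)
  have h2 : MemLocalIdeal M (((centralizer ({z} : Set G)).index : ℂ) * (η : G → ℂ) z) := by
    rw [h1]
    exact MemLocalIdeal.mul_right hmem (MemLocalRing.natCast _)
  rcases MemLocalIdeal.of_mul (MemLocalRing.natCast _) hlocz h2 with h3 | h3
  · exact natCast_not_memLocalIdeal hM hI h3
  · obtain ⟨γ, hγ⟩ := H8Group.exists_character_pow_sub hc hz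
    have h4 : MemLocalIdeal M ((η : G → ℂ) z ^ (2 ^ j)) := MemLocalIdeal.pow h3 (by positivity)
    have h5 : MemLocalIdeal M (((2 : ℕ) : ℂ) * (γ : ℂ)) := MemLocalIdeal.mul_right (p_memLocalIdeal hM) (memLocalRing_of_algInt γ)
    have h6 : (charDegree (η : G → ℂ) : ℂ) = (η : G → ℂ) z ^ (2 ^ j) - ((2 : ℕ) : ℂ) * (γ : ℂ) := by
      rw [← hγ, hd]
      ring
    have h7 : MemLocalIdeal M (charDegree (η : G → ℂ) : ℂ) := by
      rw [h6]
      exact MemLocalIdeal.sub h4 h5
    exact natCast_not_memLocalIdeal hM hη h7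

/-- The central character of a character of degree a power of two vanishes at an element in a class of odd size. -/
theorem centralChar_eq_zero [IsSimpleGroup G] (hperf : commutator G = ⊤) {χ₀ : IrrCharacter G} {a : ℕ}
    (hf : charDegree (χ₀ : G → ℂ) = 2 ^ a) (ha : 1 ≤ a) {z : G} (hz1 : z ≠ 1)
    (hI : ¬ 2 ∣ (centralizer ({z} : Set G)).index) : centralChar (χ₀ : G → ℂ) z = 0 := by
  have hc := IsIrrCharacter.isCharacter χ₀.2
  have hd := apply_one_eq_charDegree hc
  have hcop : Nat.Coprime (charDegree (χ₀ : G → ℂ)) (centralizer ({z} : Set G)).index := by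
    rw [hf]
    apply Nat.Coprime.pow_left
    exact (Nat.Prime.coprime_iff_not_dvd Nat.prime_two).mpr hI
  have hlt : 1 < charDegree (χ₀ : G → ℂ) := by
    rw [hf]
    exact Nat.one_lt_two_pow (by omega)
  rcases apply_eq_zero_or_norm_eq_of_coprime χ₀.2 hd z hcop with h | h
  · rw [centralChar, h]
    simp
  · exact absurd (eq_one_of_norm_eq hperf hlt h) hz1

/-- Divisibility from local membership. -/
theorem pow_dvd_of_local (hM : IsPModular 2 M) [M.IsPrime] {b w n : ℕ} (hG : Nat.card G = 2 ^ b * w) (hw : ¬ 2 ∣ w)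
    (hloc : MemLocalRing M ((Nat.card G : ℂ)⁻¹ * (n : ℂ))) : 2 ^ b ∣ n := by
  classical
  rcases Nat.eq_zero_or_pos n with rfl | hn
  · exact dvd_zero _
  obtain ⟨a, n', hn', rfl⟩ := Nat.exists_eq_pow_mul_and_not_dvd hn.ne' 2 (by norm_num)
  by_cases hab : b ≤ a
  · exact (pow_dvd_pow 2 hab).trans (Dvd.intro _ rfl)
  · exfalso
    obtain ⟨c, rfl⟩ : ∃ c, b = a + (c + 1) := ⟨b - a - 1, by omega⟩
    have hG0 : (Nat.card G : ℂ) ≠ 0 := by exact_mod_cast Nat.card_pos.ne'
    have h2a : ((2 : ℂ) ^ a) ≠ 0 := pow_ne_zero _ two_ne_zero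
    have hw0 : (w : ℂ) ≠ 0 := by
      have : w ≠ 0 := by
        rintro rfl
        exact hw (dvd_zero _)
      exact_mod_cast this
    have h1 : ((Nat.card G : ℂ)⁻¹ * ((2 ^ a * n' : ℕ) : ℂ)) * ((2 ^ (c + 1) * w : ℕ) : ℂ) = (n' : ℂ) := by
      rw [hG]
      push_cast
      rw [pow_add]
      field_simp
    have h2 : MemLocalIdeal M ((2 ^ (c + 1) * w : ℕ) : ℂ) := by
      rw [natCast_memLocalIdeal_iff hM]
      exact ⟨2 ^ c * w, by rw [pow_succ]; ring⟩
    have h3 := MemLocalIdeal.mul_left hloc h2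
    rw [h1] at h3
    exact natCast_not_memLocalIdeal hM hn' h3

/-- The sum of a block indicator against a constant function. -/
theorem sum_indic (s : Finset (IrrCharacter G)) (B : Set (IrrCharacter G)) [DecidablePred (· ∈ B)] (c : ℂ) (F : IrrCharacter G → ℂ)
    (hF : ∀ χ ∈ s, F χ = c) : ∑ χ ∈ s, indic B χ * F χ = ((s.filter (· ∈ B)).card : ℂ) * c := by
  have h1 : ∀ χ ∈ s, indic B χ * F χ = if χ ∈ B then c else 0 := by
    intro χ hχ
    by_cases h : χ ∈ B
    · rw [indic_apply_of_mem h, if_pos h, hF χ hχ, one_mul]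
    · rw [indic_apply_of_notMem h, if_neg h, zero_mul]
  rw [Finset.sum_congr rfl h1, Finset.sum_ite, Finset.sum_const_zero, add_zero, Finset.sum_const, nsmul_eq_mul]

variable {p : ℕ} [hp : Fact p.Prime]

namespace SC

variable {P : Sylow p G} {e m t : ℕ} (h : SC P e m t)

include h

/-- The block of a character of degree a power of two. -/
theorem block_bound [IsSimpleGroup G] (D : Dat P e t) {b w : ℕ} (hG : Nat.card G = 2 ^ b * w) (hw : ¬ 2 ∣ w) {a₁ a₂ : ℕ}
    (hA : ∀ χ ∈ D.A, charDegree (χ : G → ℂ) = a₁) (hB : ∀ χ ∈ D.B, charDegree (χ : G → ℂ) = a₂)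
    (hodd : ∀ θ ∈ D.Y, ¬ 2 ∣ charDegree (θ : G → ℂ)) {χ₀ : IrrCharacter G} (hχ₀ : χ₀ ∈ D.A ∨ χ₀ ∈ D.B) {a : ℕ}
    (hf : charDegree (χ₀ : G → ℂ) = 2 ^ a) (ha : 1 ≤ a) :
    ∃ i j : ℕ, i ≤ D.A.card ∧ j ≤ D.B.card ∧ (χ₀ ∈ D.A → 1 ≤ i) ∧ (χ₀ ∈ D.B → 1 ≤ j) ∧
      ((2 ^ b : ℕ) : ℤ) ∣ (i : ℤ) * a₁ - (j : ℤ) * a₂ := by
  classical
  haveI hfact : Fact (Nat.Prime 2) := ⟨Nat.prime_two⟩
  obtain ⟨M, hM⟩ := exists_isPModular Nat.prime_two
  haveI := isPrime_of_modular hM
  have hperf := h.perfect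
  -- the element `z`
  have h2G : 2 ∣ Nat.card G := by
    have h3 : charDegree (χ₀ : G → ℂ) ∣ Nat.card G := charDegree_dvd_card χ₀.2
    rw [hf] at h3
    exact (dvd_pow_self 2 (by omega)).trans h3
  let Q : Sylow 2 G := default
  obtain ⟨z, hz1, hzQ, hI⟩ := exists_central_sylow Q h2G
  obtain ⟨j₀, hj₀⟩ := (Q.isPGroup' : IsPGroup 2 (Q : Subgroup G)) ⟨z, hzQ⟩
  have hzp : z ^ (2 ^ j₀) = 1 := by
    have := congrArg Subtype.val hj₀
    simpa using this
  -- the block
  let B : Set (IrrCharacter G) := blockOf M (χ₀ : G → ℂ)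
  have hoddB : ∀ η : IrrCharacter G, ¬ 2 ∣ charDegree (η : G → ℂ) → η ∉ B := by
    intro η hη hmem
    have h3 : MemLocalIdeal M (centralChar (χ₀ : G → ℂ) z - centralChar (η : G → ℂ) z) := hmem z
    rw [centralChar_eq_zero hperf hf ha hz1 hI, zero_sub] at h3
    have h4 := MemLocalIdeal.neg h3
    rw [neg_neg] at h4
    exact not_memLocalIdeal_centralChar hM η hη hzp hI h4
  have hself : χ₀ ∈ B := self_mem_blockOf χ₀
  obtain ⟨y, hy, hy1⟩ := h.exists_ne_one_mem
  have hloc := (mem_zS.mp (indic_mem_zS (isPBlock_blockOf (M := M) χ₀))) y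
  have hdeg : ∀ χ : IrrCharacter G, (χ : G → ℂ) 1 = (charDegree (χ : G → ℂ) : ℂ) := fun χ => apply_one_eq_charDegree (IsIrrCharacter.isCharacter χ.2)
  have hone : oneIrr G ∉ B := by
    apply hoddB
    rw [deg_oneIrr]
    norm_num
  refine ⟨(D.A.filter (· ∈ B)).card, (D.B.filter (· ∈ B)).card, Finset.card_filter_le _ _, Finset.card_filter_le _ _, ?_, ?_, ?_⟩
  · intro h3
    exact Finset.card_pos.mpr ⟨χ₀, Finset.mem_filter.mpr ⟨h3, hself⟩⟩
  · intro h3
    exact Finset.card_pos.mpr ⟨χ₀, Finset.mem_filter.mpr ⟨h3, hself⟩⟩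
  -- the coefficient at `y`
  have hsum : ∑ χ : IrrCharacter G, indic B χ * ((χ : G → ℂ) 1 * conj ((χ : G → ℂ) y)) =
      (((D.A.filter (· ∈ B)).card : ℂ) * (a₁ : ℂ) - ((D.B.filter (· ∈ B)).card : ℂ) * (a₂ : ℂ)) := by
    rw [D.sum_decomp, indic_apply_of_notMem hone, zero_mul, zero_add,
      sum_indic D.A B (a₁ : ℂ) _ (fun χ hχ => by rw [hdeg, hA χ hχ, D.A_val χ hχ y hy hy1]; simp),
      sum_indic D.B B (-(a₂ : ℂ)) _ (fun χ hχ => by rw [hdeg, hB χ hχ, D.B_val χ hχ y hy hy1]; simp),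
      Finset.sum_eq_zero (s := D.Y) (fun χ hχ => by rw [indic_apply_of_notMem (hoddB χ (hodd χ hχ)), zero_mul]),
      Finset.sum_eq_zero (s := D.Z) (fun χ hχ => by rw [D.Z_zero hχ y hy hy1]; simp)]
    ring
  have hcoef : coef (indic B) y = (Nat.card G : ℂ)⁻¹ * (((D.A.filter (· ∈ B)).card : ℂ) * (a₁ : ℂ) - ((D.B.filter (· ∈ B)).card : ℂ) * (a₂ : ℂ)) := by
    rw [coef, hsum]
  have hloc' : MemLocalRing M ((Nat.card G : ℂ)⁻¹ * (((D.A.filter (· ∈ B)).card : ℂ) * (a₁ : ℂ) - ((D.B.filter (· ∈ B)).card : ℂ) * (a₂ : ℂ))) := by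
    rw [← hcoef]
    exact hloc
  -- the absolute value
  set N : ℤ := ((D.A.filter (· ∈ B)).card : ℤ) * a₁ - ((D.B.filter (· ∈ B)).card : ℤ) * a₂ with hN
  have hNc : (((D.A.filter (· ∈ B)).card : ℂ) * (a₁ : ℂ) - ((D.B.filter (· ∈ B)).card : ℂ) * (a₂ : ℂ)) = (N : ℂ) := by
    rw [hN]
    push_cast
    rfl
  rw [hNc] at hloc'
  have hloc2 : MemLocalRing M ((Nat.card G : ℂ)⁻¹ * ((N.natAbs : ℕ) : ℂ)) := by
    rcases Int.natAbs_eq N with h3 | h3
    · have h4 : (N : ℂ) = ((N.natAbs : ℕ) : ℂ) := by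
        conv_lhs => rw [h3]
        simp
      rw [← h4]
      exact hloc'
    · have h4 : (N : ℂ) = -((N.natAbs : ℕ) : ℂ) := by
        conv_lhs => rw [h3]
        simp
      rw [h4, mul_neg] at hloc'
      have h5 := MemLocalRing.neg hloc'
      rwa [neg_neg] at h5
  have h3 := pow_dvd_of_local hM hG hw hloc2
  exact Int.natCast_dvd.mpr h3

end SC

end Cfsg.Agent.Lib.BT
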