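import Cfsg.Agent.Lib.BT.Pre

/-! The bound for the number of Sylow subgroups. -/

set_option autoImplicit false
set_option linter.unusedSectionVars false
set_option linter.unusedVariables false

namespace Cfsg.Agent.Lib.BT

open Cfsg Cfsg.Agent.Lib.Char Cfsg.Agent.Lib.Blocks Cfsg.Agent.Lib.Small.BD Subgroup MulAction Module
open scoped ComplexConjugate

universe u

theorem arith_block_I {e b k i j : ℕ} (hk : 2 * e + 2 = 2 ^ k) (hkb : k ≤ b) (hi1 : 1 ≤ i) (hj : 2 * j + 1 ≤ e) (hi : 2 * i + 1 ≤ e)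
    (hdv : ((2 ^ b : ℕ) : ℤ) ∣ (i : ℤ) * ((2 * e + 2 : ℕ) : ℤ) - (j : ℤ) * ((2 * e : ℕ) : ℤ)) :
    2 * 2 ^ b < (2 * e + 2) * (2 * e + 3) := by
  have hK : ((2 * e + 2 : ℕ) : ℤ) ∣ ((2 ^ b : ℕ) : ℤ) := by
    rw [hk]
    exact_mod_cast pow_dvd_pow 2 hkb
  have h1 := hK.trans hdv
  have h2 : ((2 * e + 2 : ℕ) : ℤ) ∣ (j : ℤ) * ((2 * e : ℕ) : ℤ) := by
    have h3 := dvd_sub (Dvd.intro_left (i : ℤ) (rfl : (i : ℤ) * ((2 * e + 2 : ℕ) : ℤ) = _)) h1
    have e1 : (i : ℤ) * ((2 * e + 2 : ℕ) : ℤ) - ((i : ℤ) * ((2 * e + 2 : ℕ) : ℤ) - (j : ℤ) * ((2 * e : ℕ) : ℤ)) = (j : ℤ) * ((2 * e : ℕ) : ℤ) := by ring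
    rwa [e1] at h3
  have h3 : 2 * e + 2 ∣ j * (2 * e) := by exact_mod_cast h2
  obtain ⟨c, hc⟩ := h3
  have h4 : e + 1 ∣ j * e := by
    refine ⟨c, ?_⟩
    have : 2 * (j * e) = 2 * ((e + 1) * c) := by linarith
    omega
  have h5 : Nat.Coprime (e + 1) e := by simp
  have h6 : e + 1 ∣ j := h5.dvd_of_dvd_mul_right h4
  have h7 : j = 0 := Nat.eq_zero_of_dvd_of_lt h6 (by omega)
  subst h7
  have h8 : 2 ^ b ∣ i * (2 * e + 2) := by
    have h9 : ((2 ^ b : ℕ) : ℤ) ∣ ((i * (2 * e + 2) : ℕ) : ℤ) := by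
      simpa using hdv
    exact_mod_cast h9
  have h9 : 2 ^ b ≤ i * (2 * e + 2) := Nat.le_of_dvd (by positivity) h8
  have h10 : 2 * i * (2 * e + 2) < (2 * e + 3) * (2 * e + 2) := Nat.mul_lt_mul_of_pos_right (by omega) (by omega)
  nlinarith

theorem arith_block_II {e b i j : ℕ} (he : 2 ≤ e) (h2e : 2 * e ∣ 2 ^ b) (hi : 2 * i + 2 ≤ e) (hj : 2 * j ≤ e) (hj1 : 1 ≤ j)
    (hdv : ((2 ^ b : ℕ) : ℤ) ∣ (i : ℤ) * ((2 * e + 2 : ℕ) : ℤ) - (j : ℤ) * ((2 * e : ℕ) : ℤ)) :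
    2 ^ b ≤ e * e := by
  have hK : ((2 * e : ℕ) : ℤ) ∣ ((2 ^ b : ℕ) : ℤ) := by exact_mod_cast h2e
  have h1 := hK.trans hdv
  have h2 : ((2 * e : ℕ) : ℤ) ∣ (i : ℤ) * ((2 * e + 2 : ℕ) : ℤ) := by
    have h3 := dvd_add h1 (Dvd.intro_left (j : ℤ) (rfl : (j : ℤ) * ((2 * e : ℕ) : ℤ) = _))
    simpa using h3
  have h3 : 2 * e ∣ i * (2 * e + 2) := by exact_mod_cast h2
  obtain ⟨c, hc⟩ := h3
  have h4 : e ∣ i := by
    have h5 : e * (c - i) = i := by
      have h6 : c * e = i * e + i := by nlinarith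
      have h7 : i ≤ c := by
        by_contra hlt
        have : c + 1 ≤ i := by omega
        have h8 : (c + 1) * e ≤ i * e := Nat.mul_le_mul_right e this
        nlinarith
      obtain ⟨x, rfl⟩ := Nat.exists_eq_add_of_le h7
      simp only [Nat.add_sub_cancel_left]
      nlinarith
    exact ⟨c - i, h5.symm⟩
  have h7 : i = 0 := Nat.eq_zero_of_dvd_of_lt h4 (by omega)
  subst h7
  have h8 : 2 ^ b ∣ j * (2 * e) := by
    have h9 : ((2 ^ b : ℕ) : ℤ) ∣ ((j * (2 * e) : ℕ) : ℤ) := by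
      have h10 := (dvd_neg (a := ((2 ^ b : ℕ) : ℤ))).mpr hdv
      simpa using h10
    exact_mod_cast h9
  have h9 : 2 ^ b ≤ j * (2 * e) := Nat.le_of_dvd (by positivity) h8
  nlinarith

variable {G : Type u} [Group G] [Fintype G] {p : ℕ} [hp : Fact p.Prime]

namespace SC

variable {P : Sylow p G} {e m t : ℕ} (h : SC P e m t)

include h

/-- The first case. -/
theorem bound_I [Fintype (P : Subgroup G)] [IsSimpleGroup G] (D : Dat P e t) {q b g : ℕ} (hq : q.Prime) (hI : (1 + m * p) * e = q ^ b * g) (hg : g < p - 1)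
    (hg0 : 0 < g) (hε : D.ε = 1) (hd : ∀ θ ∈ D.Y, charDegree (θ : G → ℂ) = e) :
    2 * (1 + m * p) < (p + 1) * (p + 2) ∧ ∃ k, p + 1 = 2 ^ k := by
  classical
  obtain ⟨ht, hAf, hBf, hcA, hcB⟩ := h.I_final D hε hd
  have htge := h.t_ge
  have hYc := D.card_Y
  subst ht
  have hpe := h.p_eq
  have he := h.e_ge
  have hYne : D.Y.Nonempty := by
    rw [← Finset.card_pos, hYc]
    omega
  obtain ⟨θ, hθ⟩ := hYne
  have hdg := h.Y_dvd_g D hq hI hg hg0 hθ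
  rw [hd θ hθ] at hdg
  obtain ⟨k, rfl⟩ := hdg
  have hk : k = 1 := by
    have h1 : e * k < e * 2 := by
      have : p - 1 = e * 2 := by omega
      omega
    have h2 : k < 2 := Nat.lt_of_mul_lt_mul_left h1
    have h3 : k ≠ 0 := by
      rintro rfl
      simp at hg0
    omega
  subst hk
  rw [mul_one] at hI hg hg0
  have hv : 1 + m * p = q ^ b := Nat.eq_of_mul_eq_mul_right (by omega) hI
  have hAne : D.A.Nonempty := by
    rw [← Finset.card_pos]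
    omega
  obtain ⟨χ₀, hχ₀⟩ := hAne
  have hf := hAf χ₀ hχ₀
  have hdvd := h.A_dvd D hχ₀
  rw [hI, hf] at hdvd
  have hcop : Nat.Coprime (p + 1) e := by
    have h1 : Nat.Coprime 2 e := (Nat.Prime.coprime_iff_not_dvd Nat.prime_two).mpr (by omega)
    have h2 : Nat.Coprime (e + 1) e := by simp
    have h3 : p + 1 = 2 * (e + 1) := by omega
    rw [h3]
    exact Nat.Coprime.mul_left h1 h2
  have h1 := hcop.dvd_of_dvd_mul_right hdvd
  obtain ⟨k, hkb, hk⟩ := (Nat.dvd_prime_pow hq).mp h1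
  have hk0 : k ≠ 0 := by
    rintro rfl
    simp at hk
    omega
  have hq2 : q = 2 := by
    have h2 : 2 ∣ q ^ k := by
      rw [← hk]
      exact ⟨e + 1, by omega⟩
    have h3 := Nat.Prime.dvd_of_dvd_pow Nat.prime_two h2
    exact ((Nat.prime_dvd_prime_iff_eq Nat.prime_two hq).mp h3).symm
  subst hq2
  have hpodd : ¬ 2 ∣ p := by omega
  have hG : Nat.card G = 2 ^ b * (p * e) := by
    rw [h.card_G, hv]
  have hw : ¬ 2 ∣ p * e := by
    intro h2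
    rcases (Nat.Prime.dvd_mul Nat.prime_two).mp h2 with h3 | h3
    · exact hpodd h3
    · omega
  have hp1 : p + 1 = 2 * e + 2 := by omega
  have hp2 : p - 1 = 2 * e := by omega
  have hAf' : ∀ χ ∈ D.A, charDegree (χ : G → ℂ) = 2 * e + 2 := fun χ hχ => by rw [hAf χ hχ, hp1]
  have hBf' : ∀ χ ∈ D.B, charDegree (χ : G → ℂ) = 2 * e := fun χ hχ => by rw [hBf χ hχ, hp2]
  have hodd : ∀ θ ∈ D.Y, ¬ 2 ∣ charDegree (θ : G → ℂ) := fun θ hθ => by
    rw [hd θ hθ]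
    omega
  obtain ⟨i, j, hi, hj, hi1, -, hdv⟩ := h.block_bound D hG hw hAf' hBf' hodd (Or.inl hχ₀) (a := k) (by rw [hf, hk]) (by omega)
  have hb := arith_block_I (k := k) (by omega) hkb (hi1 hχ₀) (by omega) (by omega) hdv
  refine ⟨?_, k, hk⟩
  rw [hv, hp1, show p + 2 = 2 * e + 3 by omega]
  exact hb

/-- The second case, with `e = 2`. -/
theorem bound_IIa [Fintype (P : Subgroup G)] [IsSimpleGroup G] (D : Dat P e t) (he2 : e = 2) {b d : ℕ} (hdp : d + 2 = p) (hd : ∀ θ ∈ D.Y, charDegree (θ : G → ℂ) = d)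
    (hI : (1 + m * p) * e = 2 ^ b * d) (hG : Nat.card G = 2 ^ b * (p * d)) (hw : ¬ 2 ∣ p * d) (hε : D.ε = -1) :
    2 * (1 + m * p) < (p + 1) * (p + 2) ∧ ∃ k, p = 2 ^ k + 1 := by
  classical
  subst he2
  have hAB := D.card_AB
  have hYc := D.card_Y
  have htge := h.t_ge
  have hp3 := h.p_ge_3
  have hYne : D.Y.Nonempty := by
    rw [← Finset.card_pos, hYc]
    omega
  obtain ⟨θ, hθ⟩ := hYne
  have hrel := h.rel_one D hθ
  rw [hε, hd θ hθ] at hrel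
  have hd0 : 0 < d := by omega
  have hSA : (0 : ℤ) ≤ ∑ χ ∈ D.A, (charDegree (χ : G → ℂ) : ℤ) := Finset.sum_nonneg fun _ _ => by positivity
  have hA0 : D.A.card = 0 := by
    by_contra hne
    have hB0 : D.B.card = 0 := by omega
    rw [Finset.card_eq_zero.mp hB0] at hrel
    simp only [Finset.sum_empty] at hrel
    omega
  have hB1 : D.B.card = 1 := by omega
  rw [Finset.card_eq_zero.mp hA0] at hrel
  obtain ⟨χ₀, hB⟩ := Finset.card_eq_one.mp hB1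
  have hχ₀ : χ₀ ∈ D.B := by rw [hB]; exact Finset.mem_singleton_self _
  rw [hB] at hrel
  simp only [Finset.sum_empty, Finset.sum_singleton] at hrel
  have hf : charDegree (χ₀ : G → ℂ) = d + 1 := by omega
  have hdvd := h.B_dvd D hχ₀
  rw [hI, hf] at hdvd
  have hcop : Nat.Coprime (d + 1) d := by simp
  have h1 := hcop.dvd_of_dvd_mul_right hdvd
  obtain ⟨a, hab, ha⟩ := (Nat.dvd_prime_pow Nat.prime_two).mp h1
  have ha0 : a ≠ 0 := by
    rintro rfl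
    simp at ha
    omega
  have hodd : ∀ θ ∈ D.Y, ¬ 2 ∣ charDegree (θ : G → ℂ) := fun θ hθ => by
    rw [hd θ hθ]
    intro h2
    exact hw (Dvd.dvd.mul_left h2 p)
  have hAf' : ∀ χ ∈ D.A, charDegree (χ : G → ℂ) = 0 := fun χ hχ => by
    rw [Finset.card_eq_zero.mp hA0] at hχ
    simp at hχ
  have hBf' : ∀ χ ∈ D.B, charDegree (χ : G → ℂ) = d + 1 := fun χ hχ => by
    rw [hB] at hχ
    rw [Finset.mem_singleton.mp hχ, hf]
  obtain ⟨i, j, hi, hj, -, hj1, hdv⟩ := h.block_bound D hG hw hAf' hBf' hodd (Or.inr hχ₀) (a := a) (by rw [hf, ha]) (by omega)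
  have hj2 : j = 1 := by
    have := hj1 hχ₀
    omega
  subst hj2
  have h2 : 2 ^ b ∣ 2 ^ a := by
    have h3 : ((2 ^ b : ℕ) : ℤ) ∣ ((2 ^ a : ℕ) : ℤ) := by
      have h4 := (dvd_neg (a := ((2 ^ b : ℕ) : ℤ))).mpr hdv
      have h5 : -((i : ℤ) * ((0 : ℕ) : ℤ) - ((1 : ℕ) : ℤ) * ((d + 1 : ℕ) : ℤ)) = ((2 ^ a : ℕ) : ℤ) := by
        rw [← ha]
        push_cast
        ring
      rwa [h5] at h4
    exact_mod_cast h3
  have hba : b ≤ a := (Nat.pow_dvd_pow_iff_le_right (by norm_num)).mp h2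
  have hab' : a = b := le_antisymm hab hba
  subst hab'
  refine ⟨?_, a, by omega⟩
  rw [mul_comm 2, hI, ← ha]
  have h3 : (d + 1) * d < (d + 3) * (d + 4) := Nat.mul_lt_mul'' (by omega) (by omega)
  have h4 : p + 1 = d + 3 := by omega
  have h5 : p + 2 = d + 4 := by omega
  rw [h4, h5]
  exact h3

end SC

end Cfsg.Agent.Lib.BT
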