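import Cfsg.Agent.Lib.BT.Bound

/-! The bound for the number of Sylow subgroups, second case. -/

set_option autoImplicit false
set_option linter.unusedSectionVars false
set_option linter.unusedVariables false

namespace Cfsg.Agent.Lib.BT

open Cfsg Cfsg.Agent.Lib.Char Cfsg.Agent.Lib.Blocks Cfsg.Agent.Lib.Small.BD Subgroup MulAction Module
open scoped ComplexConjugate

universe u

variable {G : Type u} [Group G] [Fintype G] {p : ℕ} [hp : Fact p.Prime]

namespace SC

variable {P : Sylow p G} {e m t : ℕ} (h : SC P e m t)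

include h

/-- There is a character of degree not divisible by `4`. -/
theorem exists_not_four [Fintype (P : Subgroup G)] (D : Dat P e t) {d t' : ℕ} (hd : ∀ θ ∈ D.Y, charDegree (θ : G → ℂ) = d) (hε : D.ε = -1)
    (h4 : 4 ∣ e) (hdt : d = t' * e + 1) :
    ∃ χ, (χ ∈ D.A ∨ χ ∈ D.B) ∧ ¬ 4 ∣ charDegree (χ : G → ℂ) := by
  by_contra hall
  push Not at hall
  have hYc := D.card_Y
  have htge := h.t_ge
  have hYne : D.Y.Nonempty := by
    rw [← Finset.card_pos, hYc]
    omega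
  obtain ⟨θ, hθ⟩ := hYne
  have hrel := h.rel_one D hθ
  rw [hε, hd θ hθ] at hrel
  have h1 : (4 : ℤ) ∣ ∑ χ ∈ D.A, (charDegree (χ : G → ℂ) : ℤ) := Finset.dvd_sum fun χ hχ => by
    exact_mod_cast hall χ (Or.inl hχ)
  have h2 : (4 : ℤ) ∣ ∑ χ ∈ D.B, (charDegree (χ : G → ℂ) : ℤ) := Finset.dvd_sum fun χ hχ => by
    exact_mod_cast hall χ (Or.inr hχ)
  have h3 : 4 ∣ t' * e := Dvd.dvd.mul_left h4 t'
  omega

/-- The second case, with `4 ∣ e`: the structure. -/
theorem IIb_t [Fintype (P : Subgroup G)] (D : Dat P e t) {b d t' : ℕ} (ht : t = t' + 1) (ht' : 1 ≤ t') (hd : ∀ θ ∈ D.Y, charDegree (θ : G → ℂ) = d) (hε : D.ε = -1)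
    (h4 : 4 ∣ e) (hdt : d = t' * e + 1) (hdp : d + e = p) (hI : (1 + m * p) * e = 2 ^ b * d) (hg : d < p - 1)
    (hd0 : 0 < d) : t = 2 := by
  classical
  obtain ⟨χ, hχ, h4χ⟩ := h.exists_not_four D hd hε h4 hdt
  have he := h.e_ge
  have hpe := h.p_eq
  have hpp := hp.out.one_lt
  have hdodd : ¬ 2 ∣ d := by
    have h3 : 2 ∣ t' * e := Dvd.dvd.mul_left (Dvd.dvd.trans (by norm_num) h4) t'
    omega
  -- the evenness of the degree
  have hev : 2 ∣ charDegree (χ : G → ℂ) := by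
    rcases hχ with hχ | hχ
    · exact h.q_dvd_A D Nat.prime_two hI hg hd0 hχ
    · exact h.q_dvd_B D Nat.prime_two hI hg hd0 hχ
  obtain ⟨f', hf'⟩ := hev
  have hf'odd : ¬ 2 ∣ f' := by
    rintro ⟨x, rfl⟩
    exact h4χ ⟨x, by rw [hf']; ring⟩
  have hdvd : charDegree (χ : G → ℂ) ∣ 2 ^ b * d := by
    rw [← hI]
    rcases hχ with hχ | hχ
    · exact h.A_dvd D hχ
    · exact h.B_dvd D hχ
  have hf'd : f' ∣ d := by
    have h1 : f' ∣ 2 ^ b * d := (Dvd.intro_left 2 hf'.symm).trans hdvd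
    have h2 : Nat.Coprime f' (2 ^ b) := Nat.Coprime.pow_right b ((Nat.Prime.coprime_iff_not_dvd Nat.prime_two).mpr hf'odd).symm
    exact h2.dvd_of_dvd_mul_left h1
  have hf'le : f' ≤ d := Nat.le_of_dvd hd0 hf'd
  have hf'0 : 0 < f' := Nat.pos_of_ne_zero (by
    rintro rfl
    exact hf'odd (dvd_zero _))
  rcases hχ with hχ | hχ
  · -- `f = p + 1`
    have h1 := h.A_T D hχ
    have h2 := h.A_T_ge D hχ
    have hT : T (P : Subgroup G) χ = 2 := by
      by_contra hne
      have h3 : 3 ≤ T (P : Subgroup G) χ := by omega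
      have h5 : (3 : ℤ) * p ≤ (T (P : Subgroup G) χ : ℤ) * p := by
        apply mul_le_mul_of_nonneg_right _ (by positivity)
        exact_mod_cast h3
      omega
    rw [hT] at h1
    push_cast at h1
    have h3 : 2 * f' = p + 1 := by omega
    obtain ⟨k, hk⟩ := hf'd
    have hk1 : k = 1 := by
      have h5 : f' * k < f' * 2 := by
        rw [← hk]
        omega
      have h6 : k < 2 := Nat.lt_of_mul_lt_mul_left h5
      have h7 : k ≠ 0 := by
        rintro rfl
        omega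
      omega
    subst hk1
    rw [mul_one] at hk
    have h5 : p = 2 * e + 1 := by omega
    rw [hpe] at h5
    have h6 : t * e = 2 * e := by omega
    exact Nat.eq_of_mul_eq_mul_right (by omega) h6
  · -- `f = p - 1` is impossible
    exfalso
    have h1 := h.B_T D hχ
    have hT : T (P : Subgroup G) χ = 0 := by
      by_contra hne
      have h3 : 1 ≤ T (P : Subgroup G) χ := by omega
      have h5 : (1 : ℤ) * p ≤ (T (P : Subgroup G) χ : ℤ) * p := by
        apply mul_le_mul_of_nonneg_right _ (by positivity)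
        exact_mod_cast h3
      omega
    rw [hT] at h1
    push_cast at h1
    have h3 : 2 * f' + 1 = p := by omega
    have h5 : f' ∣ e - 1 := by
      have h6 : f' ∣ d + (e - 1) := ⟨2, by omega⟩
      exact (Nat.dvd_add_right hf'd).mp h6
    have h6 : f' ≤ e - 1 := Nat.le_of_dvd (by omega) h5
    -- `2 f' = t e ≥ 2 e`
    have h7 : t * e = 2 * f' := by omega
    have h8 : 2 * e ≤ t * e := Nat.mul_le_mul_right e h.t_ge
    omega

/-- The second case, with `4 ∣ e`. -/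
theorem bound_IIb [Fintype (P : Subgroup G)] [IsSimpleGroup G] (D : Dat P e t) {b d t' s : ℕ} (ht : t = t' + 1) (ht' : 1 ≤ t') (hd : ∀ θ ∈ D.Y, charDegree (θ : G → ℂ) = d)
    (hε : D.ε = -1) (hes : e = 2 ^ s) (h4 : 4 ∣ e) (hdt : d = t' * e + 1) (hdp : d + e = p) (hI : (1 + m * p) * e = 2 ^ b * d) (hg : d < p - 1)
    (hd0 : 0 < d) (hG : Nat.card G = 2 ^ b * (p * d)) (hw : ¬ 2 ∣ p * d) :
    2 * (1 + m * p) < (p + 1) * (p + 2) ∧ ∃ k, p = 2 ^ k + 1 := by
  classical
  have ht2 := h.IIb_t D ht ht' hd hε h4 hdt hdp hI hg hd0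
  subst ht2
  have hpe := h.p_eq
  have he := h.e_ge
  have ht1 : t' = 1 := by omega
  subst ht1
  rw [one_mul] at hdt
  subst hdt
  have hpodd : ¬ 2 ∣ p := by omega
  have hevP : ∀ (χ : IrrCharacter G) (x : ℤ), 2 ∣ charDegree (χ : G → ℂ) → (T (P : Subgroup G) χ : ℤ) * p = charDegree (χ : G → ℂ) + x * (p - 1) → Even (T (P : Subgroup G) χ) := by
    intro χ x h1 h2
    have h3 : (2 : ℤ) ∣ (T (P : Subgroup G) χ : ℤ) * p := by
      rw [h2]
      apply dvd_add
      · exact_mod_cast h1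
      · apply Dvd.dvd.mul_left
        have : (p : ℤ) - 1 = 2 * (e : ℤ) := by omega
        rw [this]
        exact Dvd.intro _ rfl
    have h4 : 2 ∣ T (P : Subgroup G) χ * p := by exact_mod_cast h3
    rcases (Nat.Prime.dvd_mul Nat.prime_two).mp h4 with h5 | h5
    · exact even_iff_two_dvd.mpr h5
    · exact absurd h5 hpodd
  have hAev : ∀ χ ∈ D.A, Even (T (P : Subgroup G) χ) := fun χ hχ =>
    hevP χ 1 (h.q_dvd_A D Nat.prime_two hI hg hd0 hχ) (by rw [h.A_T D hχ]; ring)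
  have hBev : ∀ χ ∈ D.B, Even (T (P : Subgroup G) χ) := fun χ hχ =>
    hevP χ (-1) (h.q_dvd_B D Nat.prime_two hI hg hd0 hχ) (by rw [h.B_T D hχ]; ring)
  have hev : Even e := even_iff_two_dvd.mpr (Dvd.dvd.trans (by norm_num) h4)
  obtain ⟨hAf, hBf, hcA, hcB⟩ := h.II_final D hε hd rfl hev hAev hBev
  have hBne : D.B.Nonempty := by
    rw [← Finset.card_pos]
    omega
  obtain ⟨χ₀, hχ₀⟩ := hBne
  have hp1 : p + 1 = 2 * e + 2 := by omega
  have hp2 : p - 1 = 2 * e := by omega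
  have hAf' : ∀ χ ∈ D.A, charDegree (χ : G → ℂ) = 2 * e + 2 := fun χ hχ => by rw [hAf χ hχ, hp1]
  have hBf' : ∀ χ ∈ D.B, charDegree (χ : G → ℂ) = 2 * e := fun χ hχ => by rw [hBf χ hχ, hp2]
  have hodd : ∀ θ ∈ D.Y, ¬ 2 ∣ charDegree (θ : G → ℂ) := fun θ hθ => by
    rw [hd θ hθ]
    intro h2
    exact hw (Dvd.dvd.mul_left h2 p)
  have hf : charDegree (χ₀ : G → ℂ) = 2 ^ (s + 1) := by
    rw [hBf' χ₀ hχ₀, hes, pow_succ]
    ring
  obtain ⟨i, j, hi, hj, -, hj1, hdv⟩ := h.block_bound D hG hw hAf' hBf' hodd (Or.inr hχ₀) (a := s + 1) hf (by omega)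
  have h2e : 2 * e ∣ 2 ^ b := by
    have h1 := h.B_dvd D hχ₀
    rw [hI, hBf' χ₀ hχ₀] at h1
    have h2 : Nat.Coprime (2 * e) (e + 1) := by
      have h0 : 2 * e = 2 ^ (s + 1) := by rw [hes, pow_succ]; ring
      rw [h0]
      apply Nat.Coprime.pow_left
      exact (Nat.Prime.coprime_iff_not_dvd Nat.prime_two).mpr (fun h3 => hw (Dvd.dvd.mul_left h3 p))
    exact h2.dvd_of_dvd_mul_right h1
  have hb := arith_block_II he h2e (by omega) (by omega) (hj1 hχ₀) hdv
  refine ⟨?_, s + 1, ?_⟩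
  · -- the bound
    have h3 : (1 + m * p) * e ≤ (e * (e + 1)) * e := by
      rw [hI]
      calc 2 ^ b * (e + 1) ≤ (e * e) * (e + 1) := Nat.mul_le_mul_right _ hb
        _ = (e * (e + 1)) * e := by ring
    have h5 : 1 + m * p ≤ e * (e + 1) := Nat.le_of_mul_le_mul_right h3 (by omega)
    rw [hp1, show p + 2 = 2 * e + 3 by omega]
    nlinarith
  · rw [hpe, hes, pow_succ]
    ring

/-- The second case. -/
theorem bound_II [Fintype (P : Subgroup G)] [IsSimpleGroup G] (D : Dat P e t) {q b g : ℕ} (hq : q.Prime) (hI : (1 + m * p) * e = q ^ b * g) (hg : g < p - 1)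
    (hg0 : 0 < g) (hε : D.ε = -1) {d : ℕ} (hd : ∀ θ ∈ D.Y, charDegree (θ : G → ℂ) = d) (hdp : d + e = p) :
    2 * (1 + m * p) < (p + 1) * (p + 2) ∧ ∃ k, p = 2 ^ k + 1 := by
  classical
  have htge := h.t_ge
  have he := h.e_ge
  have hpe := h.p_eq
  have hYc := D.card_Y
  have hYne : D.Y.Nonempty := by
    rw [← Finset.card_pos, hYc]
    omega
  obtain ⟨θ, hθ⟩ := hYne
  obtain ⟨t', rfl⟩ : ∃ t', t = t' + 1 := ⟨t - 1, by omega⟩
  have ht' : 1 ≤ t' := by omega
  have hdt : d = t' * e + 1 := by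
    have : (t' + 1) * e = t' * e + e := by ring
    omega
  have hle : e ≤ t' * e := Nat.le_mul_of_pos_left e (by omega)
  -- the factorization of `e`
  obtain ⟨s, e', he', hes⟩ := Nat.exists_eq_pow_mul_and_not_dvd (show e ≠ 0 by omega) q hq.ne_one
  have hdg := h.Y_dvd_g D hq hI hg hg0 hθ
  rw [hd θ hθ] at hdg
  have he'g : e' ∣ g := by
    have h1 : e' ∣ q ^ b * g := by
      rw [← hI]
      apply Dvd.dvd.mul_left
      rw [hes]
      exact Dvd.intro_left _ rfl
    have h2 : Nat.Coprime e' (q ^ b) := Nat.Coprime.pow_right b ((Nat.Prime.coprime_iff_not_dvd hq).mpr he').symm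
    exact h2.dvd_of_dvd_mul_left h1
  have hcop : Nat.Coprime d e := by
    rw [← Nat.isCoprime_iff_coprime]
    refine ⟨1, -t', ?_⟩
    rw [hdt]
    push_cast
    ring
  have hcop' : Nat.Coprime d e' := by
    apply Nat.Coprime.coprime_dvd_right _ hcop
    rw [hes]
    exact Dvd.intro_left _ rfl
  have hdeg := hcop'.mul_dvd_of_dvd_of_dvd hdg he'g
  have hle2 := Nat.le_of_dvd hg0 hdeg
  have hde : 2 * d > p - 1 := by
    have h1 : (t' + 1) * e = t' * e + e := by ring
    omega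
  have he'1 : e' = 1 := by
    by_contra hne
    have h0 : e' ≠ 0 := by
      rintro rfl
      exact he' (dvd_zero _)
    have h2 : 2 ≤ e' := by omega
    have h3 : d * 2 ≤ d * e' := Nat.mul_le_mul_left d h2
    omega
  subst he'1
  rw [mul_one] at hes hdeg
  have hgd : g = d := by
    obtain ⟨k, hk⟩ := hdeg
    have hd0 : 0 < d := by omega
    have hk1 : k = 1 := by
      have h5 : d * k < d * 2 := by
        rw [← hk]
        omega
      have h6 : k < 2 := Nat.lt_of_mul_lt_mul_left h5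
      have h7 : k ≠ 0 := by
        rintro rfl
        simp at hk
        omega
      omega
    rw [hk, hk1, mul_one]
  subst hgd
  have hs0 : s ≠ 0 := by
    rintro rfl
    simp at hes
    omega
  have hqe : q ∣ e := by
    rw [hes]
    exact dvd_pow_self q hs0
  -- `q = 2`
  have hq2 : q = 2 := by
    have h1 := h.q_dvd_eps D hq hI hg hg0 hθ
    rw [hε, hd θ hθ] at h1
    have h2 : (q : ℤ) ∣ (t' : ℤ) * e := Dvd.dvd.mul_left (by exact_mod_cast hqe) _
    have h3 : (q : ℤ) ∣ 2 := by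
      have h4 := dvd_sub h2 (dvd_neg.mpr h1)
      have e1 : (t' : ℤ) * e - -(-1 * (g : ℤ) - 1) = -2 := by
        rw [hdt]
        push_cast
        ring
      rw [e1] at h4
      exact (dvd_neg.mp h4)
    have h4 : q ∣ 2 := by exact_mod_cast h3
    exact (Nat.prime_dvd_prime_iff_eq hq Nat.prime_two).mp h4
  subst hq2
  have hd0 : 0 < g := hg0
  have hdodd : ¬ 2 ∣ g := h.not_q_dvd_Y D Nat.prime_two hI hg hg0 hθ |> fun h1 => by
    rwa [hd θ hθ] at h1
  have hpodd : ¬ 2 ∣ p := by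
    intro h1
    have := (Nat.prime_dvd_prime_iff_eq Nat.prime_two hp.out).mp h1
    have := h.p_ge_3
    omega
  have hw : ¬ 2 ∣ p * g := by
    intro h1
    rcases (Nat.Prime.dvd_mul Nat.prime_two).mp h1 with h3 | h3
    · exact hpodd h3
    · exact hdodd h3
  have hG : Nat.card G = 2 ^ b * (p * g) := by
    rw [h.card_G]
    have : (1 + m * p) * (p * e) = ((1 + m * p) * e) * p := by ring
    rw [this, hI]
    ring
  by_cases hs1 : s = 1
  · subst hs1
    have he2 : e = 2 := by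
      rw [hes]
      norm_num
    have hdp' : g + 2 = p := by omega
    exact h.bound_IIa D he2 hdp' hd hI hG hw hε
  · have h4 : 4 ∣ e := by
      rw [hes]
      exact pow_dvd_pow 2 (show 2 ≤ s by omega)
    exact h.bound_IIb D rfl ht' hd hε hes h4 hdt hdp hI hg hg0 hG hw

/-- The main bound. -/
theorem bound_main [IsSimpleGroup G] {q b g : ℕ} (hq : q.Prime) (hI : (1 + m * p) * e = q ^ b * g) (hg : g < p - 1)
    (hg0 : 0 < g) : 2 * (1 + m * p) < (p + 1) * (p + 2) ∧ ((∃ k, p + 1 = 2 ^ k) ∨ (∃ k, p = 2 ^ k + 1)) := by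
  classical
  letI : Fintype (P : Subgroup G) := Fintype.ofFinite _
  obtain ⟨D⟩ := h.exists_dat
  have htge := h.t_ge
  have hYc := D.card_Y
  have hYne : D.Y.Nonempty := by
    rw [← Finset.card_pos, hYc]
    omega
  obtain ⟨θ, hθ⟩ := hYne
  rcases h.Y_cases D hq hI hg hg0 hθ with ⟨hε, hd⟩ | ⟨hε, hd⟩
  · obtain ⟨h1, h2⟩ := h.bound_I D hq hI hg hg0 hε (fun θ' hθ' => by rw [h.Y_deg D hθ' hθ, hd])
    exact ⟨h1, Or.inl h2⟩
  · obtain ⟨h1, h2⟩ := h.bound_II D hq hI hg hg0 hε (d := charDegree (θ : G → ℂ)) (fun θ' hθ' => h.Y_deg D hθ' hθ) hd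
    exact ⟨h1, Or.inr h2⟩

end SC

end Cfsg.Agent.Lib.BT
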