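import Cfsg.Agent.Lib.BT.Tens

/-! The case where the exceptional characters have degree `e`. -/

set_option autoImplicit false
set_option linter.unusedSectionVars false
set_option linter.unusedVariables false

namespace Cfsg.Agent.Lib.BT

open Cfsg Cfsg.Agent.Lib.Char Cfsg.Agent.Lib.Blocks Cfsg.Agent.Lib.Small.BD Subgroup MulAction
open scoped ComplexConjugate

universe u

theorem arith_I1 {e t p SA SB SAT SBT SZT c : ℕ} (he : 2 ≤ e) (ht : 2 ≤ t) (hp : p = t * e + 1)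
    (h1 : e = 1 + (SAT + (SBT + (c * 0 + SZT))))
    (h2 : ((e * e : ℕ) : ℤ) = ((1 : ℕ) : ℤ) + (p : ℤ) * (SAT : ℕ) - ((p : ℤ) - 1) * (SA : ℕ) + (p : ℤ) * (SBT : ℕ) + ((p : ℤ) - 1) * (SB : ℕ) + (c : ℕ) * (e : ℕ) + (p : ℤ) * (SZT : ℕ))
    (hA : 2 * SA ≤ SAT) :
    t = 2 ∧ c = 0 ∧ SB = 0 ∧ 2 * SA + 1 = e ∧ SAT = 2 * SA ∧ SBT = 0 ∧ SZT = 0 := by
  subst hp
  have h1' : (e : ℤ) = 1 + SAT + SBT + SZT := by
    have : e = 1 + SAT + SBT + SZT := by omega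
    exact_mod_cast this
  have he0 : (e : ℤ) ≠ 0 := by
    have : e ≠ 0 := by omega
    exact_mod_cast this
  push_cast at h2
  have h3 : (t : ℤ) * ((SA : ℤ) - SB) = ((t : ℤ) - 1) * ((e : ℤ) - 1) + c := by
    apply mul_left_cancel₀ he0
    linear_combination h2 - ((t : ℤ) * e + 1) * h1'
  have hA' : (t : ℤ) * (2 * SA) ≤ t * SAT := by
    apply mul_le_mul_of_nonneg_left _ (by positivity)
    exact_mod_cast hA
  have h4 : (t : ℤ) * SAT = t * ((e : ℤ) - 1 - SBT - SZT) := by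
    rw [h1']
    ring
  have key : ((t : ℤ) - 2) * ((e : ℤ) - 1) + 2 * c + 2 * (t * SB) + t * (SBT + SZT) ≤ 0 := by
    nlinarith [hA', h3, h4]
  have p1 : 0 ≤ ((t : ℤ) - 2) * ((e : ℤ) - 1) := by
    apply mul_nonneg
    · have : (2 : ℤ) ≤ t := by exact_mod_cast ht
      linarith
    · have : (2 : ℤ) ≤ e := by exact_mod_cast he
      linarith
  have p2 : (0 : ℤ) ≤ t * SB := by positivity
  have p3 : (0 : ℤ) ≤ t * (SBT + SZT) := by positivity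
  have p4 : (0 : ℤ) ≤ c := by positivity
  have hc : (c : ℤ) = 0 := by linarith
  have hSB : (t : ℤ) * SB = 0 := by linarith
  have hS2 : (t : ℤ) * (SBT + SZT) = 0 := by linarith
  have hT : ((t : ℤ) - 2) * ((e : ℤ) - 1) = 0 := by linarith
  have ht2 : t = 2 := by
    have h5 : (e : ℤ) - 1 ≠ 0 := by
      have : (2 : ℤ) ≤ e := by exact_mod_cast he
      intro h6
      linarith
    have h6 := (mul_eq_zero.mp hT).resolve_right h5
    have : (t : ℤ) = 2 := by linarith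
    exact_mod_cast this
  have ht0 : (t : ℤ) ≠ 0 := by
    rw [ht2]
    norm_num
  have hSB0 : (SB : ℤ) = 0 := (mul_eq_zero.mp hSB).resolve_left ht0
  have h7 : (SBT : ℤ) + SZT = 0 := (mul_eq_zero.mp hS2).resolve_left ht0
  have hc0 : c = 0 := by exact_mod_cast hc
  have hSB' : SB = 0 := by exact_mod_cast hSB0
  have h8 : SBT + SZT = 0 := by exact_mod_cast h7
  have h9 : 2 * SA + 1 = e := by
    rw [ht2, hSB0, hc] at h3
    push_cast at h3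
    have : (2 : ℤ) * SA + 1 = e := by linarith
    exact_mod_cast this
  subst ht2
  omega

theorem arith_I2 {e SA SB XB n₁ n₂ : ℕ} (he : e = 2 * SB + (n₁ + n₂)) (hA : 2 * SA + 1 = e)
    (hSq : XB + (n₁ * n₁ + n₂ * n₂) ≤ 1 + SA) (hXB : SB ≤ XB) : XB = SB ∧ 2 * SB + 1 = e := by
  have h1 : n₁ ≤ n₁ * n₁ := Nat.le_mul_self n₁
  have h2 : n₂ ≤ n₂ * n₂ := Nat.le_mul_self n₂
  have h3 : n₁ + n₂ = 1 := by omega
  have h4 : n₁ * n₁ + n₂ * n₂ = 1 := by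
    have h5 : (n₁ = 0 ∧ n₂ = 1) ∨ (n₁ = 1 ∧ n₂ = 0) := by omega
    rcases h5 with ⟨rfl, rfl⟩ | ⟨rfl, rfl⟩ <;> norm_num
  omega

variable {G : Type u} [Group G] [Fintype G] {p : ℕ} [hp : Fact p.Prime]

namespace SC

variable {P : Sylow p G} {e m t : ℕ} (h : SC P e m t)

include h

theorem p_eq : p = t * e + 1 := by
  have h1 := h.te
  have h2 := hp.out.one_lt
  omega

/-- `T = 0` on the exceptional characters of degree `e`. -/
theorem I_T [Fintype (P : Subgroup G)] (D : Dat P e t) (hε : D.ε = 1) (hd : ∀ θ ∈ D.Y, charDegree (θ : G → ℂ) = e)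
    {θ : IrrCharacter G} (hθ : θ ∈ D.Y) : T (P : Subgroup G) θ = 0 := by
  have h1 := h.Y_T D hθ
  rw [hε, hd θ hθ] at h1
  have hp0 : (p : ℤ) ≠ 0 := by exact_mod_cast hp.out.ne_zero
  have h2 : (T (P : Subgroup G) θ : ℤ) * p = 0 := by rw [h1]; ring
  have h3 := (mul_eq_zero.mp h2).resolve_right hp0
  exact_mod_cast h3

/-- The constituents of `θ θ̄`. -/
theorem I_lam1 [Fintype (P : Subgroup G)] (D : Dat P e t) (hε : D.ε = 1) (hd : ∀ θ ∈ D.Y, charDegree (θ : G → ℂ) = e)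
    {θ : IrrCharacter G} (hθ : θ ∈ D.Y) {mm : IrrCharacter G → ℕ} (hdec : Dec (Lam θ θ) mm) :
    t = 2 ∧ 2 * ∑ χ ∈ D.A, mm χ + 1 = e ∧ mm (oneIrr G) = 1 ∧ (∀ χ ∈ D.A, mm χ ≤ 1) ∧
      (∀ χ ∈ D.A, mm χ ≠ 0 → T (P : Subgroup G) χ = 2) ∧ (∀ χ ∈ D.B, mm χ = 0) ∧ (∀ χ ∈ D.Y, mm χ = 0) ∧ (∀ χ ∈ D.Z, mm χ = 0) := by
  classical
  have hT := fun θ' hθ' => h.I_T D hε hd (θ := θ') hθ'
  have hpe := h.p_eq
  have hone := hdec.one_self
  have he := h.e_ge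
  have hpc : (p : ℂ) = (t : ℂ) * e + 1 := by exact_mod_cast hpe
  have hc1 : Lam θ θ 1 = ((e * e : ℕ) : ℂ) := by rw [Lam_one, hd θ hθ]
  have hsum : ∑ y : (P : Subgroup G), Lam θ θ y = (e : ℂ) * (Nat.card (P : Subgroup G) : ℂ) := by
    rw [h.Lam_sum_self D hθ, hc1, h.card_P]
    push_cast
    ring
  have hdeg := hdec.deg hc1
  have hTsum := hdec.T_sum (P : Subgroup G) hsum
  obtain ⟨h1, h2⟩ := h.tens D mm hdeg hTsum (τ := 0) hT hd
  rw [hone] at h1 h2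
  have hA : 2 * ∑ χ ∈ D.A, mm χ ≤ ∑ χ ∈ D.A, mm χ * T (P : Subgroup G) χ := by
    rw [Finset.mul_sum]
    refine Finset.sum_le_sum fun χ hχ => ?_
    rw [mul_comm]
    exact Nat.mul_le_mul_left _ (h.A_T_ge D hχ)
  obtain ⟨ht2, hc, hSB, hSA, hSAT, hSBT, hSZT⟩ := arith_I1 he h.t_ge hpe h1 h2 hA
  refine ⟨ht2, hSA, hone, ?_, ?_, ?_, ?_, ?_⟩
  · -- the multiplicities on `A`
    intro χ hχ
    have hTχ : T (P : Subgroup G) χ ≠ 0 := by
      have := h.A_T_ge D hχ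
      omega
    obtain ⟨ψ, hψ⟩ := h.exists_LL_ne hTχ
    have hL := hdec.L_sum (P : Subgroup G) ψ
    have hi := inner_sub_of_agree ψ (isClassFunction_Lam θ θ) (F₂ := 0) (by intro g x; rfl) (fun g hg hgP => by
      simp only [Lam, h.vanish_of_T_zero (hT θ hθ) hg hgP]
      simp)
    rw [classInner_zero_right, sub_zero] at hi
    have h3 : ∑ y : (P : Subgroup G), conj (Lam θ θ y - (0 : G → ℂ) y) = (e : ℂ) * (Nat.card (P : Subgroup G) : ℂ) := by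
      simp only [Pi.zero_apply, sub_zero]
      rw [← map_sum, hsum]
      simp
    rw [h3, h.card_N, h.card_P, hL] at hi
    have hpe0 : ((p * e : ℕ) : ℂ) ≠ 0 := by
      have : p * e ≠ 0 := Nat.mul_ne_zero hp.out.ne_zero (by omega)
      exact_mod_cast this
    have h4 : ((∑ χ : IrrCharacter G, mm χ * LL (P : Subgroup G) ψ χ : ℕ) : ℂ) = 1 := by
      rw [hi]
      push_cast at hpe0 ⊢
      rw [show (e : ℂ) * (p : ℂ) = (p : ℂ) * e by ring]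
      exact inv_mul_cancel₀ hpe0
    have h5 : ∑ χ : IrrCharacter G, mm χ * LL (P : Subgroup G) ψ χ = 1 := by exact_mod_cast h4
    have h6 : mm χ * LL (P : Subgroup G) ψ χ ≤ 1 := by
      rw [← h5]
      exact Finset.single_le_sum (f := fun χ => mm χ * LL (P : Subgroup G) ψ χ) (fun _ _ => Nat.zero_le _) (Finset.mem_univ χ)
    have h7 : mm χ ≤ mm χ * LL (P : Subgroup G) ψ χ := Nat.le_mul_of_pos_right _ (Nat.pos_of_ne_zero hψ)
    omega
  · -- the values of `T` on `A`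
    intro χ hχ hne
    have h3 : ∑ χ ∈ D.A, 2 * mm χ = ∑ χ ∈ D.A, mm χ * T (P : Subgroup G) χ := by
      rw [hSAT, Finset.mul_sum]
    have h4 := (Finset.sum_eq_sum_iff_of_le (fun χ hχ => by
      rw [mul_comm]
      exact Nat.mul_le_mul_left _ (h.A_T_ge D hχ))).mp h3 χ hχ
    have h5 : mm χ * 2 = mm χ * T (P : Subgroup G) χ := by rw [mul_comm]; exact h4
    exact (Nat.eq_of_mul_eq_mul_left (Nat.pos_of_ne_zero hne) h5).symm
  · exact fun χ hχ => (Finset.sum_eq_zero_iff.mp hSB) χ hχ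
  · exact fun χ hχ => (Finset.sum_eq_zero_iff.mp hc) χ hχ
  · intro χ hχ
    have h3 := (Finset.sum_eq_zero_iff.mp hSZT) χ hχ
    have h4 := h.Z_T_ge D hχ
    exact (Nat.mul_eq_zero.mp h3).resolve_right (by omega)

/-- The final structure in the first case. -/
theorem I_final [Fintype (P : Subgroup G)] (D : Dat P e t) (hε : D.ε = 1) (hd : ∀ θ ∈ D.Y, charDegree (θ : G → ℂ) = e) :
    t = 2 ∧ (∀ χ ∈ D.A, charDegree (χ : G → ℂ) = p + 1) ∧ (∀ χ ∈ D.B, charDegree (χ : G → ℂ) = p - 1) ∧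
      2 * D.A.card + 1 = e ∧ 2 * D.B.card + 1 = e := by
  classical
  have hT := fun θ' hθ' => h.I_T D hε hd (θ := θ') hθ'
  have hpe := h.p_eq
  have he := h.e_ge
  have htg := h.t_ge
  have hYc := D.card_Y
  have hYne : D.Y.Nonempty := by
    rw [← Finset.card_pos, hYc]
    omega
  obtain ⟨θ₀, hθ₀⟩ := hYne
  have hchar : ∀ θ ∈ D.Y, ∃ mm, Dec (Lam θ θ) mm := fun θ _ => exists_dec (isCharacter_Lam θ θ)
  obtain ⟨mm₀, hdec₀⟩ := hchar θ₀ hθ₀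
  have ht2 : t = 2 := (h.I_lam1 D hε hd hθ₀ hdec₀).1
  subst ht2
  obtain ⟨θ₁, θ₂, hne, hY⟩ := Finset.card_eq_two.mp hYc
  have h₁ : θ₁ ∈ D.Y := by simp [hY]
  have h₂ : θ₂ ∈ D.Y := by simp [hY]
  obtain ⟨mm, hmm⟩ := hchar θ₁ h₁
  obtain ⟨mm', hmm'⟩ := hchar θ₂ h₂
  obtain ⟨nn, hnn⟩ := exists_dec (isCharacter_Lam θ₁ θ₂)
  obtain ⟨-, hSA, hm1, hmA, hmT, hmB, hmY, hmZ⟩ := h.I_lam1 D hε hd h₁ hmm
  obtain ⟨-, hSA', hm1', hmA', hmT', hmB', hmY', hmZ'⟩ := h.I_lam1 D hε hd h₂ hmm'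
  -- the equations for `θ₁ θ̄₂`
  have hn1 := hnn.one_ne hne
  have hc1 : Lam θ₁ θ₂ 1 = ((e * e : ℕ) : ℂ) := by rw [Lam_one, hd θ₁ h₁, hd θ₂ h₂]
  have hpc : (p : ℂ) = (2 : ℂ) * e + 1 := by
    have : (p : ℂ) = ((2 * e + 1 : ℕ) : ℂ) := by rw [← hpe]
    push_cast at this
    exact this
  have hsum : ∑ y : (P : Subgroup G), Lam θ₁ θ₂ y = ((0 : ℕ) : ℂ) * (Nat.card (P : Subgroup G) : ℂ) := by
    rw [h.Lam_sum_ne D hne hY, hc1, hpc]
    push_cast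
    ring
  have hdeg := hnn.deg hc1
  have hTsum := hnn.T_sum (P : Subgroup G) hsum
  obtain ⟨h1, h2⟩ := h.tens D nn hdeg hTsum (τ := 0) hT hd
  rw [hn1] at h1 h2
  have hSATn : ∑ χ ∈ D.A, nn χ * T (P : Subgroup G) χ = 0 := by omega
  have hSBTn : ∑ χ ∈ D.B, nn χ * T (P : Subgroup G) χ = 0 := by omega
  have hSZTn : ∑ χ ∈ D.Z, nn χ * T (P : Subgroup G) χ = 0 := by omega
  have hnA : ∀ χ ∈ D.A, nn χ = 0 := fun χ hχ =>
    (Nat.mul_eq_zero.mp ((Finset.sum_eq_zero_iff.mp hSATn) χ hχ)).resolve_right (by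
      have := h.A_T_ge D hχ
      omega)
  have hnZ : ∀ χ ∈ D.Z, nn χ = 0 := fun χ hχ =>
    (Nat.mul_eq_zero.mp ((Finset.sum_eq_zero_iff.mp hSZTn) χ hχ)).resolve_right (by
      have := h.Z_T_ge D hχ
      omega)
  have hSAn : ∑ χ ∈ D.A, nn χ = 0 := Finset.sum_eq_zero hnA
  rw [hSATn, hSBTn, hSZTn, hSAn] at h2
  -- `e = 2 S_B + c`
  have hsY : ∑ χ ∈ D.Y, nn χ = nn θ₁ + nn θ₂ := by rw [hY, Finset.sum_pair hne]
  rw [hsY] at h2
  have he0 : (e : ℤ) ≠ 0 := by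
    have : e ≠ 0 := by omega
    exact_mod_cast this
  have h3 : (e : ℤ) = 2 * (∑ χ ∈ D.B, nn χ : ℕ) + ((nn θ₁ + nn θ₂ : ℕ) : ℤ) := by
    apply mul_left_cancel₀ he0
    have hpz : (p : ℤ) = 2 * e + 1 := by exact_mod_cast hpe
    rw [hpz] at h2
    push_cast at h2 ⊢
    linear_combination h2
  have h4 : e = 2 * ∑ χ ∈ D.B, nn χ + (nn θ₁ + nn θ₂) := by exact_mod_cast h3
  -- the norm
  have hnorm : ∑ χ : IrrCharacter G, nn χ * nn χ = ∑ χ : IrrCharacter G, mm χ * mm' χ := by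
    have h5 := hnn.inner_dec hnn
    rw [inner_Lam_Lam, hmm.inner_dec hmm'] at h5
    exact_mod_cast h5.symm
  have hup : ∑ χ : IrrCharacter G, mm χ * mm' χ ≤ 1 + ∑ χ ∈ D.A, mm χ := by
    rw [D.sum_decomp, hm1, hm1', Finset.sum_eq_zero (s := D.B) (fun χ hχ => by rw [hmB χ hχ, zero_mul]),
      Finset.sum_eq_zero (s := D.Y) (fun χ hχ => by rw [hmY χ hχ, zero_mul]),
      Finset.sum_eq_zero (s := D.Z) (fun χ hχ => by rw [hmZ χ hχ, zero_mul])]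
    have h5 : ∑ χ ∈ D.A, mm χ * mm' χ ≤ ∑ χ ∈ D.A, mm χ := Finset.sum_le_sum fun χ hχ =>
      (Nat.mul_le_mul_left _ (hmA' χ hχ)).trans (mul_one _).le
    omega
  have hlow : ∑ χ ∈ D.B, nn χ * nn χ + (nn θ₁ * nn θ₁ + nn θ₂ * nn θ₂) ≤ ∑ χ : IrrCharacter G, nn χ * nn χ := by
    rw [D.sum_decomp, hY, Finset.sum_pair hne]
    omega
  have hXB : ∑ χ ∈ D.B, nn χ ≤ ∑ χ ∈ D.B, nn χ * nn χ := Finset.sum_le_sum fun χ _ => Nat.le_mul_self _
  obtain ⟨hX, hSBn⟩ := arith_I2 h4 hSA (by omega) hXB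
  -- `n ≤ 1` on `B`
  have hnB : ∀ χ ∈ D.B, nn χ ≤ 1 := by
    intro χ hχ
    have h5 := (Finset.sum_eq_sum_iff_of_le (fun χ _ => Nat.le_mul_self (nn χ))).mp hX.symm χ hχ
    by_contra hlt
    have h6 : 2 ≤ nn χ := by omega
    have h7 : 2 * nn χ ≤ nn χ * nn χ := Nat.mul_le_mul_right _ h6
    omega
  -- counting
  have hca := sum_le_card_of_le_one D.A mm hmA
  have hcb := sum_le_card_of_le_one D.B nn hnB
  have hAB := D.card_AB
  have hcA : ∑ χ ∈ D.A, mm χ = D.A.card := by omega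
  have hcB : ∑ χ ∈ D.B, nn χ = D.B.card := by omega
  have hall := all_one_of_sum_eq D.A mm hmA hcA
  have hallB := all_one_of_sum_eq D.B nn hnB hcB
  have hpp := hp.out.one_lt
  refine ⟨rfl, ?_, ?_, by omega, by omega⟩
  · intro χ hχ
    have h5 := hmT χ hχ (by rw [hall χ hχ]; exact one_ne_zero)
    have h6 := h.A_T D hχ
    rw [h5] at h6
    push_cast at h6
    have h7 : (charDegree (χ : G → ℂ) : ℤ) = ((p + 1 : ℕ) : ℤ) := by
      push_cast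
      linarith
    exact_mod_cast h7
  · intro χ hχ
    have h5 := (Finset.sum_eq_zero_iff.mp hSBTn) χ hχ
    rw [hallB χ hχ, one_mul] at h5
    have h6 := h.B_T D hχ
    rw [h5] at h6
    push_cast at h6
    have h7 : (charDegree (χ : G → ℂ) : ℤ) = (p : ℤ) - 1 := by linarith
    omega

end SC

end Cfsg.Agent.Lib.BT
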