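import Cfsg.Agent.Lib.BT.CaseOne

/-! The case where the exceptional characters have degree `e + 1`, and `p = 2 e + 1`. -/

set_option autoImplicit false
set_option linter.unusedSectionVars false
set_option linter.unusedVariables false

namespace Cfsg.Agent.Lib.BT

open Cfsg Cfsg.Agent.Lib.Char Cfsg.Agent.Lib.Blocks Cfsg.Agent.Lib.Small.BD Subgroup MulAction
open scoped ComplexConjugate

universe u

theorem arith_II1 {e p SA SB SAT SBT SZT c : ℕ} (he : 2 ≤ e) (hp : p = 2 * e + 1) (hev : Even e)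
    (h1 : e + 1 = 1 + (SAT + (SBT + (c * 1 + SZT))))
    (h2 : (((e + 1) * (e + 1) : ℕ) : ℤ) = ((1 : ℕ) : ℤ) + (p : ℤ) * (SAT : ℕ) - ((p : ℤ) - 1) * (SA : ℕ) + (p : ℤ) * (SBT : ℕ) + ((p : ℤ) - 1) * (SB : ℕ) + (c : ℕ) * ((e + 1 : ℕ) : ℤ) + (p : ℤ) * (SZT : ℕ))
    (hA : 2 * SA ≤ SAT) (hevA : Even SAT) (hevB : Even SBT) (hc : c ≤ 1) :
    c = 1 ∧ SB = 0 ∧ 2 * SA + 2 = e ∧ SAT = 2 * SA ∧ SBT = 0 ∧ SZT = 1 := by
  subst hp
  have h1' : (e : ℤ) = SAT + SBT + c + SZT := by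
    have : e = SAT + SBT + c + SZT := by omega
    exact_mod_cast this
  have he0 : (e : ℤ) ≠ 0 := by
    have : e ≠ 0 := by omega
    exact_mod_cast this
  push_cast at h2
  have h3 : (2 : ℤ) * SA + c + 1 = e + 2 * SB := by
    apply mul_left_cancel₀ he0
    linear_combination h2 - (2 * (e : ℤ) + 1) * h1'
  have h4 : 2 * SA + c + 1 = e + 2 * SB := by exact_mod_cast h3
  obtain ⟨a, ha⟩ := hev
  obtain ⟨b, hb⟩ := hevA
  obtain ⟨d, hd⟩ := hevB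
  omega

theorem arith_II2 {e p SA SB SAT SBT SZT c : ℕ} (he : 2 ≤ e) (hp : p = 2 * e + 1) (hev : Even e)
    (h1 : 1 = 0 + (SAT + (SBT + (c * 1 + SZT))))
    (h2 : (((e + 1) * (e + 1) : ℕ) : ℤ) = ((0 : ℕ) : ℤ) + (p : ℤ) * (SAT : ℕ) - ((p : ℤ) - 1) * (SA : ℕ) + (p : ℤ) * (SBT : ℕ) + ((p : ℤ) - 1) * (SB : ℕ) + (c : ℕ) * ((e + 1 : ℕ) : ℤ) + (p : ℤ) * (SZT : ℕ))
    (hA : 2 * SA ≤ SAT) (hevA : Even SAT) (hevB : Even SBT) :
    SAT = 0 ∧ SBT = 0 ∧ SA = 0 ∧ c = 0 ∧ SZT = 1 ∧ e = 2 * SB := by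
  subst hp
  have he0 : (e : ℤ) ≠ 0 := by
    have : e ≠ 0 := by omega
    exact_mod_cast this
  obtain ⟨a, ha⟩ := hev
  obtain ⟨b, hb⟩ := hevA
  obtain ⟨d, hd⟩ := hevB
  have hSAT : SAT = 0 := by omega
  have hSBT : SBT = 0 := by omega
  have hSA : SA = 0 := by omega
  have hc : c = 0 ∨ c = 1 := by omega
  rcases hc with rfl | rfl
  · have hSZT : SZT = 1 := by omega
    subst hSAT hSBT hSA hSZT
    push_cast at h2
    have h3 : (e : ℤ) = 2 * SB := by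
      apply mul_left_cancel₀ he0
      linear_combination h2
    have h4 : e = 2 * SB := by exact_mod_cast h3
    exact ⟨rfl, rfl, rfl, rfl, rfl, h4⟩
  · have hSZT : SZT = 0 := by omega
    subst hSAT hSBT hSA hSZT
    push_cast at h2
    have h3 : (e : ℤ) + 1 = 2 * SB := by
      apply mul_left_cancel₀ he0
      linear_combination h2
    have h4 : e + 1 = 2 * SB := by exact_mod_cast h3
    omega

/-- A sum of squares close to the sum of the numbers. -/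
theorem le_one_of_sum_sq {α : Type*} [DecidableEq α] {s : Finset α} {f : α → ℕ} (hs : ∑ x ∈ s, f x * f x ≤ ∑ x ∈ s, f x + 1) :
    ∀ x ∈ s, f x ≤ 1 := by
  intro x hx
  by_contra hlt
  have h2 : 2 ≤ f x := by omega
  rw [← Finset.add_sum_erase _ _ hx, ← Finset.add_sum_erase s f hx] at hs
  have h3 : ∑ y ∈ s.erase x, f y ≤ ∑ y ∈ s.erase x, f y * f y := Finset.sum_le_sum fun y _ => Nat.le_mul_self _
  have h4 : 2 * f x ≤ f x * f x := Nat.mul_le_mul_right _ h2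
  omega

variable {G : Type u} [Group G] [Fintype G] {p : ℕ} [hp : Fact p.Prime]

namespace SC

variable {P : Sylow p G} {e m t : ℕ} (h : SC P e m t)

include h

/-- `T = 1` on the exceptional characters of degree `e + 1`. -/
theorem II_T [Fintype (P : Subgroup G)] (D : Dat P e t) (hε : D.ε = -1) (hd : ∀ θ ∈ D.Y, charDegree (θ : G → ℂ) = e + 1)
    (ht : t = 2) {θ : IrrCharacter G} (hθ : θ ∈ D.Y) : T (P : Subgroup G) θ = 1 := by
  have h1 := h.Y_T D hθ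
  rw [hε, hd θ hθ] at h1
  have hpe := h.p_eq
  rw [ht] at hpe
  have hp0 : (p : ℤ) ≠ 0 := by exact_mod_cast hp.out.ne_zero
  have hpz : (p : ℤ) = 2 * e + 1 := by exact_mod_cast hpe
  have h2 : (T (P : Subgroup G) θ : ℤ) * p = 1 * p := by
    rw [h1, hpz]
    push_cast
    ring
  have h3 := mul_right_cancel₀ hp0 h2
  exact_mod_cast h3

/-- The constituents of `θ θ̄`. -/
theorem II_lam1 [Fintype (P : Subgroup G)] (D : Dat P e t) (hε : D.ε = -1) (hd : ∀ θ ∈ D.Y, charDegree (θ : G → ℂ) = e + 1)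
    (ht : t = 2) (hev : Even e) (hAev : ∀ χ ∈ D.A, Even (T (P : Subgroup G) χ)) (hBev : ∀ χ ∈ D.B, Even (T (P : Subgroup G) χ))
    {θ : IrrCharacter G} (hθ : θ ∈ D.Y) {mm : IrrCharacter G → ℕ} (hdec : Dec (Lam θ θ) mm) :
    2 * ∑ χ ∈ D.A, mm χ + 2 = e ∧ mm (oneIrr G) = 1 ∧ (∀ χ ∈ D.A, mm χ ≤ 1) ∧
      (∀ χ ∈ D.A, mm χ ≠ 0 → T (P : Subgroup G) χ = 2) ∧ (∀ χ ∈ D.B, mm χ = 0) ∧ (∑ χ ∈ D.Y, mm χ = 1) ∧ (∑ χ ∈ D.Z, mm χ = 1) := by
  classical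
  have hT := fun θ' hθ' => h.II_T D hε hd ht (θ := θ') hθ'
  have hpe := h.p_eq
  rw [ht] at hpe
  have hone := hdec.one_self
  have he := h.e_ge
  have hpc : (p : ℂ) = 2 * (e : ℂ) + 1 := by exact_mod_cast hpe
  have hc1 : Lam θ θ 1 = (((e + 1) * (e + 1) : ℕ) : ℂ) := by rw [Lam_one, hd θ hθ]
  have hsum : ∑ y : (P : Subgroup G), Lam θ θ y = ((e + 1 : ℕ) : ℂ) * (Nat.card (P : Subgroup G) : ℂ) := by
    rw [h.Lam_sum_self D hθ, hc1, h.card_P, hpc]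
    push_cast
    ring
  have hdeg := hdec.deg hc1
  have hTsum := hdec.T_sum (P : Subgroup G) hsum
  obtain ⟨h1, h2⟩ := h.tens D mm hdeg hTsum (τ := 1) hT hd
  rw [hone] at h1 h2
  have hA : 2 * ∑ χ ∈ D.A, mm χ ≤ ∑ χ ∈ D.A, mm χ * T (P : Subgroup G) χ := by
    rw [Finset.mul_sum]
    refine Finset.sum_le_sum fun χ hχ => ?_
    rw [mul_comm]
    exact Nat.mul_le_mul_left _ (h.A_T_ge D hχ)
  have hevA : Even (∑ χ ∈ D.A, mm χ * T (P : Subgroup G) χ) := Finset.even_sum _ fun χ hχ => (hAev χ hχ).mul_left _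
  have hevB : Even (∑ χ ∈ D.B, mm χ * T (P : Subgroup G) χ) := Finset.even_sum _ fun χ hχ => (hBev χ hχ).mul_left _
  -- the induced characters
  have hL : ∀ ψ : NQ (P : Subgroup G) →* ℂˣ, ∑ χ ∈ D.A, mm χ * LL (P : Subgroup G) ψ χ +
      (∑ χ ∈ D.B, mm χ * LL (P : Subgroup G) ψ χ + (∑ χ ∈ D.Y, mm χ * LL (P : Subgroup G) ψ χ + ∑ χ ∈ D.Z, mm χ * LL (P : Subgroup G) ψ χ)) = 1 := by
    intro ψ
    have hL0 := hdec.L_sum (P : Subgroup G) ψ
    have hi := inner_sub_of_agree ψ (isClassFunction_Lam θ θ) (irr_isClassFunction (oneIrr G)) (fun g hg hgP => by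
      simp only [Lam]
      rw [h.norm_one_of_T_one (hT θ hθ) hg hgP]
      rfl)
    have h3 : ∑ y : (P : Subgroup G), conj (Lam θ θ y - ((oneIrr G : IrrCharacter G) : G → ℂ) y) = (e : ℂ) * (Nat.card (P : Subgroup G) : ℂ) := by
      have h4 : ∀ y : (P : Subgroup G), ((oneIrr G : IrrCharacter G) : G → ℂ) y = 1 := fun _ => rfl
      simp only [h4]
      rw [← map_sum, Finset.sum_sub_distrib, hsum]
      simp only [Finset.sum_const, Finset.card_univ, nsmul_eq_mul, mul_one]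
      rw [← Nat.card_eq_fintype_card]
      push_cast
      simp only [map_sub, map_mul, map_add, map_natCast, map_one]
      ring
    rw [h3, h.card_N, h.card_P, hL0, LL_spec] at hi
    have hpe0 : ((p * e : ℕ) : ℂ) ≠ 0 := by
      have : p * e ≠ 0 := Nat.mul_ne_zero hp.out.ne_zero (by omega)
      exact_mod_cast this
    have h4 : ((∑ χ : IrrCharacter G, mm χ * LL (P : Subgroup G) ψ χ : ℕ) : ℂ) - (LL (P : Subgroup G) ψ (oneIrr G) : ℕ) = 1 := by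
      rw [hi]
      push_cast at hpe0 ⊢
      rw [show (e : ℂ) * (p : ℂ) = (p : ℂ) * e by ring]
      exact inv_mul_cancel₀ hpe0
    have h5 : ∑ χ : IrrCharacter G, mm χ * LL (P : Subgroup G) ψ χ = LL (P : Subgroup G) ψ (oneIrr G) + 1 := by
      have h6 : ((∑ χ : IrrCharacter G, mm χ * LL (P : Subgroup G) ψ χ : ℕ) : ℂ) = ((LL (P : Subgroup G) ψ (oneIrr G) + 1 : ℕ) : ℂ) := by
        push_cast at h4 ⊢
        linear_combination h4
      exact_mod_cast h6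
    rw [D.sum_decomp, hone, one_mul] at h5
    omega
  have hmA : ∀ χ ∈ D.A, mm χ ≤ 1 := by
    intro χ hχ
    have hTχ : T (P : Subgroup G) χ ≠ 0 := by
      have := h.A_T_ge D hχ
      omega
    obtain ⟨ψ, hψ⟩ := h.exists_LL_ne hTχ
    have h5 := hL ψ
    have h6 : mm χ * LL (P : Subgroup G) ψ χ ≤ ∑ χ ∈ D.A, mm χ * LL (P : Subgroup G) ψ χ :=
      Finset.single_le_sum (f := fun χ => mm χ * LL (P : Subgroup G) ψ χ) (fun _ _ => Nat.zero_le _) hχ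
    have h7 : mm χ ≤ mm χ * LL (P : Subgroup G) ψ χ := Nat.le_mul_of_pos_right _ (Nat.pos_of_ne_zero hψ)
    omega
  have hc : ∑ χ ∈ D.Y, mm χ ≤ 1 := by
    have hTθ : T (P : Subgroup G) θ ≠ 0 := by
      rw [hT θ hθ]
      exact one_ne_zero
    obtain ⟨ψ, hψ⟩ := h.exists_LL_ne hTθ
    have h5 := hL ψ
    have h6 : ∑ χ ∈ D.Y, mm χ * LL (P : Subgroup G) ψ χ = (∑ χ ∈ D.Y, mm χ) * LL (P : Subgroup G) ψ θ := by
      rw [Finset.sum_mul]
      exact Finset.sum_congr rfl fun χ hχ => by rw [h.LL_Y D hχ hθ ψ]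
    have h7 : ∑ χ ∈ D.Y, mm χ ≤ (∑ χ ∈ D.Y, mm χ) * LL (P : Subgroup G) ψ θ := Nat.le_mul_of_pos_right _ (Nat.pos_of_ne_zero hψ)
    omega
  obtain ⟨hc1', hSB, hSA, hSAT, hSBT, hSZT⟩ := arith_II1 he hpe hev h1 h2 hA hevA hevB hc
  refine ⟨hSA, hone, hmA, ?_, ?_, hc1', ?_⟩
  · -- the values of `T` on `A`
    intro χ hχ hne
    have h3 : ∑ χ ∈ D.A, 2 * mm χ = ∑ χ ∈ D.A, mm χ * T (P : Subgroup G) χ := by
      rw [hSAT, Finset.mul_sum]
    have h4 := (Finset.sum_eq_sum_iff_of_le (fun χ hχ => by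
      rw [mul_comm]
      exact Nat.mul_le_mul_left _ (h.A_T_ge D hχ))).mp h3 χ hχ
    have h5 : mm χ * 2 = mm χ * T (P : Subgroup G) χ := by rw [mul_comm]; exact h4
    exact (Nat.eq_of_mul_eq_mul_left (Nat.pos_of_ne_zero hne) h5).symm
  · exact fun χ hχ => (Finset.sum_eq_zero_iff.mp hSB) χ hχ
  · have h5 : ∑ χ ∈ D.Z, mm χ ≤ ∑ χ ∈ D.Z, mm χ * T (P : Subgroup G) χ := Finset.sum_le_sum fun χ hχ =>
      Nat.le_mul_of_pos_right _ (h.Z_T_ge D hχ)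
    have h6 : ∑ χ ∈ D.Z, mm χ ≠ 0 := by
      intro h7
      have h8 : ∑ χ ∈ D.Z, mm χ * T (P : Subgroup G) χ = 0 := Finset.sum_eq_zero fun χ hχ => by
        rw [(Finset.sum_eq_zero_iff.mp h7) χ hχ, zero_mul]
      omega
    omega

/-- The final structure in the second case. -/
theorem II_final [Fintype (P : Subgroup G)] (D : Dat P e t) (hε : D.ε = -1) (hd : ∀ θ ∈ D.Y, charDegree (θ : G → ℂ) = e + 1)
    (ht : t = 2) (hev : Even e) (hAev : ∀ χ ∈ D.A, Even (T (P : Subgroup G) χ)) (hBev : ∀ χ ∈ D.B, Even (T (P : Subgroup G) χ)) :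
    (∀ χ ∈ D.A, charDegree (χ : G → ℂ) = p + 1) ∧ (∀ χ ∈ D.B, charDegree (χ : G → ℂ) = p - 1) ∧
      2 * D.A.card + 2 = e ∧ 2 * D.B.card = e := by
  classical
  subst ht
  have hT := fun θ' hθ' => h.II_T D hε hd rfl (θ := θ') hθ'
  have hpe := h.p_eq
  have he := h.e_ge
  have hYc := D.card_Y
  obtain ⟨θ₁, θ₂, hne, hY⟩ := Finset.card_eq_two.mp hYc
  have h₁ : θ₁ ∈ D.Y := by simp [hY]
  have h₂ : θ₂ ∈ D.Y := by simp [hY]
  obtain ⟨mm, hmm⟩ := exists_dec (isCharacter_Lam θ₁ θ₁)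
  obtain ⟨mm', hmm'⟩ := exists_dec (isCharacter_Lam θ₂ θ₂)
  obtain ⟨nn, hnn⟩ := exists_dec (isCharacter_Lam θ₁ θ₂)
  obtain ⟨hSA, hm1, hmA, hmT, hmB, hmY, hmZ⟩ := h.II_lam1 D hε hd rfl hev hAev hBev h₁ hmm
  obtain ⟨hSA', hm1', hmA', hmT', hmB', hmY', hmZ'⟩ := h.II_lam1 D hε hd rfl hev hAev hBev h₂ hmm'
  -- the equations for `θ₁ θ̄₂`
  have hn1 := hnn.one_ne hne
  have hc1 : Lam θ₁ θ₂ 1 = (((e + 1) * (e + 1) : ℕ) : ℂ) := by rw [Lam_one, hd θ₁ h₁, hd θ₂ h₂]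
  have hpc : (p : ℂ) = (2 : ℂ) * e + 1 := by
    have : (p : ℂ) = ((2 * e + 1 : ℕ) : ℂ) := by rw [← hpe]
    push_cast at this
    exact this
  have hsum : ∑ y : (P : Subgroup G), Lam θ₁ θ₂ y = ((1 : ℕ) : ℂ) * (Nat.card (P : Subgroup G) : ℂ) := by
    rw [h.Lam_sum_ne D hne hY, hc1, h.card_P, hpc]
    push_cast
    ring
  have hdeg := hnn.deg hc1
  have hTsum := hnn.T_sum (P : Subgroup G) hsum
  obtain ⟨h1, h2⟩ := h.tens D nn hdeg hTsum (τ := 1) hT hd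
  rw [hn1] at h1 h2
  have hA : 2 * ∑ χ ∈ D.A, nn χ ≤ ∑ χ ∈ D.A, nn χ * T (P : Subgroup G) χ := by
    rw [Finset.mul_sum]
    refine Finset.sum_le_sum fun χ hχ => ?_
    rw [mul_comm]
    exact Nat.mul_le_mul_left _ (h.A_T_ge D hχ)
  have hevA : Even (∑ χ ∈ D.A, nn χ * T (P : Subgroup G) χ) := Finset.even_sum _ fun χ hχ => (hAev χ hχ).mul_left _
  have hevB : Even (∑ χ ∈ D.B, nn χ * T (P : Subgroup G) χ) := Finset.even_sum _ fun χ hχ => (hBev χ hχ).mul_left _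
  obtain ⟨hSATn, hSBTn, hSAn, hcn, hSZTn, hSBn⟩ := arith_II2 he hpe hev h1 h2 hA hevA hevB
  -- the norm
  have hnorm : ∑ χ : IrrCharacter G, nn χ * nn χ = ∑ χ : IrrCharacter G, mm χ * mm' χ := by
    have h5 := hnn.inner_dec hnn
    rw [inner_Lam_Lam, hmm.inner_dec hmm'] at h5
    exact_mod_cast h5.symm
  have hYle : ∀ χ ∈ D.Y, mm' χ ≤ 1 := fun χ hχ => by
    rw [← hmY']
    exact Finset.single_le_sum (f := mm') (fun _ _ => Nat.zero_le _) hχ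
  have hZle : ∀ χ ∈ D.Z, mm' χ ≤ 1 := fun χ hχ => by
    rw [← hmZ']
    exact Finset.single_le_sum (f := mm') (fun _ _ => Nat.zero_le _) hχ
  have hup : ∑ χ : IrrCharacter G, mm χ * mm' χ ≤ 1 + (∑ χ ∈ D.A, mm χ + (1 + 1)) := by
    rw [D.sum_decomp, hm1, hm1', Finset.sum_eq_zero (s := D.B) (fun χ hχ => by rw [hmB χ hχ, zero_mul])]
    have h5 : ∑ χ ∈ D.A, mm χ * mm' χ ≤ ∑ χ ∈ D.A, mm χ := Finset.sum_le_sum fun χ hχ =>
      (Nat.mul_le_mul_left _ (hmA' χ hχ)).trans (mul_one _).le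
    have h6 : ∑ χ ∈ D.Y, mm χ * mm' χ ≤ ∑ χ ∈ D.Y, mm χ := Finset.sum_le_sum fun χ hχ =>
      (Nat.mul_le_mul_left _ (hYle χ hχ)).trans (mul_one _).le
    have h7 : ∑ χ ∈ D.Z, mm χ * mm' χ ≤ ∑ χ ∈ D.Z, mm χ := Finset.sum_le_sum fun χ hχ =>
      (Nat.mul_le_mul_left _ (hZle χ hχ)).trans (mul_one _).le
    omega
  have hZ1 : 1 ≤ ∑ χ ∈ D.Z, nn χ * nn χ := by
    by_contra hlt
    have h5 : ∑ χ ∈ D.Z, nn χ * nn χ = 0 := by omega
    have h6 : ∑ χ ∈ D.Z, nn χ * T (P : Subgroup G) χ = 0 := Finset.sum_eq_zero fun χ hχ => by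
      have h7 := (Finset.sum_eq_zero_iff.mp h5) χ hχ
      have h8 : nn χ = 0 := by
        rcases Nat.mul_eq_zero.mp h7 with h9 | h9 <;> exact h9
      rw [h8, zero_mul]
    omega
  have hlow : ∑ χ ∈ D.B, nn χ * nn χ + 1 ≤ ∑ χ : IrrCharacter G, nn χ * nn χ := by
    rw [D.sum_decomp]
    omega
  have hnB := le_one_of_sum_sq (s := D.B) (f := nn) (by omega)
  -- counting
  have hca := sum_le_card_of_le_one D.A mm hmA
  have hcb := sum_le_card_of_le_one D.B nn hnB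
  have hAB := D.card_AB
  have hcA : ∑ χ ∈ D.A, mm χ = D.A.card := by omega
  have hcB : ∑ χ ∈ D.B, nn χ = D.B.card := by omega
  have hall := all_one_of_sum_eq D.A mm hmA hcA
  have hallB := all_one_of_sum_eq D.B nn hnB hcB
  have hpp := hp.out.one_lt
  refine ⟨?_, ?_, by omega, by omega⟩
  · intro χ hχ
    have h5 := hmT χ hχ (by rw [hall χ hχ]; exact one_ne_zero)
    have h6 := h.A_T D hχ
    rw [h5] at h6
    push_cast at h6
    have h7 : (charDegree (χ : G → ℂ) : ℤ) = ((p + 1 : ℕ) : ℤ) := by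
      push_cast
      linarith
    exact_mod_cast h7
  · intro χ hχ
    have h5 := (Finset.sum_eq_zero_iff.mp hSBTn) χ hχ
    rw [hallB χ hχ, one_mul] at h5
    have h6 := h.B_T D hχ
    rw [h5] at h6
    push_cast at h6
    have h7 : (charDegree (χ : G → ℂ) : ℤ) = (p : ℤ) - 1 := by linarith
    omega

end SC

end Cfsg.Agent.Lib.BT
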