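import Cfsg.Agent.Lib.BT.Setup

/-! The characters of the principal block, and the tensor equations. -/

set_option autoImplicit false
set_option linter.unusedSectionVars false
set_option linter.unusedVariables false

namespace Cfsg.Agent.Lib.BT

open Cfsg Cfsg.Agent.Lib.Char Cfsg.Agent.Lib.Blocks Subgroup MulAction
open scoped ComplexConjugate

universe u

variable {G : Type u} [Group G] [Fintype G] {p : ℕ} [hp : Fact p.Prime]

/-- The characters, reorganized: the positive and the negative ones, the exceptional ones. -/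
structure Dat (P : Sylow p G) (e t : ℕ) where
  A : Finset (IrrCharacter G)
  B : Finset (IrrCharacter G)
  Y : Finset (IrrCharacter G)
  ε : ℤ
  dAB : Disjoint A B
  dAY : Disjoint A Y
  dBY : Disjoint B Y
  oA : oneIrr G ∉ A
  oB : oneIrr G ∉ B
  oY : oneIrr G ∉ Y
  A_val : ∀ χ ∈ A, ∀ y ∈ (P : Subgroup G), y ≠ 1 → (χ : G → ℂ) y = 1
  B_val : ∀ χ ∈ B, ∀ y ∈ (P : Subgroup G), y ≠ 1 → (χ : G → ℂ) y = -1
  Z_val : ∀ χ : IrrCharacter G, χ ≠ oneIrr G → χ ∉ A → χ ∉ B → χ ∉ Y → ∀ y ∈ (P : Subgroup G), y ≠ 1 → (χ : G → ℂ) y = 0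
  card_AB : A.card + B.card + 1 = e
  card_Y : Y.card = t
  ε_sign : ε = 1 ∨ ε = -1
  Y_reg : ∀ θ ∈ Y, ∀ θ' ∈ Y, ∀ g : G, ¬ p ∣ orderOf g → (θ : G → ℂ) g = (θ' : G → ℂ) g
  rel : ∀ θ ∈ Y, ∀ g : G, ¬ p ∣ orderOf g → (ε : ℂ) * (θ : G → ℂ) g = 1 + ∑ χ ∈ A, (χ : G → ℂ) g - ∑ χ ∈ B, (χ : G → ℂ) g
  Y_sum : ∀ y ∈ (P : Subgroup G), y ≠ 1 → ∑ θ ∈ Y, (θ : G → ℂ) y = -(ε : ℂ)

namespace SC

variable {P : Sylow p G} {e m t : ℕ} (h : SC P e m t)

include h

/-- The data exists. -/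
theorem exists_dat : Nonempty (Dat P e t) := by
  classical
  have hpr := hp.out
  obtain ⟨M, hM⟩ := exists_isPModular hpr
  have hCc : Nat.card (centralizer ((P : Subgroup G) : Set G)) = p := by
    rw [h.cent_P, h.card_P]
  have hmr : e * t + 1 = p := by
    have h1 := h.te
    have h2 := hpr.one_lt
    rw [mul_comm] at h1
    omega
  obtain ⟨X, Y, δ, ε, CD⟩ := Small.BD.exists_coreData hM P h.card_P hCc hmr h.t_ge h.rel
  obtain ⟨y₀, hy₀, hy₀1⟩ := h.exists_ne_one_mem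
  have hδ1 : δ (Small.BD.one' G) = 1 := by
    have h1 := CD.val _ CD.one_mem y₀ hy₀ hy₀1
    have h2 : ((Small.BD.one' G : IrrCharacter G) : G → ℂ) y₀ = 1 := rfl
    rw [h2] at h1
    exact_mod_cast h1.symm
  have hone : (Small.BD.one' G : IrrCharacter G) = oneIrr G := rfl
  let A := X.filter (fun χ => δ χ = 1 ∧ χ ≠ oneIrr G)
  let B := X.filter (fun χ => δ χ = -1)
  have hAB : Disjoint A B := by
    rw [Finset.disjoint_left]
    intro χ h1 h2
    have h3 := (Finset.mem_filter.mp h1).2.1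
    have h4 := (Finset.mem_filter.mp h2).2
    omega
  have hoX : oneIrr G ∈ X := CD.one_mem
  have hW : X = insert (oneIrr G) (A ∪ B) := by
    ext χ
    simp only [Finset.mem_insert, Finset.mem_union, A, B, Finset.mem_filter]
    constructor
    · intro hχ
      by_cases h1 : χ = oneIrr G
      · exact Or.inl h1
      · rcases CD.sign χ hχ with h2 | h2
        · exact Or.inr (Or.inl ⟨hχ, h2, h1⟩)
        · exact Or.inr (Or.inr ⟨hχ, h2⟩)
    · rintro (rfl | ⟨h1, -⟩ | ⟨h1, -⟩)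
      · exact hoX
      · exact h1
      · exact h1
  have hnot : oneIrr G ∉ A ∪ B := by
    intro h1
    rcases Finset.mem_union.mp h1 with h2 | h2
    · exact (Finset.mem_filter.mp h2).2.2 rfl
    · have h3 := (Finset.mem_filter.mp h2).2
      rw [← hone, hδ1] at h3
      omega
  have hoY : oneIrr G ∉ Y := fun h0 => (Finset.disjoint_left.mp CD.disj) hoX h0
  have hsumX : ∀ F : IrrCharacter G → ℂ, ∑ χ ∈ X, (δ χ : ℂ) * F χ = F (oneIrr G) + ∑ χ ∈ A, F χ - ∑ χ ∈ B, F χ := by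
    intro F
    rw [hW, Finset.sum_insert hnot, Finset.sum_union hAB, ← hone, hδ1]
    have h1 : ∀ χ ∈ A, (δ χ : ℂ) * F χ = F χ := fun χ hχ => by
      rw [(Finset.mem_filter.mp hχ).2.1]
      simp
    have h2 : ∀ χ ∈ B, (δ χ : ℂ) * F χ = - F χ := fun χ hχ => by
      rw [(Finset.mem_filter.mp hχ).2]
      simp
    rw [Finset.sum_congr rfl h1, Finset.sum_congr rfl h2, Finset.sum_neg_distrib]
    simp
    ring
  refine ⟨⟨A, B, Y, ε, hAB, ?_, ?_, ?_, ?_, hoY, ?_, ?_, ?_, ?_, CD.cardY, CD.eps, CD.regY, ?_, CD.sumY⟩⟩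
  · rw [Finset.disjoint_left]
    intro χ h1 h2
    exact (Finset.disjoint_left.mp CD.disj) (Finset.mem_filter.mp h1).1 h2
  · rw [Finset.disjoint_left]
    intro χ h1 h2
    exact (Finset.disjoint_left.mp CD.disj) (Finset.mem_filter.mp h1).1 h2
  · intro h1
    exact hnot (Finset.mem_union_left _ h1)
  · intro h1
    exact hnot (Finset.mem_union_right _ h1)
  · intro χ hχ y hy hy1
    have h1 := Finset.mem_filter.mp hχ
    rw [CD.val χ h1.1 y hy hy1, h1.2.1]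
    simp
  · intro χ hχ y hy hy1
    have h1 := Finset.mem_filter.mp hχ
    rw [CD.val χ h1.1 y hy hy1, h1.2]
    simp
  · intro χ h1 h2 h3 h4
    apply CD.vanish χ _ h4
    intro h5
    rcases CD.sign χ h5 with h6 | h6
    · exact h2 (Finset.mem_filter.mpr ⟨h5, h6, h1⟩)
    · exact h3 (Finset.mem_filter.mpr ⟨h5, h6⟩)
  · have h1 := CD.cardX
    rw [hW, Finset.card_insert_of_notMem hnot, Finset.card_union_of_disjoint hAB] at h1
    exact h1
  · intro θ hθ g hg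
    rw [CD.reg θ hθ g hg, hsumX (fun χ => (χ : G → ℂ) g)]
    rfl

end SC

namespace Dat

variable {P : Sylow p G} {e t : ℕ} (D : Dat P e t)

/-- The remaining characters. -/
noncomputable def Z : Finset (IrrCharacter G) := by
  classical
  exact Finset.univ \ (insert (oneIrr G) (D.A ∪ D.B ∪ D.Y))

theorem mem_Z {χ : IrrCharacter G} : χ ∈ D.Z ↔ χ ≠ oneIrr G ∧ χ ∉ D.A ∧ χ ∉ D.B ∧ χ ∉ D.Y := by
  classical
  simp only [Z, Finset.mem_sdiff, Finset.mem_univ, true_and, Finset.mem_insert, Finset.mem_union, not_or]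
  tauto

theorem sum_decomp {R : Type*} [AddCommMonoid R] (f : IrrCharacter G → R) :
    ∑ χ, f χ = f (oneIrr G) + (∑ χ ∈ D.A, f χ + (∑ χ ∈ D.B, f χ + (∑ χ ∈ D.Y, f χ + ∑ χ ∈ D.Z, f χ))) := by
  classical
  have h1 : (Finset.univ : Finset (IrrCharacter G)) = insert (oneIrr G) (D.A ∪ (D.B ∪ (D.Y ∪ D.Z))) := by
    ext χ
    simp only [Finset.mem_univ, Finset.mem_insert, Finset.mem_union, true_iff, mem_Z]
    tauto
  have d1 : Disjoint D.Y D.Z := by
    rw [Finset.disjoint_left]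
    intro χ h2 h3
    exact ((D.mem_Z).mp h3).2.2.2 h2
  have d2 : Disjoint D.B (D.Y ∪ D.Z) := by
    rw [Finset.disjoint_left]
    intro χ h2 h3
    rcases Finset.mem_union.mp h3 with h4 | h4
    · exact (Finset.disjoint_left.mp D.dBY) h2 h4
    · exact ((D.mem_Z).mp h4).2.2.1 h2
  have d3 : Disjoint D.A (D.B ∪ (D.Y ∪ D.Z)) := by
    rw [Finset.disjoint_left]
    intro χ h2 h3
    rcases Finset.mem_union.mp h3 with h4 | h4
    · exact (Finset.disjoint_left.mp D.dAB) h2 h4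
    rcases Finset.mem_union.mp h4 with h5 | h5
    · exact (Finset.disjoint_left.mp D.dAY) h2 h5
    · exact ((D.mem_Z).mp h5).2.1 h2
  have d4 : oneIrr G ∉ D.A ∪ (D.B ∪ (D.Y ∪ D.Z)) := by
    intro h2
    rcases Finset.mem_union.mp h2 with h3 | h3
    · exact D.oA h3
    rcases Finset.mem_union.mp h3 with h4 | h4
    · exact D.oB h4
    rcases Finset.mem_union.mp h4 with h5 | h5
    · exact D.oY h5
    · exact ((D.mem_Z).mp h5).1 rfl
  rw [h1, Finset.sum_insert d4, Finset.sum_union d3, Finset.sum_union d2, Finset.sum_union d1]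

theorem Z_zero {ξ : IrrCharacter G} (hξ : ξ ∈ D.Z) : ∀ y ∈ (P : Subgroup G), y ≠ 1 → (ξ : G → ℂ) y = 0 := by
  obtain ⟨h1, h2, h3, h4⟩ := (D.mem_Z).mp hξ
  exact D.Z_val ξ h1 h2 h3 h4

end Dat

theorem T_oneIrr (Q : Subgroup G) [Fintype Q] : T Q (oneIrr G) = 1 := by
  have h1 := T_spec Q (oneIrr G)
  have h2 : ∑ y : Q, ((oneIrr G : IrrCharacter G) : G → ℂ) y = (Nat.card Q : ℂ) := by
    show ∑ y : Q, (1 : ℂ) = _
    simp [Nat.card_eq_fintype_card]
  rw [h2] at h1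
  have hc : (Nat.card Q : ℂ) ≠ 0 := by exact_mod_cast Nat.card_pos.ne'
  have h3 : (T Q (oneIrr G) : ℂ) = 1 := by
    apply mul_right_cancel₀ hc
    rw [h1, one_mul]
  exact_mod_cast h3

theorem deg_oneIrr : charDegree ((oneIrr G : IrrCharacter G) : G → ℂ) = 1 := by
  show charDegree (fun _ : G => (1 : ℂ)) = 1
  simp [charDegree]

namespace SC

variable {P : Sylow p G} {e m t : ℕ} (h : SC P e m t)

include h

/-- The multiplicity of the trivial character of `P` in a character constant on `P#`. -/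
theorem T_of_val [Fintype (P : Subgroup G)] (χ : IrrCharacter G) {c : ℤ}
    (hχ : ∀ y ∈ (P : Subgroup G), y ≠ 1 → (χ : G → ℂ) y = c) :
    (T (P : Subgroup G) χ : ℤ) * p = charDegree (χ : G → ℂ) + (p - 1) * c := by
  have h1 := T_eq_of_const (P : Subgroup G) χ c hχ
  rw [h.card_P, apply_one_eq_charDegree (IsIrrCharacter.isCharacter χ.2)] at h1
  exact_mod_cast h1

theorem A_T [Fintype (P : Subgroup G)] (D : Dat P e t) {χ : IrrCharacter G} (hχ : χ ∈ D.A) :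
    (T (P : Subgroup G) χ : ℤ) * p = charDegree (χ : G → ℂ) + (p - 1) := by
  have h1 := h.T_of_val χ (c := 1) (by simpa using D.A_val χ hχ)
  rw [h1]
  ring

theorem B_T [Fintype (P : Subgroup G)] (D : Dat P e t) {χ : IrrCharacter G} (hχ : χ ∈ D.B) :
    (T (P : Subgroup G) χ : ℤ) * p = charDegree (χ : G → ℂ) - (p - 1) := by
  have h1 := h.T_of_val χ (c := -1) (by simpa using D.B_val χ hχ)
  rw [h1]
  ring

theorem Z_T [Fintype (P : Subgroup G)] (D : Dat P e t) {χ : IrrCharacter G} (hχ : χ ∈ D.Z) :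
    (T (P : Subgroup G) χ : ℤ) * p = charDegree (χ : G → ℂ) := by
  have h1 := h.T_of_val χ (c := 0) (by simpa using D.Z_zero hχ)
  rw [h1]
  ring

/-- A positive character has `T ≥ 2`. -/
theorem A_T_ge [Fintype (P : Subgroup G)] (D : Dat P e t) {χ : IrrCharacter G} (hχ : χ ∈ D.A) :
    2 ≤ T (P : Subgroup G) χ := by
  have hpp := hp.out
  have hp1 := hpp.one_lt
  have h1 := h.A_T D hχ
  have hf := h.deg_ne_zero χ
  have hne : χ ≠ oneIrr G := by
    rintro rfl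
    exact D.oA hχ
  by_contra hlt
  have hfp : 0 < charDegree (χ : G → ℂ) := Nat.pos_of_ne_zero hf
  have hT : T (P : Subgroup G) χ = 0 ∨ T (P : Subgroup G) χ = 1 := by omega
  rcases hT with h0 | h0
  · rw [h0] at h1
    push_cast at h1
    have h3 : (1 : ℤ) < p := by exact_mod_cast hp1
    have h4 : (0 : ℤ) < charDegree (χ : G → ℂ) := by exact_mod_cast hfp
    linarith
  · rw [h0] at h1
    push_cast at h1
    have h3 : (charDegree (χ : G → ℂ) : ℤ) = 1 := by linarith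
    have h4 : charDegree (χ : G → ℂ) = 1 := by exact_mod_cast h3
    exact hne (h.eq_one_of_deg h4)

theorem Z_T_ge [Fintype (P : Subgroup G)] (D : Dat P e t) {χ : IrrCharacter G} (hχ : χ ∈ D.Z) :
    1 ≤ T (P : Subgroup G) χ := by
  have h1 := h.Z_T D hχ
  have hf := h.deg_ne_zero χ
  by_contra hlt
  have h0 : T (P : Subgroup G) χ = 0 := by omega
  rw [h0] at h1
  push_cast at h1
  have h4 : charDegree (χ : G → ℂ) = 0 := by
    have : (charDegree (χ : G → ℂ) : ℤ) = 0 := by linarith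
    exact_mod_cast this
  exact hf h4

/-- The sum of an exceptional character over `P`. -/
theorem Y_sum_P [Fintype (P : Subgroup G)] (D : Dat P e t) {θ : IrrCharacter G} (hθ : θ ∈ D.Y) :
    ∑ y : (P : Subgroup G), (θ : G → ℂ) y = (θ : G → ℂ) 1 - (e : ℂ) * (D.ε : ℂ) := by
  classical
  -- the sums over `P` agree
  have hne1 : ∀ θ' ∈ D.Y, ∀ θ'' ∈ D.Y, θ' ≠ θ'' → θ' ≠ oneIrr G := by
    intro θ' h1 θ'' h2 _ h0
    rw [h0] at h1
    exact D.oY h1
  have key : ∀ θ' : IrrCharacter G, θ' ≠ oneIrr G → ∑ g : G, (θ' : G → ℂ) g = 0 := by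
    intro θ' hne
    have h1 := classInner_irr_of_ne θ'.2 isIrrCharacter_one (fun e => hne (Subtype.ext e))
    rw [classInner] at h1
    have hc : (Nat.card G : ℂ)⁻¹ ≠ 0 := inv_ne_zero (by exact_mod_cast Nat.card_pos.ne')
    have h2 := (mul_eq_zero.mp h1).resolve_left hc
    simpa using h2
  have hn : ((1 + m * p : ℕ) : ℂ) ≠ 0 := by exact_mod_cast (by omega : 1 + m * p ≠ 0)
  have hequal : ∀ θ' ∈ D.Y, ∑ y : (P : Subgroup G), (θ' : G → ℂ) y - (θ' : G → ℂ) 1 = ∑ y : (P : Subgroup G), (θ : G → ℂ) y - (θ : G → ℂ) 1 := by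
    intro θ' hθ'
    have h1 := h.sum_split (P := P) (θ' : G → ℂ) (irr_isClassFunction θ')
    have h2 := h.sum_split (P := P) (θ : G → ℂ) (irr_isClassFunction θ)
    rw [key θ' (fun e => D.oY (e ▸ hθ'))] at h1
    rw [key θ (fun e => D.oY (e ▸ hθ))] at h2
    have h3 : ∑ g ∈ Finset.univ.filter (fun g : G => ¬ p ∣ orderOf g), (θ' : G → ℂ) g =
        ∑ g ∈ Finset.univ.filter (fun g : G => ¬ p ∣ orderOf g), (θ : G → ℂ) g :=
      Finset.sum_congr rfl fun g hg => D.Y_reg θ' hθ' θ hθ g (Finset.mem_filter.mp hg).2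
    apply mul_left_cancel₀ hn
    rw [h3] at h1
    linear_combination h2 - h1
  have ht : (t : ℂ) ≠ 0 := by
    have := h.t_ge
    exact_mod_cast (by omega : t ≠ 0)
  have h3 : ∑ θ' ∈ D.Y, (∑ y : (P : Subgroup G), (θ' : G → ℂ) y - (θ' : G → ℂ) 1) = (t : ℂ) * (∑ y : (P : Subgroup G), (θ : G → ℂ) y - (θ : G → ℂ) 1) := by
    rw [Finset.sum_congr rfl hequal, Finset.sum_const, D.card_Y, nsmul_eq_mul]
  have h4 : ∑ θ' ∈ D.Y, (∑ y : (P : Subgroup G), (θ' : G → ℂ) y - (θ' : G → ℂ) 1) = ((p : ℂ) - 1) * (-(D.ε : ℂ)) := by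
    have h5 : ∀ θ' ∈ D.Y, ∑ y : (P : Subgroup G), (θ' : G → ℂ) y - (θ' : G → ℂ) 1 = ∑ y ∈ (Finset.univ : Finset (P : Subgroup G)).erase 1, (θ' : G → ℂ) y := by
      intro θ' _
      rw [← Finset.add_sum_erase Finset.univ (fun y : (P : Subgroup G) => (θ' : G → ℂ) y) (Finset.mem_univ (1 : (P : Subgroup G)))]
      simp
    rw [Finset.sum_congr rfl h5, Finset.sum_comm]
    have h6 : ∀ y ∈ (Finset.univ : Finset (P : Subgroup G)).erase 1, ∑ θ' ∈ D.Y, (θ' : G → ℂ) y = -(D.ε : ℂ) := fun y hy =>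
      D.Y_sum y y.2 (fun e => (Finset.ne_of_mem_erase hy) (Subtype.ext e))
    rw [Finset.sum_congr rfl h6, Finset.sum_const, Finset.card_erase_of_mem (Finset.mem_univ _), Finset.card_univ,
      ← Nat.card_eq_fintype_card, h.card_P, nsmul_eq_mul]
    have := h.p_pos
    push_cast [Nat.cast_sub this]
    rfl
  rw [h3] at h4
  have h5 : ((p : ℂ) - 1) = (t : ℂ) * e := by
    have h6 := h.te
    have h7 : ((t * e : ℕ) : ℂ) = ((p - 1 : ℕ) : ℂ) := by rw [h6]
    have := h.p_pos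
    push_cast [Nat.cast_sub this] at h7
    rw [← h7]
  rw [h5, mul_assoc] at h4
  have h6 := mul_left_cancel₀ ht h4
  linear_combination h6

/-- The multiplicity of the trivial character of `P` in an exceptional character. -/
theorem Y_T [Fintype (P : Subgroup G)] (D : Dat P e t) {θ : IrrCharacter G} (hθ : θ ∈ D.Y) :
    (T (P : Subgroup G) θ : ℤ) * p = charDegree (θ : G → ℂ) - D.ε * e := by
  have h1 := h.Y_sum_P D hθ
  have h2 := T_spec (P : Subgroup G) θ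
  rw [h.card_P] at h2
  rw [← h2, apply_one_eq_charDegree (IsIrrCharacter.isCharacter θ.2)] at h1
  have h3 : ((((T (P : Subgroup G) θ : ℤ) * p : ℤ)) : ℂ) = (((charDegree (θ : G → ℂ) : ℤ) - D.ε * e : ℤ) : ℂ) := by
    push_cast
    linear_combination h1
  exact_mod_cast h3

/-- The sum of the norms of the exceptional characters at `y`. -/
theorem Y_norm (D : Dat P e t) {y : G} (hy : y ∈ (P : Subgroup G)) (hy1 : y ≠ 1) :
    ∑ θ ∈ D.Y, (θ : G → ℂ) y * conj ((θ : G → ℂ) y) = (p : ℂ) - e := by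
  classical
  have h2 := sum_irr_mul_conj_of_isConj (IsConj.refl y)
  rw [h.cent y hy hy1, h.card_P, D.sum_decomp] at h2
  have h3 : ((oneIrr G : IrrCharacter G) : G → ℂ) y = 1 := rfl
  rw [h3, Finset.sum_congr (s₂ := D.A) rfl (fun χ hχ => by rw [D.A_val χ hχ y hy hy1]),
    Finset.sum_congr (s₂ := D.B) rfl (fun χ hχ => by rw [D.B_val χ hχ y hy hy1]),
    Finset.sum_eq_zero (s := D.Z) (fun χ hχ => by rw [D.Z_zero hχ y hy hy1]; simp)] at h2
  simp only [Finset.sum_const, nsmul_eq_mul, map_one, mul_one, map_neg, mul_neg, neg_neg, add_zero] at h2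
  have h4 : ((D.A.card + D.B.card + 1 : ℕ) : ℂ) = (e : ℂ) := by rw [D.card_AB]
  push_cast at h4
  linear_combination h2 - h4

/-- The sum of the norm of an exceptional character over `P`. -/
theorem Y_norm_P [Fintype (P : Subgroup G)] (D : Dat P e t) {θ : IrrCharacter G} (hθ : θ ∈ D.Y) :
    ∑ y : (P : Subgroup G), (θ : G → ℂ) y * conj ((θ : G → ℂ) y) - (θ : G → ℂ) 1 * conj ((θ : G → ℂ) 1) = (e : ℂ) * ((p : ℂ) - e) := by
  classical
  have hcl : ∀ θ' : IrrCharacter G, IsClassFunction G (fun g => (θ' : G → ℂ) g * conj ((θ' : G → ℂ) g)) := by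
    intro θ' g x
    simp only
    rw [irr_isClassFunction θ' g x]
  have key : ∀ θ' : IrrCharacter G, ∑ g : G, (θ' : G → ℂ) g * conj ((θ' : G → ℂ) g) = (Nat.card G : ℂ) := by
    intro θ'
    have h1 := classInner_irr_self θ'.2
    rw [classInner] at h1
    have hc : (Nat.card G : ℂ) ≠ 0 := by exact_mod_cast Nat.card_pos.ne'
    field_simp at h1
    exact h1
  have hn : ((1 + m * p : ℕ) : ℂ) ≠ 0 := by exact_mod_cast (by omega : 1 + m * p ≠ 0)
  have hequal : ∀ θ' ∈ D.Y, ∑ y : (P : Subgroup G), (θ' : G → ℂ) y * conj ((θ' : G → ℂ) y) - (θ' : G → ℂ) 1 * conj ((θ' : G → ℂ) 1) =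
      ∑ y : (P : Subgroup G), (θ : G → ℂ) y * conj ((θ : G → ℂ) y) - (θ : G → ℂ) 1 * conj ((θ : G → ℂ) 1) := by
    intro θ' hθ'
    have h1 := h.sum_split (P := P) _ (hcl θ')
    have h2 := h.sum_split (P := P) _ (hcl θ)
    rw [key θ'] at h1
    rw [key θ] at h2
    have h3 : ∑ g ∈ Finset.univ.filter (fun g : G => ¬ p ∣ orderOf g), (θ' : G → ℂ) g * conj ((θ' : G → ℂ) g) =
        ∑ g ∈ Finset.univ.filter (fun g : G => ¬ p ∣ orderOf g), (θ : G → ℂ) g * conj ((θ : G → ℂ) g) :=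
      Finset.sum_congr rfl fun g hg => by rw [D.Y_reg θ' hθ' θ hθ g (Finset.mem_filter.mp hg).2]
    apply mul_left_cancel₀ hn
    rw [h3] at h1
    linear_combination h2 - h1
  have ht : (t : ℂ) ≠ 0 := by
    have := h.t_ge
    exact_mod_cast (by omega : t ≠ 0)
  have h3 : ∑ θ' ∈ D.Y, (∑ y : (P : Subgroup G), (θ' : G → ℂ) y * conj ((θ' : G → ℂ) y) - (θ' : G → ℂ) 1 * conj ((θ' : G → ℂ) 1)) =
      (t : ℂ) * (∑ y : (P : Subgroup G), (θ : G → ℂ) y * conj ((θ : G → ℂ) y) - (θ : G → ℂ) 1 * conj ((θ : G → ℂ) 1)) := by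
    rw [Finset.sum_congr rfl hequal, Finset.sum_const, D.card_Y, nsmul_eq_mul]
  have h4 : ∑ θ' ∈ D.Y, (∑ y : (P : Subgroup G), (θ' : G → ℂ) y * conj ((θ' : G → ℂ) y) - (θ' : G → ℂ) 1 * conj ((θ' : G → ℂ) 1)) = ((p : ℂ) - 1) * ((p : ℂ) - e) := by
    have h5 : ∀ θ' ∈ D.Y, ∑ y : (P : Subgroup G), (θ' : G → ℂ) y * conj ((θ' : G → ℂ) y) - (θ' : G → ℂ) 1 * conj ((θ' : G → ℂ) 1) = ∑ y ∈ (Finset.univ : Finset (P : Subgroup G)).erase 1, (θ' : G → ℂ) y * conj ((θ' : G → ℂ) y) := by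
      intro θ' _
      rw [← Finset.add_sum_erase Finset.univ (fun y : (P : Subgroup G) => (θ' : G → ℂ) y * conj ((θ' : G → ℂ) y)) (Finset.mem_univ (1 : (P : Subgroup G)))]
      simp
    rw [Finset.sum_congr rfl h5, Finset.sum_comm]
    have h6 : ∀ y ∈ (Finset.univ : Finset (P : Subgroup G)).erase 1, ∑ θ' ∈ D.Y, (θ' : G → ℂ) y * conj ((θ' : G → ℂ) y) = (p : ℂ) - e := fun y hy =>
      h.Y_norm D y.2 (fun e => (Finset.ne_of_mem_erase hy) (Subtype.ext e))
    rw [Finset.sum_congr rfl h6, Finset.sum_const, Finset.card_erase_of_mem (Finset.mem_univ _), Finset.card_univ,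
      ← Nat.card_eq_fintype_card, h.card_P, nsmul_eq_mul]
    have := h.p_pos
    push_cast [Nat.cast_sub this]
    rfl
  rw [h3] at h4
  have h5 : ((p : ℂ) - 1) = (t : ℂ) * e := by
    have h6 := h.te
    have h7 : ((t * e : ℕ) : ℂ) = ((p - 1 : ℕ) : ℂ) := by rw [h6]
    have := h.p_pos
    push_cast [Nat.cast_sub this] at h7
    rw [← h7]
  rw [h5, mul_assoc] at h4
  exact mul_left_cancel₀ ht h4

/-- The two equations for a character given as a sum of irreducible characters. -/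
theorem tens [Fintype (P : Subgroup G)] (D : Dat P e t) (mm : IrrCharacter G → ℕ) {D₀ t₀ τ d : ℕ}
    (h1 : ∑ χ, mm χ * charDegree (χ : G → ℂ) = D₀) (h2 : ∑ χ, mm χ * T (P : Subgroup G) χ = t₀)
    (hYT : ∀ θ ∈ D.Y, T (P : Subgroup G) θ = τ) (hYd : ∀ θ ∈ D.Y, charDegree (θ : G → ℂ) = d) :
    t₀ = mm (oneIrr G) + (∑ χ ∈ D.A, mm χ * T (P : Subgroup G) χ + (∑ χ ∈ D.B, mm χ * T (P : Subgroup G) χ + ((∑ χ ∈ D.Y, mm χ) * τ + ∑ χ ∈ D.Z, mm χ * T (P : Subgroup G) χ))) ∧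
    (D₀ : ℤ) = mm (oneIrr G) + (p : ℤ) * (∑ χ ∈ D.A, mm χ * T (P : Subgroup G) χ : ℕ) - ((p : ℤ) - 1) * (∑ χ ∈ D.A, mm χ : ℕ) +
      (p : ℤ) * (∑ χ ∈ D.B, mm χ * T (P : Subgroup G) χ : ℕ) + ((p : ℤ) - 1) * (∑ χ ∈ D.B, mm χ : ℕ) + (∑ χ ∈ D.Y, mm χ : ℕ) * d +
      (p : ℤ) * (∑ χ ∈ D.Z, mm χ * T (P : Subgroup G) χ : ℕ) := by
  classical
  constructor
  · rw [← h2, D.sum_decomp, T_oneIrr, mul_one, Finset.sum_mul]
    rw [Finset.sum_congr (s₂ := D.Y) rfl (fun θ hθ => by rw [hYT θ hθ])]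
  · rw [← h1, D.sum_decomp, deg_oneIrr, mul_one]
    have hA : (∑ χ ∈ D.A, mm χ * charDegree (χ : G → ℂ) : ℕ) + ((p : ℤ) - 1) * (∑ χ ∈ D.A, mm χ : ℕ) = (p : ℤ) * (∑ χ ∈ D.A, mm χ * T (P : Subgroup G) χ : ℕ) := by
      push_cast
      rw [Finset.mul_sum, Finset.mul_sum, ← Finset.sum_add_distrib]
      refine Finset.sum_congr rfl fun χ hχ => ?_
      linear_combination -(mm χ : ℤ) * h.A_T D hχ
    have hB : (∑ χ ∈ D.B, mm χ * charDegree (χ : G → ℂ) : ℕ) = (p : ℤ) * (∑ χ ∈ D.B, mm χ * T (P : Subgroup G) χ : ℕ) + ((p : ℤ) - 1) * (∑ χ ∈ D.B, mm χ : ℕ) := by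
      push_cast
      rw [Finset.mul_sum, Finset.mul_sum, ← Finset.sum_add_distrib]
      refine Finset.sum_congr rfl fun χ hχ => ?_
      linear_combination -(mm χ : ℤ) * h.B_T D hχ
    have hY : (∑ χ ∈ D.Y, mm χ * charDegree (χ : G → ℂ) : ℕ) = (∑ χ ∈ D.Y, mm χ : ℕ) * d := by
      rw [Finset.sum_mul]
      exact Finset.sum_congr rfl fun θ hθ => by rw [hYd θ hθ]
    have hZ : (∑ χ ∈ D.Z, mm χ * charDegree (χ : G → ℂ) : ℕ) = (p : ℤ) * (∑ χ ∈ D.Z, mm χ * T (P : Subgroup G) χ : ℕ) := by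
      push_cast
      rw [Finset.mul_sum]
      refine Finset.sum_congr rfl fun χ hχ => ?_
      linear_combination -(mm χ : ℤ) * h.Z_T D hχ
    rw [hY] at *
    push_cast at hA hB hZ ⊢
    linear_combination hA + hB + hZ

end SC

end Cfsg.Agent.Lib.BT
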