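import Cfsg.Agent.Lib.BT.Block

/-! Arithmetic consequences for the degrees when `|G| = p q^b g`. -/

set_option autoImplicit false
set_option linter.unusedSectionVars false
set_option linter.unusedVariables false

namespace Cfsg.Agent.Lib.BT

open Cfsg Cfsg.Agent.Lib.Char Cfsg.Agent.Lib.Blocks Cfsg.Agent.Lib.Small.BD Subgroup MulAction Module
open scoped ComplexConjugate

universe u

variable {G : Type u} [Group G] [Fintype G] {p : ℕ} [hp : Fact p.Prime]

namespace SC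

variable {P : Sylow p G} {e m t : ℕ} (h : SC P e m t)

include h

theorem A_dvd (D : Dat P e t) {χ : IrrCharacter G} (hχ : χ ∈ D.A) : charDegree (χ : G → ℂ) ∣ (1 + m * p) * e := by
  obtain ⟨y, hy, hy1⟩ := h.exists_ne_one_mem
  rw [← h.index_cent hy hy1]
  exact degree_dvd_index_of_value (a := 1) (Or.inl rfl) (by simpa using D.A_val χ hχ y hy hy1)

theorem B_dvd (D : Dat P e t) {χ : IrrCharacter G} (hχ : χ ∈ D.B) : charDegree (χ : G → ℂ) ∣ (1 + m * p) * e := by
  obtain ⟨y, hy, hy1⟩ := h.exists_ne_one_mem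
  rw [← h.index_cent hy hy1]
  exact degree_dvd_index_of_value (a := -1) (Or.inr rfl) (by simpa using D.B_val χ hχ y hy hy1)

theorem one_reg : ¬ p ∣ orderOf (1 : G) := by
  rw [orderOf_one]
  exact hp.out.one_lt.ne' ∘ Nat.dvd_one.mp

/-- All exceptional characters have the same degree. -/
theorem Y_deg (D : Dat P e t) {θ θ' : IrrCharacter G} (hθ : θ ∈ D.Y) (hθ' : θ' ∈ D.Y) : charDegree (θ : G → ℂ) = charDegree (θ' : G → ℂ) := by
  have h1 := D.Y_reg θ hθ θ' hθ' 1 h.one_reg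
  rw [apply_one_eq_charDegree (IsIrrCharacter.isCharacter θ.2), apply_one_eq_charDegree (IsIrrCharacter.isCharacter θ'.2)] at h1
  exact_mod_cast h1

/-- The degree equation. -/
theorem rel_one (D : Dat P e t) {θ : IrrCharacter G} (hθ : θ ∈ D.Y) :
    D.ε * (charDegree (θ : G → ℂ) : ℤ) = 1 + ∑ χ ∈ D.A, (charDegree (χ : G → ℂ) : ℤ) - ∑ χ ∈ D.B, (charDegree (χ : G → ℂ) : ℤ) := by
  have h1 := D.rel θ hθ 1 h.one_reg
  have hd : ∀ χ : IrrCharacter G, (χ : G → ℂ) 1 = (charDegree (χ : G → ℂ) : ℂ) := fun χ => apply_one_eq_charDegree (IsIrrCharacter.isCharacter χ.2)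
  simp only [hd] at h1
  exact_mod_cast h1

/-- The degree of an exceptional character divides the index. -/
theorem Y_dvd (D : Dat P e t) {θ : IrrCharacter G} (hθ : θ ∈ D.Y) : charDegree (θ : G → ℂ) ∣ (1 + m * p) * e := by
  obtain ⟨y, hy, hy1⟩ := h.exists_ne_one_mem
  rw [← h.index_cent hy hy1]
  have hpos := charDegree_pos θ.2
  apply dvd_of_isIntegral_div hpos
  have h1 : IsIntegral ℤ (∑ θ' ∈ D.Y, centralChar (θ' : G → ℂ) y) :=
    IsIntegral.sum _ fun θ' _ => isIntegral_centralChar θ' y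
  have hd : ∀ χ : IrrCharacter G, (χ : G → ℂ) 1 = (charDegree (χ : G → ℂ) : ℂ) := fun χ => apply_one_eq_charDegree (IsIrrCharacter.isCharacter χ.2)
  have h2 : ∑ θ' ∈ D.Y, centralChar (θ' : G → ℂ) y =
      ((centralizer ({y} : Set G)).index : ℂ) * (-(D.ε : ℂ)) / (charDegree (θ : G → ℂ) : ℂ) := by
    rw [← D.Y_sum y hy hy1, Finset.mul_sum, Finset.sum_div]
    refine Finset.sum_congr rfl fun θ' hθ' => ?_
    rw [centralChar, hd, h.Y_deg D hθ' hθ]
  rw [h2] at h1
  rcases D.ε_sign with e0 | e0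
  · have h3 := h1.neg
    have e1 : -(((centralizer ({y} : Set G)).index : ℂ) * (-(D.ε : ℂ)) / (charDegree (θ : G → ℂ) : ℂ)) = ((centralizer ({y} : Set G)).index : ℂ) / (charDegree (θ : G → ℂ) : ℂ) := by
      rw [e0]
      push_cast
      ring
    rwa [e1] at h3
  · have e1 : ((centralizer ({y} : Set G)).index : ℂ) * (-(D.ε : ℂ)) / (charDegree (θ : G → ℂ) : ℂ) = ((centralizer ({y} : Set G)).index : ℂ) / (charDegree (θ : G → ℂ) : ℂ) := by
      rw [e0]
      push_cast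
      ring
    rwa [e1] at h1

/-- The degrees of the nonexceptional characters in the principal block are divisible by `q`. -/
theorem q_dvd_A [Fintype (P : Subgroup G)] (D : Dat P e t) {q b g : ℕ} (hq : q.Prime) (hI : (1 + m * p) * e = q ^ b * g) (hg : g < p - 1)
    (hg0 : 0 < g) {χ : IrrCharacter G} (hχ : χ ∈ D.A) : q ∣ charDegree (χ : G → ℂ) := by
  by_contra hn
  have h1 := h.A_dvd D hχ
  rw [hI] at h1
  have hc : Nat.Coprime (charDegree (χ : G → ℂ)) (q ^ b) := Nat.Coprime.pow_right b ((Nat.Prime.coprime_iff_not_dvd hq).mpr hn).symm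
  have h2 := hc.dvd_of_dvd_mul_left h1
  have h3 := Nat.le_of_dvd hg0 h2
  have h4 := h.A_T D hχ
  have h5 := h.A_T_ge D hχ
  have h6 : (2 : ℤ) * p ≤ (T (P : Subgroup G) χ : ℤ) * p := by
    apply mul_le_mul_of_nonneg_right _ (by positivity)
    exact_mod_cast h5
  have h7 : (charDegree (χ : G → ℂ) : ℤ) < (p : ℤ) - 1 := by
    have h8 := hp.out.one_lt
    omega
  linarith

theorem q_dvd_B [Fintype (P : Subgroup G)] (D : Dat P e t) {q b g : ℕ} (hq : q.Prime) (hI : (1 + m * p) * e = q ^ b * g) (hg : g < p - 1)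
    (hg0 : 0 < g) {χ : IrrCharacter G} (hχ : χ ∈ D.B) : q ∣ charDegree (χ : G → ℂ) := by
  by_contra hn
  have h1 := h.B_dvd D hχ
  rw [hI] at h1
  have hc : Nat.Coprime (charDegree (χ : G → ℂ)) (q ^ b) := Nat.Coprime.pow_right b ((Nat.Prime.coprime_iff_not_dvd hq).mpr hn).symm
  have h2 := hc.dvd_of_dvd_mul_left h1
  have h3 := Nat.le_of_dvd hg0 h2
  have h4 := h.B_T D hχ
  have h6 : (0 : ℤ) ≤ (T (P : Subgroup G) χ : ℤ) * p := by positivity
  have h7 : (charDegree (χ : G → ℂ) : ℤ) < (p : ℤ) - 1 := by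
    have h8 := hp.out.one_lt
    omega
  linarith

/-- The congruence for the degree of the exceptional characters. -/
theorem q_dvd_eps [Fintype (P : Subgroup G)] (D : Dat P e t) {q b g : ℕ} (hq : q.Prime) (hI : (1 + m * p) * e = q ^ b * g) (hg : g < p - 1)
    (hg0 : 0 < g) {θ : IrrCharacter G} (hθ : θ ∈ D.Y) : (q : ℤ) ∣ D.ε * (charDegree (θ : G → ℂ) : ℤ) - 1 := by
  rw [h.rel_one D hθ]
  have h1 : (q : ℤ) ∣ ∑ χ ∈ D.A, (charDegree (χ : G → ℂ) : ℤ) := Finset.dvd_sum fun χ hχ => by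
    exact_mod_cast h.q_dvd_A D hq hI hg hg0 hχ
  have h2 : (q : ℤ) ∣ ∑ χ ∈ D.B, (charDegree (χ : G → ℂ) : ℤ) := Finset.dvd_sum fun χ hχ => by
    exact_mod_cast h.q_dvd_B D hq hI hg hg0 hχ
  have e1 : (1 + ∑ χ ∈ D.A, (charDegree (χ : G → ℂ) : ℤ) - ∑ χ ∈ D.B, (charDegree (χ : G → ℂ) : ℤ)) - 1 = ∑ χ ∈ D.A, (charDegree (χ : G → ℂ) : ℤ) - ∑ χ ∈ D.B, (charDegree (χ : G → ℂ) : ℤ) := by ring
  rw [e1]
  exact dvd_sub h1 h2

theorem not_q_dvd_Y [Fintype (P : Subgroup G)] (D : Dat P e t) {q b g : ℕ} (hq : q.Prime) (hI : (1 + m * p) * e = q ^ b * g) (hg : g < p - 1)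
    (hg0 : 0 < g) {θ : IrrCharacter G} (hθ : θ ∈ D.Y) : ¬ q ∣ charDegree (θ : G → ℂ) := by
  intro hd
  have h1 := h.q_dvd_eps D hq hI hg hg0 hθ
  have h2 : (q : ℤ) ∣ D.ε * (charDegree (θ : G → ℂ) : ℤ) := Dvd.dvd.mul_left (by exact_mod_cast hd) _
  have h3 : (q : ℤ) ∣ 1 := by
    have := dvd_sub h2 h1
    simpa using this
  have h4 := Int.le_of_dvd one_pos h3
  have h5 : (2 : ℤ) ≤ q := by exact_mod_cast hq.two_le
  omega

theorem Y_dvd_g [Fintype (P : Subgroup G)] (D : Dat P e t) {q b g : ℕ} (hq : q.Prime) (hI : (1 + m * p) * e = q ^ b * g) (hg : g < p - 1)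
    (hg0 : 0 < g) {θ : IrrCharacter G} (hθ : θ ∈ D.Y) : charDegree (θ : G → ℂ) ∣ g := by
  have h1 := h.Y_dvd D hθ
  rw [hI] at h1
  have hc : Nat.Coprime (charDegree (θ : G → ℂ)) (q ^ b) := Nat.Coprime.pow_right b ((Nat.Prime.coprime_iff_not_dvd hq).mpr (h.not_q_dvd_Y D hq hI hg hg0 hθ)).symm
  exact hc.dvd_of_dvd_mul_left h1

/-- The degree of the exceptional characters. -/
theorem Y_cases [Fintype (P : Subgroup G)] (D : Dat P e t) {q b g : ℕ} (hq : q.Prime) (hI : (1 + m * p) * e = q ^ b * g) (hg : g < p - 1)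
    (hg0 : 0 < g) {θ : IrrCharacter G} (hθ : θ ∈ D.Y) :
    (D.ε = 1 ∧ charDegree (θ : G → ℂ) = e) ∨ (D.ε = -1 ∧ charDegree (θ : G → ℂ) + e = p) := by
  have h1 := h.Y_dvd_g D hq hI hg hg0 hθ
  have h2 := Nat.le_of_dvd hg0 h1
  have h3 := h.Y_T D hθ
  have h4 := h.e_le
  have hpos := charDegree_pos θ.2
  have hpp := hp.out.one_lt
  rcases D.ε_sign with e0 | e0
  · left
    refine ⟨e0, ?_⟩
    rw [e0] at h3
    have h5 : T (P : Subgroup G) θ = 0 := by
      by_contra hne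
      have h6 : 1 ≤ T (P : Subgroup G) θ := by omega
      have h7 : (p : ℤ) ≤ (T (P : Subgroup G) θ : ℤ) * p := by
        have : (1 : ℤ) ≤ T (P : Subgroup G) θ := by exact_mod_cast h6
        nlinarith
      omega
    rw [h5] at h3
    push_cast at h3
    omega
  · right
    refine ⟨e0, ?_⟩
    rw [e0] at h3
    have h5 : T (P : Subgroup G) θ = 1 := by
      have h6 : T (P : Subgroup G) θ < 2 := by
        by_contra hne
        have h7 : 2 ≤ T (P : Subgroup G) θ := by omega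
        have h8 : (2 : ℤ) * p ≤ (T (P : Subgroup G) θ : ℤ) * p := by
          apply mul_le_mul_of_nonneg_right _ (by positivity)
          exact_mod_cast h7
        omega
      have h7 : T (P : Subgroup G) θ ≠ 0 := by
        intro h0
        rw [h0] at h3
        push_cast at h3
        omega
      omega
    rw [h5] at h3
    push_cast at h3
    omega

end SC

end Cfsg.Agent.Lib.BT
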