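import Cfsg.Agent.Lib.BT.BoundTwo
import Cfsg.Agent.S4729

/-! The centralizer of `P`, when `|G| = p q^b g` and `G` is simple. -/

set_option autoImplicit false
set_option linter.unusedSectionVars false
set_option linter.unusedVariables false

namespace Cfsg.Agent.Lib.BT

open Cfsg Cfsg.Agent.Lib.Char Cfsg.Agent.Lib.Blocks Cfsg.Agent.Lib.Small.BD Subgroup MulAction Module
open scoped ComplexConjugate

universe u

variable {G : Type u} [Group G] [Fintype G] {p : ℕ} [hp : Fact p.Prime]

/-- The hypotheses of the theorem of Brauer and Tuan give a self-centralizing Sylow subgroup. -/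
theorem exists_SC [IsSimpleGroup G] (hperf : commutator G = ⊤) {q b g : ℕ} (hq : q.Prime) (hqp : p ≠ q)
    (hcard : Nat.card G = p * (q ^ b * g)) (hg : g < p - 1) :
    ∃ (P : Sylow p G) (e m t : ℕ), SC P e m t ∧ (1 + m * p) * e = q ^ b * g := by
  classical
  have hpr := hp.out
  have hg0 : 0 < g := by
    rcases Nat.eq_zero_or_pos g with h | h
    · rw [h] at hcard
      simp at hcard
    · exact h
  have hp3 : 3 ≤ p := by omega
  have hpnd : ¬ p ∣ q ^ b * g := by
    intro h1
    rcases (Nat.Prime.dvd_mul hpr).mp h1 with h2 | h2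
    · have := Nat.Prime.dvd_of_dvd_pow hpr h2
      exact hqp ((Nat.prime_dvd_prime_iff_eq hpr hq).mp this)
    · have := Nat.le_of_dvd hg0 h2
      omega
  let P : Sylow p G := default
  have hP : Nat.card (P : Subgroup G) = p := by
    rw [Sylow.card_eq_multiplicity, hcard, Nat.factorization_mul hpr.ne_zero (fun h0 => by rw [h0] at hpnd; exact hpnd (dvd_zero _))]
    simp [Nat.factorization_eq_zero_of_not_dvd hpnd, Nat.Prime.factorization_self hpr]
  have hne1 : Nat.card (P : Subgroup G) ≠ 1 := by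
    rw [hP]
    omega
  obtain ⟨e, he⟩ : ∃ e, (centralizer ((P : Subgroup G) : Set G)).relIndex (normalizer ((P : Subgroup G) : Set G)) = e := ⟨_, rfl⟩
  have he0 : e ≠ 0 := by
    rw [← he]
    exact Subgroup.index_ne_zero_of_finite
  have he1 : e ≠ 1 := by
    intro h1
    rw [h1] at he
    exact false_of_normalizer_le hperf P (Subgroup.relIndex_eq_one.mp he) hne1
  have he2 : 2 ≤ e := by omega
  have hdiv : e ∣ p - 1 := by
    have h1 := SmallSimple.relIndex_centralizer_normalizer_dvd P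
    haveI : IsCyclic (P : Subgroup G) := isCyclic_of_prime_card hP
    rw [IsCyclic.card_mulAut, hP, Nat.totient_prime hpr] at h1
    rw [← he]
    exact h1
  obtain ⟨t, ht⟩ := hdiv
  have ht0 : 0 < t := by
    rcases Nat.eq_zero_or_pos t with h | h
    · rw [h] at ht
      omega
    · exact h
  have hmod : Nat.card (Sylow p G) ≡ 1 [MOD p] := card_sylow_modEq_one p G
  obtain ⟨m, hv⟩ : ∃ m : ℕ, Nat.card (Sylow p G) = 1 + m * p := by
    have h1 : (p : ℤ) ∣ (Nat.card (Sylow p G) : ℤ) - 1 := by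
      have h3 := Nat.modEq_iff_dvd.mp hmod.symm
      push_cast at h3
      exact h3
    have h2 : 1 ≤ Nat.card (Sylow p G) := Nat.card_pos
    obtain ⟨k, hk⟩ := h1
    have hk0 : 0 ≤ k := by
      by_contra hneg
      have : k ≤ -1 := by omega
      have h4 : (p : ℤ) * k ≤ (p : ℤ) * (-1) := mul_le_mul_of_nonneg_left this (by positivity)
      have h5 : (1 : ℤ) ≤ (Nat.card (Sylow p G) : ℤ) := by exact_mod_cast h2
      have h6 : (3 : ℤ) ≤ p := by exact_mod_cast hp3
      linarith
    refine ⟨k.toNat, ?_⟩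
    have h7 : ((k.toNat : ℕ) : ℤ) = k := Int.toNat_of_nonneg hk0
    have h8 : ((Nat.card (Sylow p G) : ℕ) : ℤ) = ((1 + k.toNat * p : ℕ) : ℤ) := by
      push_cast
      rw [h7]
      linarith
    exact_mod_cast h8
  have hmul := (Nat.card_pos : 0 < Nat.card (P : Subgroup G))
  -- the block
  obtain ⟨M, hM⟩ := exists_isPModular hpr
  haveI := isPrime_of_modular hM
  have hp2 : p ≠ 2 := by omega
  obtain ⟨X, Y, hB, hdis, hXc, hYc, εX, ε, hδ, hε, hdegY, hagree, hrel⟩ := principalConclusion hM hp2 P hP he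
  have hsetup := frobSetup_of_card hM P hP
  have hne : (P : Subgroup G) ≠ ⊥ := by
    intro h
    rw [h] at hne1
    simp at hne1
  obtain ⟨⟨z, hz⟩, hz1⟩ := Subgroup.ne_bot_iff_exists_ne_one.mp hne
  have hz1' : z ≠ 1 := fun e => hz1 (Subtype.ext e)
  have hidx := index_centralizer_of_mem P hP he hv hz hz1'
  have hone : ¬ p ∣ orderOf (1 : G) := by
    rw [orderOf_one]
    exact hpr.one_lt.ne' ∘ Nat.dvd_one.mp
  have hval : ∀ χ ∈ X, (χ : G → ℂ) z = (εX χ : ℂ) := by
    intro χ hχ
    have h1 := (hδ χ hχ).2.2 z hz hz1' 1 (one_mem _) hone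
    rwa [mul_one] at h1
  have hidxP : (P : Subgroup G).index = q ^ b * g := by
    have h1 := (P : Subgroup G).card_mul_index
    rw [hP, hcard] at h1
    exact Nat.eq_of_mul_eq_mul_left hpr.pos h1
  have hIdvd : e * (1 + m * p) ∣ q ^ b * g := by
    rw [← hidx, ← hidxP]
    apply Subgroup.index_dvd_of_le
    intro x hx
    rw [mem_centralizer_singleton_iff]
    exact comm_of_prime (p := p) (P : Subgroup G) hP x hx z hz
  -- degrees in `X`
  have hX : ∀ χ ∈ X, χ ≠ one' G → q ∣ charDegree (χ : G → ℂ) := by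
    intro χ hχ hχ1
    by_contra hn
    obtain ⟨h1, h2, -⟩ := hδ χ hχ
    have hgt := one_lt_degree_of_perfect hperf hχ1
    have hd : charDegree (χ : G → ℂ) ∣ q ^ b * g := by
      refine Dvd.dvd.trans ?_ hIdvd
      rw [← hidx]
      exact degree_dvd_index_of_value h1 (hval χ hχ)
    have hc : Nat.Coprime (charDegree (χ : G → ℂ)) (q ^ b) := Nat.Coprime.pow_right b ((Nat.Prime.coprime_iff_not_dvd hq).mpr hn).symm
    have h3 := hc.dvd_of_dvd_mul_left hd
    have h4 := Nat.le_of_dvd hg0 h3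
    have hmod : (p : ℤ) ∣ (charDegree (χ : G → ℂ) : ℤ) - εX χ := Int.modEq_iff_dvd.mp h2.symm
    rcases h1 with h1 | h1
    · rw [h1] at hmod
      have h5 := Int.le_of_dvd (by omega) hmod
      omega
    · rw [h1] at hmod
      have h5 := Int.le_of_dvd (by omega) hmod
      omega
  have hXf : X.Finite := Set.toFinite X
  have hYf : Y.Finite := Set.toFinite Y
  have hYcard : Y.ncard = t := by
    rw [← Nat.card_coe_set_eq, hYc, ht]
    exact Nat.mul_div_cancel_left _ (by omega)
  have hYne : Y.Nonempty := by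
    rw [← Set.ncard_pos hYf, hYcard]
    exact ht0
  obtain ⟨θ, hθ⟩ := hYne
  have hreg := hrel θ hθ 1 hone
  rw [finsum_mem_eq_finite_toFinset_sum _ hXf] at hreg
  have honeB : one' G ∈ X ∪ Y := by
    rw [← hB]
    exact self_mem_blockOf (oneIrr G)
  obtain ⟨y, hy⟩ : ∃ y, y = charDegree (θ : G → ℂ) := ⟨_, rfl⟩
  have hypos : 0 < y := by
    rw [hy]
    exact charDegree_pos θ.2
  rw [apply_one_eq_charDegree (IsIrrCharacter.isCharacter θ.2), ← hy] at hreg
  have hregZ : ε * (y : ℤ) = ∑ χ ∈ hXf.toFinset, εX χ * (charDegree (χ : G → ℂ) : ℤ) := by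
    have h3 : ((ε * (y : ℤ) : ℤ) : ℂ) = ((∑ χ ∈ hXf.toFinset, εX χ * (charDegree (χ : G → ℂ) : ℤ) : ℤ) : ℂ) := by
      push_cast
      rw [hreg]
      refine Finset.sum_congr rfl fun χ _ => ?_
      rw [apply_one_eq_charDegree (IsIrrCharacter.isCharacter χ.2)]
    exact Int.cast_injective h3
  -- the sum over `Y`
  have hdeg : ∀ χ : IrrCharacter G, conj ((χ : G → ℂ) 1) = (χ : G → ℂ) 1 := by
    intro χ
    rw [apply_one_eq_charDegree (IsIrrCharacter.isCharacter χ.2), Complex.conj_natCast]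
  have hsplit : ∀ f : IrrCharacter G → ℂ, ∑ χ, indic (principalBlock M G) χ * f χ =
      ∑ χ ∈ hXf.toFinset, f χ + ∑ χ ∈ hYf.toFinset, f χ := by
    intro f
    have hd : Disjoint hXf.toFinset hYf.toFinset := by
      rw [Finset.disjoint_left]
      intro χ h1 h2
      exact Set.disjoint_left.mp hdis (hXf.mem_toFinset.mp h1) (hYf.mem_toFinset.mp h2)
    rw [← Finset.sum_union hd, ← Finset.sum_subset (Finset.subset_univ (hXf.toFinset ∪ hYf.toFinset))]
    · refine Finset.sum_congr rfl fun χ hχ => ?_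
      rw [indic_apply_of_mem, one_mul]
      rw [hB]
      rcases Finset.mem_union.mp hχ with h | h
      · exact Or.inl (hXf.mem_toFinset.mp h)
      · exact Or.inr (hYf.mem_toFinset.mp h)
    · intro χ _ hχ
      rw [indic_apply_of_notMem, zero_mul]
      rw [hB]
      rintro (h | h)
      · exact hχ (Finset.mem_union_left _ (hXf.mem_toFinset.mpr h))
      · exact hχ (Finset.mem_union_right _ (hYf.mem_toFinset.mpr h))
  have hsumY : ∑ θ' ∈ hYf.toFinset, (θ' : G → ℂ) z = -(ε : ℂ) := by
    have h1 := hsetup.column_one hz hz1'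
    rw [hsplit (fun χ => (χ : G → ℂ) z * conj ((χ : G → ℂ) 1))] at h1
    have h2 : ∑ χ ∈ hXf.toFinset, (χ : G → ℂ) z * conj ((χ : G → ℂ) 1) = ∑ χ ∈ hXf.toFinset, (εX χ : ℂ) * (χ : G → ℂ) 1 := by
      refine Finset.sum_congr rfl fun χ hχ => ?_
      rw [hval χ (hXf.mem_toFinset.mp hχ), hdeg]
    have h3 : ∑ θ' ∈ hYf.toFinset, (θ' : G → ℂ) z * conj ((θ' : G → ℂ) 1) = (∑ θ' ∈ hYf.toFinset, (θ' : G → ℂ) z) * (y : ℂ) := by
      rw [Finset.sum_mul]
      refine Finset.sum_congr rfl fun θ' hθ' => ?_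
      rw [hdeg, hagree θ' (hYf.mem_toFinset.mp hθ') θ hθ 1 hone, apply_one_eq_charDegree (IsIrrCharacter.isCharacter θ.2), ← hy]
    rw [h2, h3, ← hreg] at h1
    have hy0 : (y : ℂ) ≠ 0 := by exact_mod_cast hypos.ne'
    apply mul_right_cancel₀ hy0
    linear_combination h1
  -- `y` divides the index
  have hyd : y ∣ e * (1 + m * p) := by
    rw [← hidx]
    apply dvd_of_isIntegral_div hypos
    have h1 : IsIntegral ℤ (∑ θ' ∈ hYf.toFinset, centralChar (θ' : G → ℂ) z) :=
      IsIntegral.sum _ fun θ' _ => isIntegral_centralChar θ' z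
    have h2 : ∑ θ' ∈ hYf.toFinset, centralChar (θ' : G → ℂ) z =
        ((centralizer ({z} : Set G)).index : ℂ) * (-(ε : ℂ)) / (y : ℂ) := by
      rw [← hsumY, Finset.mul_sum, Finset.sum_div]
      refine Finset.sum_congr rfl fun θ' hθ' => ?_
      rw [centralChar, hagree θ' (hYf.mem_toFinset.mp hθ') θ hθ 1 hone, apply_one_eq_charDegree (IsIrrCharacter.isCharacter θ.2), ← hy]
    rw [h2] at h1
    rcases hε with h | h
    · have h3 := h1.neg
      have e : -(((centralizer ({z} : Set G)).index : ℂ) * (-(ε : ℂ)) / (y : ℂ)) = ((centralizer ({z} : Set G)).index : ℂ) / (y : ℂ) := by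
        rw [h]
        push_cast
        ring
      rwa [e] at h3
    · have e : ((centralizer ({z} : Set G)).index : ℂ) * (-(ε : ℂ)) / (y : ℂ) = ((centralizer ({z} : Set G)).index : ℂ) / (y : ℂ) := by
        rw [h]
        push_cast
        ring
      rwa [e] at h1
  have hqge : (2 : ℤ) ≤ q := by exact_mod_cast hq.two_le
  have hε1 : ε * ε = 1 := by
    rcases hε with h | h <;> rw [h] <;> norm_num
  -- the trivial character is in `X`
  have hoX : one' G ∈ X := by
    rcases honeB with hoX | hoY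
    · exact hoX
    · exfalso
      have hθ1 : y = 1 := by
        have h3 := hagree _ hoY θ hθ 1 hone
        rw [apply_one_eq_charDegree (IsIrrCharacter.isCharacter θ.2)] at h3
        have h4 : ((one' G : IrrCharacter G) : G → ℂ) 1 = 1 := rfl
        rw [h4] at h3
        have h5 : (1 : ℕ) = charDegree (θ : G → ℂ) := by exact_mod_cast h3
        rw [hy]
        exact h5.symm
      have hdvdS : (q : ℤ) ∣ ∑ χ ∈ hXf.toFinset, εX χ * (charDegree (χ : G → ℂ) : ℤ) := by
        apply Finset.dvd_sum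
        intro χ hχ
        apply Dvd.dvd.mul_left
        have hχX := hXf.mem_toFinset.mp hχ
        have hne' : χ ≠ one' G := by
          rintro rfl
          exact Set.disjoint_left.mp hdis hχX hoY
        exact_mod_cast hX χ hχX hne'
      rw [← hregZ, hθ1] at hdvdS
      have h5 : (q : ℤ) ∣ 1 := by
        rcases hε with h | h
        · rw [h] at hdvdS
          simpa using hdvdS
        · rw [h] at hdvdS
          simpa using hdvdS
      have h6 := Int.le_of_dvd (by norm_num) h5
      omega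
  have hoε : εX (one' G) = 1 := by
    rcases (hδ _ hoX).1 with h | h
    · exact h
    · exfalso
      have h2 := (hδ _ hoX).2.1
      rw [h] at h2
      have h3 : charDegree ((one' G : IrrCharacter G) : G → ℂ) = 1 := charDegree_eq (by simp)
      rw [h3] at h2
      have h4 := Int.modEq_iff_dvd.mp h2.symm
      have h5 : (p : ℤ) ∣ 2 := by
        norm_num at h4
        exact h4
      have h6 := Int.le_of_dvd (by norm_num) h5
      have h7 : (3 : ℤ) ≤ p := by exact_mod_cast hp3
      omega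
  -- `q` does not divide `y`
  have hoXf : one' G ∈ hXf.toFinset := hXf.mem_toFinset.mpr hoX
  rw [← Finset.add_sum_erase _ _ hoXf, hoε] at hregZ
  have h3 : charDegree ((one' G : IrrCharacter G) : G → ℂ) = 1 := charDegree_eq (by simp)
  rw [h3] at hregZ
  have hdvdS : (q : ℤ) ∣ ∑ χ ∈ hXf.toFinset.erase (one' G), εX χ * (charDegree (χ : G → ℂ) : ℤ) := by
    apply Finset.dvd_sum
    intro χ hχ
    apply Dvd.dvd.mul_left
    exact_mod_cast hX χ (hXf.mem_toFinset.mp (Finset.mem_of_mem_erase hχ)) (Finset.ne_of_mem_erase hχ)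
  have hqy : ¬ q ∣ y := by
    intro hd
    have h4 : (q : ℤ) ∣ ε * (y : ℤ) := Dvd.dvd.mul_left (by exact_mod_cast hd) _
    rw [hregZ] at h4
    have h5 : (q : ℤ) ∣ 1 * 1 := by
      have h6 := dvd_sub h4 hdvdS
      simpa using h6
    have h6 := Int.le_of_dvd (by norm_num) h5
    omega
  have hyg : y ∣ g := by
    have h1 : y ∣ q ^ b * g := hyd.trans hIdvd
    have hc : Nat.Coprime y (q ^ b) := Nat.Coprime.pow_right b ((Nat.Prime.coprime_iff_not_dvd hq).mpr hqy).symm
    exact hc.dvd_of_dvd_mul_left h1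
  have hyle : y ≤ g := Nat.le_of_dvd hg0 hyg
  have hθne : θ ≠ one' G := by
    rintro rfl
    exact Set.disjoint_left.mp hdis hoX hθ
  have hy1 : 1 < y := by
    rw [hy]
    exact one_lt_degree_of_perfect hperf hθne
  -- the centralizer
  have hfaith : ∀ x : G, (θ : G → ℂ) x = (θ : G → ℂ) 1 → x = 1 := by
    intro x hx
    apply eq_one_of_norm_eq hperf (χ := θ) (by rw [← hy]; exact hy1)
    rw [hx, apply_one_eq_charDegree (IsIrrCharacter.isCharacter θ.2)]
    simp
  have hpg := Cfsg.Agent.S4729.result p M hM hperf P θ (hB ▸ Or.inr hθ) hfaith (by rw [← hy]; omega)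
  have hle : (P : Subgroup G) ≤ centralizer ((P : Subgroup G) : Set G) := by
    intro x hx
    rw [mem_centralizer_iff]
    intro w hw
    exact comm_of_prime (p := p) (P : Subgroup G) hP w hw x hx
  have hCP : centralizer ((P : Subgroup G) : Set G) = (P : Subgroup G) := P.is_maximal' hpg hle
  -- `t ≥ 2`
  have ht2 : 2 ≤ t := by
    by_contra hlt
    have ht1 : t = 1 := by omega
    subst ht1
    have h1 := hdegY θ hθ
    rw [← hy] at h1
    have h2 := Int.modEq_iff_dvd.mp h1.symm
    have h4 : (e : ℤ) = (p : ℤ) - 1 := by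
      have : p - 1 = e := by omega
      omega
    have h5 : (p : ℤ) ∣ (y : ℤ) + ε := by
      have h6 := dvd_add h2 (Dvd.intro (ε : ℤ) (rfl : (p : ℤ) * ε = _))
      rw [h4] at h6
      have e1 : (y : ℤ) - ε * ((p : ℤ) - 1) + (p : ℤ) * ε = (y : ℤ) + ε := by ring
      rwa [e1] at h6
    rcases hε with h | h
    · rw [h] at h5
      have h6 := Int.le_of_dvd (by omega) h5
      omega
    · rw [h] at h5
      have h6 := Int.le_of_dvd (by omega) h5
      omega
  have hSC : SC P e m t := by
    refine ⟨hP, ?_, he, he2, by rw [ht, mul_comm], ht2, hv, hperf⟩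
    intro w hw hw1
    rw [centralizer_singleton_eq (p := p) (P : Subgroup G) hP hw hw1, hCP]
  refine ⟨P, e, m, t, hSC, ?_⟩
  have h1 := hSC.card_G
  rw [hcard] at h1
  have h2 : p * (q ^ b * g) = p * ((1 + m * p) * e) := by
    rw [h1]
    ring
  exact (Nat.eq_of_mul_eq_mul_left hpr.pos h2).symm

/-- The theorem of Brauer and Tuan, for `p`. -/
theorem brauer_tuan [IsSimpleGroup G] (hperf : commutator G = ⊤) {q b g : ℕ} (hq : q.Prime) (hqp : p ≠ q)
    (hcard : Nat.card G = p * (q ^ b * g)) (hg : g < p - 1) :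
    ((∃ k, p + 1 = 2 ^ k) ∨ (∃ k, p = 2 ^ k + 1)) ∧ ((∃ (F : Type) (_ : Field F) (_ : Fintype F), Fintype.card F = p ∧ 3 < p ∧
      Nonempty (G ≃* Matrix.ProjectiveSpecialLinearGroup (Fin 2) F)) ∨
    (∃ (k : ℕ) (F : Type) (_ : Field F) (_ : Fintype F), Fintype.card F = 2 ^ k ∧ p = 2 ^ k + 1 ∧ 3 < p ∧
      Nonempty (G ≃* Matrix.ProjectiveSpecialLinearGroup (Fin 2) F))) := by
  classical
  obtain ⟨P, e, m, t, h, hI⟩ := exists_SC hperf hq hqp hcard hg
  have hg0 : 0 < g := by
    rcases Nat.eq_zero_or_pos g with h0 | h0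
    · rw [h0] at hcard
      simp at hcard
    · exact h0
  obtain ⟨h1, h2⟩ := h.bound_main hq hI hg hg0
  refine ⟨h2, brauer_perfect hperf P h.card_P h.hC ?_⟩
  rw [h.card_syl]
  exact h1

/-- A noncyclic simple group is perfect. -/
theorem perfect_of_simple {Γ : Type u} [Group Γ] [Finite Γ] [IsSimpleGroup Γ] (hG : ¬ IsCyclic Γ) : commutator Γ = ⊤ := by
  rcases IsSimpleGroup.eq_bot_or_eq_top_of_normal (commutator Γ) inferInstance with h | h
  · exfalso
    have hcomm : ∀ a b : Γ, a * b = b * a := by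
      intro a b
      have h1 : a * b * a⁻¹ * b⁻¹ ∈ commutator Γ := by
        rw [commutator_def]
        exact Subgroup.commutator_mem_commutator (Subgroup.mem_top a) (Subgroup.mem_top b)
      rw [h, Subgroup.mem_bot] at h1
      have h2 : a * b = b * a := by
        calc a * b = (a * b * a⁻¹ * b⁻¹) * (b * a) := by group
          _ = b * a := by rw [h1, one_mul]
      exact h2
    haveI : IsMulCommutative Γ := ⟨⟨hcomm⟩⟩
    have h1 : (Nat.card Γ).Prime := Group.is_simple_iff_prime_card.mp inferInstance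
    apply hG
    exact isCyclic_of_prime_card (p := Nat.card Γ) (hp := ⟨h1⟩) rfl
  · exact h

end Cfsg.Agent.Lib.BT
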