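import Mathlib
import Cfsg.Agent.Lib.Small.BrauerMainC
import Cfsg.Agent.Lib.Small.BrauerGenC
import Cfsg.Agent.Lib.Small.BrauerReduce

/-! The setup for the theorem of Brauer and Tuan: a self-centralizing Sylow subgroup of prime order
in a perfect group, the multiplicities over `P`, and the sums over the singular elements. -/

set_option autoImplicit false
set_option linter.unusedSectionVars false
set_option linter.unusedVariables false

namespace Cfsg.Agent.Lib.BT

open Cfsg Cfsg.Agent.Lib.Char Cfsg.Agent.Lib.Blocks Subgroup MulAction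
open scoped ComplexConjugate

universe u

section Main

variable {G : Type u} [Group G] [Fintype G]

/-- The multiplicity of the trivial character of `Q` in `χ`. -/
theorem exists_T (Q : Subgroup G) [Fintype Q] (χ : IrrCharacter G) :
    ∃ n : ℕ, (n : ℂ) * (Nat.card Q : ℂ) = ∑ y : Q, (χ : G → ℂ) y := by
  obtain ⟨n, hn⟩ := IsCharacter.classInner_irr_eq_nat (IsCharacter.comp (IsIrrCharacter.isCharacter χ.2) Q.subtype)
    (isIrrCharacter_one (G := Q))
  refine ⟨n, ?_⟩
  rw [← hn, classInner]
  have hc : (Nat.card Q : ℂ) ≠ 0 := by exact_mod_cast Nat.card_pos.ne'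
  simp only [map_one, mul_one]
  field_simp
  rfl

/-- The multiplicity of the trivial character of `Q` in `χ`. -/
noncomputable def T (Q : Subgroup G) [Fintype Q] (χ : IrrCharacter G) : ℕ := (exists_T Q χ).choose

theorem T_spec (Q : Subgroup G) [Fintype Q] (χ : IrrCharacter G) :
    (T Q χ : ℂ) * (Nat.card Q : ℂ) = ∑ y : Q, (χ : G → ℂ) y := (exists_T Q χ).choose_spec

/-- The sum over `Q`, splitting the identity. -/
theorem T_eq_of_const (Q : Subgroup G) [Fintype Q] (χ : IrrCharacter G) (a : ℂ)
    (h : ∀ y ∈ Q, y ≠ 1 → (χ : G → ℂ) y = a) :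
    (T Q χ : ℂ) * (Nat.card Q : ℂ) = (χ : G → ℂ) 1 + ((Nat.card Q : ℂ) - 1) * a := by
  classical
  rw [T_spec, ← Finset.add_sum_erase _ _ (Finset.mem_univ (1 : Q))]
  have h1 : ∀ y ∈ (Finset.univ : Finset Q).erase 1, (χ : G → ℂ) y = a := by
    intro y hy
    exact h y y.2 (fun e => (Finset.ne_of_mem_erase hy) (Subtype.ext e))
  rw [Finset.sum_congr rfl h1, Finset.sum_const, Finset.card_erase_of_mem (Finset.mem_univ _), Finset.card_univ,
    ← Nat.card_eq_fintype_card, nsmul_eq_mul]
  have h2 : 1 ≤ Nat.card Q := Nat.card_pos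
  push_cast [Nat.cast_sub h2]
  rfl

end Main

variable {G : Type u} [Group G] [Fintype G] {p : ℕ} [hp : Fact p.Prime]

/-- The hypotheses: a self-centralizing Sylow subgroup of prime order in a perfect group. -/
structure SC (P : Sylow p G) (e m t : ℕ) : Prop where
  card_P : Nat.card (P : Subgroup G) = p
  cent : ∀ y ∈ (P : Subgroup G), y ≠ 1 → centralizer ({y} : Set G) = P
  rel : (centralizer ((P : Subgroup G) : Set G)).relIndex (normalizer ((P : Subgroup G) : Set G)) = e
  e_ge : 2 ≤ e
  te : t * e = p - 1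
  t_ge : 2 ≤ t
  card_syl : Nat.card (Sylow p G) = 1 + m * p
  perfect : commutator G = ⊤

theorem mem_smul_sylow (a : G) (S : Sylow p G) (x : G) :
    x ∈ ((a • S : Sylow p G) : Subgroup G) ↔ a⁻¹ * x * a ∈ (S : Subgroup G) := by
  rw [Sylow.coe_subgroup_smul, Subgroup.mem_smul_pointwise_iff_exists]
  constructor
  · rintro ⟨s, hs, rfl⟩
    simpa [MulAut.smul_def, mul_assoc] using hs
  · intro hx
    exact ⟨_, hx, by simp [MulAut.smul_def, mul_assoc]⟩

namespace SC

variable {P : Sylow p G} {e m t : ℕ} (h : SC P e m t)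

include h

theorem p_pos : 1 ≤ p := hp.out.one_lt.le

theorem e_le : e ≤ p - 1 := by
  have h1 := h.te
  have h2 := h.t_ge
  rw [← h1]
  exact Nat.le_mul_of_pos_left e (by omega)

theorem p_ge_3 : 3 ≤ p := by
  have h1 := h.e_le
  have h2 := h.e_ge
  omega

theorem odd_p : p ≠ 2 := by
  have := h.p_ge_3
  omega

theorem cent_P : centralizer ((P : Subgroup G) : Set G) = P := by
  apply le_antisymm
  · intro x hx
    have hne : (P : Subgroup G) ≠ ⊥ := by
      intro h0
      have h1 := h.card_P
      rw [h0] at h1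
      simp at h1
      exact hp.out.ne_one h1.symm
    obtain ⟨⟨y, hy⟩, hy1⟩ := Subgroup.ne_bot_iff_exists_ne_one.mp hne
    have hy1' : y ≠ 1 := fun e => hy1 (Subtype.ext e)
    rw [← h.cent y hy hy1']
    rw [mem_centralizer_iff]
    intro w hw
    rw [Set.mem_singleton_iff.mp hw]
    exact mem_centralizer_iff.mp hx y hy
  · intro x hx
    rw [mem_centralizer_iff]
    intro w hw
    exact Small.BD.comm_of_prime (p := p) (P : Subgroup G) h.card_P w hw x hx

theorem hC : ∀ x, x ∈ centralizer ((P : Subgroup G) : Set G) → x ∈ (P : Subgroup G) := by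
  intro x hx
  rwa [h.cent_P] at hx

theorem card_N : Nat.card (normalizer ((P : Subgroup G) : Set G)) = p * e := by
  rw [Small.BD.card_normalizer_eq (P : Subgroup G) h.rel, h.cent_P, h.card_P]

theorem card_G : Nat.card G = (1 + m * p) * (p * e) := by
  have h1 : Nat.card (Sylow p G) = (normalizer ((P : Subgroup G) : Set G)).index := Sylow.card_eq_index_normalizer P
  rw [← h.card_N, ← h.card_syl, h1, mul_comm]
  exact ((normalizer ((P : Subgroup G) : Set G)).card_mul_index).symm

theorem card_sylow_coe (S : Sylow p G) : Nat.card (S : Subgroup G) = p := by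
  rw [Sylow.card_eq_multiplicity S, ← Sylow.card_eq_multiplicity P]
  exact h.card_P

theorem cent_all (S : Sylow p G) : ∀ y ∈ (S : Subgroup G), y ≠ 1 → centralizer ({y} : Set G) = S := by
  intro y hy hy1
  obtain ⟨a, rfl⟩ := MulAction.exists_smul_eq G P S
  rw [mem_smul_sylow] at hy
  have hy1' : a⁻¹ * y * a ≠ 1 := by
    intro h0
    apply hy1
    have h2 : y = a * (a⁻¹ * y * a) * a⁻¹ := by group
    rw [h2, h0]
    group
  have h1 := h.cent _ hy hy1'
  ext x
  rw [mem_smul_sylow, ← h1, mem_centralizer_singleton_iff, mem_centralizer_singleton_iff]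
  constructor
  · intro hx
    have : a⁻¹ * x * a * (a⁻¹ * y * a) = a⁻¹ * (x * y) * a := by group
    rw [this, hx]
    group
  · intro hx
    have h3 : x * y = a * (a⁻¹ * x * a * (a⁻¹ * y * a)) * a⁻¹ := by group
    rw [h3, hx]
    group

/-- An element of prime order lies in a Sylow subgroup. -/
theorem exists_sylow_of_order {x : G} (hx : orderOf x = p) : ∃ S : Sylow p G, x ∈ (S : Subgroup G) := by
  have h1 : IsPGroup p (zpowers x) := by
    apply isPGroup_zpowers (p := p) 
    exact ⟨1, by simpa using hx⟩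
  obtain ⟨S, hS⟩ := IsPGroup.exists_le_sylow h1
  exact ⟨S, hS (mem_zpowers x)⟩

/-- A non-identity element of a Sylow subgroup has order `p`. -/
theorem orderOf_of_mem (S : Sylow p G) {y : G} (hy : y ∈ (S : Subgroup G)) (hy1 : y ≠ 1) : orderOf y = p := by
  have h1 : orderOf (⟨y, hy⟩ : (S : Subgroup G)) ∣ Nat.card (S : Subgroup G) := orderOf_dvd_natCard _
  rw [h.card_sylow_coe S, Subgroup.orderOf_mk] at h1
  rcases (Nat.dvd_prime hp.out).mp h1 with h2 | h2
  · exact absurd (orderOf_eq_one_iff.mp h2) hy1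
  · exact h2

/-- A `p`-singular element has order `p`, and it lies in a Sylow subgroup. -/
theorem singular (x : G) (hx : p ∣ orderOf x) : orderOf x = p ∧ ∃ S : Sylow p G, x ∈ (S : Subgroup G) := by
  classical
  obtain ⟨k, hk⟩ := hx
  have hopos : 0 < orderOf x := orderOf_pos x
  have hk0 : k ≠ 0 := by
    rintro rfl
    omega
  have h1 : orderOf (x ^ k) = p := by
    rw [orderOf_pow_of_dvd hk0 ⟨p, by rw [hk, mul_comm]⟩, hk]
    exact Nat.mul_div_cancel _ (Nat.pos_of_ne_zero hk0)
  obtain ⟨S, hS⟩ := h.exists_sylow_of_order h1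
  have hne : x ^ k ≠ 1 := by
    intro h0
    rw [h0, orderOf_one] at h1
    exact hp.out.ne_one h1.symm
  have h2 := h.cent_all S _ hS hne
  have hxS : x ∈ (S : Subgroup G) := by
    rw [← h2, mem_centralizer_singleton_iff]
    exact ((Commute.refl x).pow_right k).eq
  have hx1 : x ≠ 1 := by
    rintro rfl
    simp at hne
  exact ⟨h.orderOf_of_mem S hxS hx1, S, hxS⟩

/-- A linear character is trivial. -/
theorem eq_one_of_deg {χ : IrrCharacter G} (h1 : charDegree (χ : G → ℂ) = 1) : χ = oneIrr G := by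
  have h2 : (χ : G → ℂ) 1 = 1 := by
    rw [apply_one_eq_charDegree (IsIrrCharacter.isCharacter χ.2), h1]
    simp
  obtain ⟨lam, hlam⟩ := IsCharacter.exists_monoidHom (IsIrrCharacter.isCharacter χ.2) h2
  apply Subtype.ext
  rw [hlam]
  funext g
  have h3 := Small.BD.perfect_map_eq_one h.perfect (fun x y => mul_comm x y) lam g
  simp [h3]
  rfl

theorem deg_ne_zero (χ : IrrCharacter G) : charDegree (χ : G → ℂ) ≠ 0 := by
  intro h0
  have h1 := irr_apply_one_ne_zero χ
  rw [apply_one_eq_charDegree (IsIrrCharacter.isCharacter χ.2), h0] at h1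
  simp at h1

theorem e_pos : 0 < e := by
  have := h.e_ge
  omega

/-- Each element of order `p` lies in a unique Sylow subgroup. -/
theorem sylow_unique {g : G} (hg1 : g ≠ 1) {S S' : Sylow p G} (hS : g ∈ (S : Subgroup G)) (hS' : g ∈ (S' : Subgroup G)) : S = S' := by
  apply Sylow.ext
  rw [← h.cent_all S g hS hg1, ← h.cent_all S' g hS' hg1]

omit h in
/-- Sums over Sylow subgroups. -/
theorem sum_sylow_eq {P : Sylow p G} (S : Sylow p G) [Fintype (S : Subgroup G)] [Fintype (P : Subgroup G)] (F : G → ℂ) (hF : IsClassFunction G F) :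
    ∑ y : (S : Subgroup G), F y = ∑ y : (P : Subgroup G), F y := by
  classical
  obtain ⟨a, rfl⟩ := MulAction.exists_smul_eq G P S
  symm
  refine Fintype.sum_equiv (Equiv.ofBijective (fun y : (P : Subgroup G) => (⟨a * y * a⁻¹, by
      rw [mem_smul_sylow]
      simp [mul_assoc]⟩ : ((a • P : Sylow p G) : Subgroup G))) ⟨?_, ?_⟩) _ _ ?_
  · intro y y' hyy
    have h1 : a * (y : G) * a⁻¹ = a * (y' : G) * a⁻¹ := congrArg Subtype.val hyy
    exact Subtype.ext (by simpa using h1)
  · intro x
    refine ⟨⟨a⁻¹ * x * a, (mem_smul_sylow a P x).mp x.2⟩, Subtype.ext ?_⟩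
    show a * (a⁻¹ * (x : G) * a) * a⁻¹ = x
    group
  · intro y
    show F y = F (a * y * a⁻¹)
    exact (hF y a).symm

/-- The sum of a class function over the singular elements. -/
theorem sum_singular [Fintype (P : Subgroup G)] (F : G → ℂ) (hF : IsClassFunction G F) :
    ∑ g ∈ Finset.univ.filter (fun g : G => p ∣ orderOf g), F g =
      ((1 + m * p : ℕ) : ℂ) * (∑ y : (P : Subgroup G), F y - F 1) := by
  classical
  letI : Fintype (Sylow p G) := Fintype.ofFinite _
  have hpn : ¬ p ∣ orderOf (1 : G) := by simpa using hp.out.ne_one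
  have key : ∀ S : Sylow p G, ∑ g : G, (if p ∣ orderOf g ∧ g ∈ (S : Subgroup G) then F g else 0) =
      ∑ y : (P : Subgroup G), F y - F 1 := by
    intro S
    letI : Fintype (S : Subgroup G) := Fintype.ofFinite _
    rw [← sum_sylow_eq S F hF]
    have h1 : ∑ y : (S : Subgroup G), F y = ∑ g ∈ Finset.univ.filter (fun g : G => g ∈ (S : Subgroup G)), F g := by
      rw [Finset.sum_subtype (p := fun g : G => g ∈ (S : Subgroup G)) (Finset.univ.filter (fun g : G => g ∈ (S : Subgroup G))) (by simp)]
    rw [h1, Finset.sum_filter, eq_sub_iff_add_eq, ← Finset.add_sum_erase Finset.univ _ (Finset.mem_univ (1 : G)),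
      ← Finset.add_sum_erase Finset.univ (fun a => if a ∈ (S : Subgroup G) then F a else 0) (Finset.mem_univ (1 : G))]
    simp only [if_neg (show ¬ (p ∣ orderOf (1 : G) ∧ (1 : G) ∈ (S : Subgroup G)) from fun h0 => hpn h0.1), if_pos (one_mem (S : Subgroup G)), zero_add]
    rw [add_comm]
    congr 1
    refine Finset.sum_congr rfl fun g hg => ?_
    have hg1 : g ≠ 1 := Finset.ne_of_mem_erase hg
    by_cases hgS : g ∈ (S : Subgroup G)
    · have h2 : p ∣ orderOf g := by rw [h.orderOf_of_mem S hgS hg1]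
      simp [hgS, h2]
    · simp [hgS]
  have h1 : ∑ S : Sylow p G, ∑ g : G, (if p ∣ orderOf g ∧ g ∈ (S : Subgroup G) then F g else 0) =
      ∑ g ∈ Finset.univ.filter (fun g : G => p ∣ orderOf g), F g := by
    rw [Finset.sum_comm, Finset.sum_filter]
    refine Finset.sum_congr rfl fun g _ => ?_
    by_cases hg : p ∣ orderOf g
    · rw [if_pos hg]
      obtain ⟨S, hS⟩ := (h.singular g hg).2
      have hg1 : g ≠ 1 := by
        rintro rfl
        exact hpn hg
      rw [Finset.sum_eq_single S]
      · rw [if_pos ⟨hg, hS⟩]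
      · intro S' _ hS'
        rw [if_neg]
        rintro ⟨-, h3⟩
        exact hS' (h.sylow_unique hg1 h3 hS)
      · simp
    · rw [if_neg hg]
      exact Finset.sum_eq_zero fun S _ => by rw [if_neg (fun h0 => hg h0.1)]
  rw [← h1, Finset.sum_congr rfl (fun S _ => key S)]
  rw [Finset.sum_const, Finset.card_univ, nsmul_eq_mul, ← Nat.card_eq_fintype_card, h.card_syl]

/-- The splitting of the sum of a class function. -/
theorem sum_split [Fintype (P : Subgroup G)] (F : G → ℂ) (hF : IsClassFunction G F) :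
    ∑ g : G, F g = ∑ g ∈ Finset.univ.filter (fun g : G => ¬ p ∣ orderOf g), F g +
      ((1 + m * p : ℕ) : ℂ) * (∑ y : (P : Subgroup G), F y - F 1) := by
  classical
  rw [← h.sum_singular F hF, add_comm, Finset.sum_filter_add_sum_filter_not]

theorem exists_ne_one_mem : ∃ y ∈ (P : Subgroup G), y ≠ 1 := by
  have hne : (P : Subgroup G) ≠ ⊥ := by
    intro h0
    have h1 := h.card_P
    rw [h0] at h1
    simp at h1
    exact hp.out.ne_one h1.symm
  obtain ⟨⟨y, hy⟩, hy1⟩ := Subgroup.ne_bot_iff_exists_ne_one.mp hne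
  exact ⟨y, hy, fun e => hy1 (Subtype.ext e)⟩

/-- The index of the centralizer. -/
theorem index_cent {y : G} (hy : y ∈ (P : Subgroup G)) (hy1 : y ≠ 1) :
    (centralizer ({y} : Set G)).index = (1 + m * p) * e := by
  have h1 := (centralizer ({y} : Set G)).card_mul_index
  rw [h.cent y hy hy1, h.card_P, h.card_G] at h1
  rw [h.cent y hy hy1]
  have h2 : p * (P : Subgroup G).index = p * ((1 + m * p) * e) := by
    rw [h1]
    ring
  exact Nat.eq_of_mul_eq_mul_left hp.out.pos h2

end SC

end Cfsg.Agent.Lib.BT
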