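import Cfsg.Agent.Lib.BT.Dat

/-! Decompositions of products of characters, and the multiplicities of the characters induced from `N_G(P)/P`. -/

set_option autoImplicit false
set_option linter.unusedSectionVars false
set_option linter.unusedVariables false

namespace Cfsg.Agent.Lib.BT

open Cfsg Cfsg.Agent.Lib.Char Cfsg.Agent.Lib.Blocks Cfsg.Agent.Lib.Small.BD Subgroup MulAction
open scoped ComplexConjugate

universe u

variable {G : Type u} [Group G] [Fintype G] {p : ℕ} [hp : Fact p.Prime]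

/-- The decomposition of a character. -/
structure Dec (Λ : G → ℂ) (mm : IrrCharacter G → ℕ) : Prop where
  inner : ∀ χ : IrrCharacter G, classInner Λ (χ : G → ℂ) = mm χ
  sum : Λ = ∑ χ : IrrCharacter G, mm χ • (χ : G → ℂ)

theorem exists_dec {Λ : G → ℂ} (hΛ : IsCharacter G Λ) : ∃ mm, Dec Λ mm := by
  obtain ⟨m, h1, h2⟩ := IsCharacter.exists_eq_sum hΛ
  exact ⟨m, h1, h2⟩

/-- The multiplicity of `χ` in the induced character of `ψ`. -/
noncomputable def LL (P : Subgroup G) (ψ : NQ P →* ℂˣ) (χ : IrrCharacter G) : ℕ :=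
  (IsCharacter.classInner_nat (isCharacter_indL P ψ) (IsIrrCharacter.isCharacter χ.2)).choose

theorem LL_spec (P : Subgroup G) (ψ : NQ P →* ℂˣ) (χ : IrrCharacter G) :
    classInner (indL P ψ) (χ : G → ℂ) = LL P ψ χ :=
  (IsCharacter.classInner_nat (isCharacter_indL P ψ) (IsIrrCharacter.isCharacter χ.2)).choose_spec

namespace Dec

variable {Λ : G → ℂ} {mm : IrrCharacter G → ℕ} (hd : Dec Λ mm)

include hd

theorem apply (g : G) : Λ g = ∑ χ : IrrCharacter G, (mm χ : ℂ) * (χ : G → ℂ) g := by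
  conv_lhs => rw [hd.sum]
  simp [Finset.sum_apply]

theorem deg {D₀ : ℕ} (h1 : Λ 1 = D₀) : ∑ χ : IrrCharacter G, mm χ * charDegree (χ : G → ℂ) = D₀ := by
  have h2 := hd.apply 1
  rw [h1] at h2
  have h3 : ((∑ χ : IrrCharacter G, mm χ * charDegree (χ : G → ℂ) : ℕ) : ℂ) = (D₀ : ℂ) := by
    rw [h2]
    push_cast
    refine Finset.sum_congr rfl fun χ _ => ?_
    rw [apply_one_eq_charDegree (IsIrrCharacter.isCharacter χ.2)]
  exact_mod_cast h3

theorem T_sum (Q : Subgroup G) [Fintype Q] {t₀ : ℕ} (hs : ∑ y : Q, Λ y = (t₀ : ℂ) * (Nat.card Q : ℂ)) :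
    ∑ χ : IrrCharacter G, mm χ * T Q χ = t₀ := by
  have hc : (Nat.card Q : ℂ) ≠ 0 := by exact_mod_cast Nat.card_pos.ne'
  have h3 : ((∑ χ : IrrCharacter G, mm χ * T Q χ : ℕ) : ℂ) * (Nat.card Q : ℂ) = (t₀ : ℂ) * (Nat.card Q : ℂ) := by
    rw [← hs]
    push_cast
    rw [Finset.sum_mul]
    simp only [hd.apply]
    rw [Finset.sum_comm]
    refine Finset.sum_congr rfl fun χ _ => ?_
    rw [mul_assoc, T_spec, Finset.mul_sum]
  exact_mod_cast mul_right_cancel₀ hc h3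

theorem inner_dec {Λ' : G → ℂ} {mm' : IrrCharacter G → ℕ} (hd' : Dec Λ' mm') :
    classInner Λ Λ' = ((∑ χ : IrrCharacter G, mm χ * mm' χ : ℕ) : ℂ) := by
  conv_lhs => rw [hd.sum]
  rw [classInner_sum_left]
  push_cast
  refine Finset.sum_congr rfl fun χ _ => ?_
  rw [← Nat.cast_smul_eq_nsmul ℂ, classInner_smul_left]
  congr 1
  have h1 := hd'.inner χ
  rw [classInner_conj_symm] at h1
  have h2 : conj (conj (classInner (χ : G → ℂ) Λ')) = conj ((mm' χ : ℕ) : ℂ) := by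
    rw [← h1]
  rw [Complex.conj_conj] at h2
  rw [h2, Complex.conj_natCast]

theorem L_sum (P : Subgroup G) (ψ : NQ P →* ℂˣ) :
    classInner (indL P ψ) Λ = ((∑ χ : IrrCharacter G, mm χ * LL P ψ χ : ℕ) : ℂ) := by
  conv_lhs => rw [hd.sum]
  rw [classInner_sum_right]
  push_cast
  refine Finset.sum_congr rfl fun χ _ => ?_
  rw [← Nat.cast_smul_eq_nsmul ℂ, classInner_smul_right, Complex.conj_natCast, LL_spec]

end Dec

/-- The product of a character and the conjugate of another character. -/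
noncomputable def Lam (α β : IrrCharacter G) : G → ℂ := fun g => (α : G → ℂ) g * conj ((β : G → ℂ) g)

theorem isCharacter_Lam (α β : IrrCharacter G) : IsCharacter G (Lam α β) :=
  IsCharacter.mul (IsIrrCharacter.isCharacter α.2) (IsCharacter.conj (IsIrrCharacter.isCharacter β.2))

theorem isClassFunction_Lam (α β : IrrCharacter G) : IsClassFunction G (Lam α β) :=
  IsCharacter.isClassFunction (isCharacter_Lam α β)

theorem Lam_one (α β : IrrCharacter G) : Lam α β 1 = ((charDegree (α : G → ℂ) * charDegree (β : G → ℂ) : ℕ) : ℂ) := by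
  simp only [Lam]
  rw [apply_one_eq_charDegree (IsIrrCharacter.isCharacter α.2), apply_one_eq_charDegree (IsIrrCharacter.isCharacter β.2)]
  push_cast
  simp

theorem inner_Lam_one (α β : IrrCharacter G) :
    classInner (Lam α β) ((oneIrr G : IrrCharacter G) : G → ℂ) = classInner (α : G → ℂ) (β : G → ℂ) := by
  simp only [classInner, Lam]
  congr 1
  refine Finset.sum_congr rfl fun g _ => ?_
  show _ * conj (1 : ℂ) = _
  simp

theorem inner_Lam_Lam (α β : IrrCharacter G) : classInner (Lam α β) (Lam α β) = classInner (Lam α α) (Lam β β) := by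
  simp only [classInner, Lam]
  congr 1
  refine Finset.sum_congr rfl fun g _ => ?_
  simp only [map_mul, Complex.conj_conj]
  ring

/-- The multiplicity of the trivial character. -/
theorem Dec.one_self {α : IrrCharacter G} {mm : IrrCharacter G → ℕ} (hd : Dec (Lam α α) mm) : mm (oneIrr G) = 1 := by
  have h1 := hd.inner (oneIrr G)
  rw [inner_Lam_one, classInner_irr_self α.2] at h1
  exact_mod_cast h1.symm

theorem Dec.one_ne {α β : IrrCharacter G} (hne : α ≠ β) {mm : IrrCharacter G → ℕ} (hd : Dec (Lam α β) mm) : mm (oneIrr G) = 0 := by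
  have h1 := hd.inner (oneIrr G)
  rw [inner_Lam_one, classInner_irr_of_ne α.2 β.2 (fun e => hne (Subtype.ext e))] at h1
  exact_mod_cast h1.symm

section Ind

variable {P : Subgroup G}

theorem linN_of_mem (ψ : NQ P →* ℂˣ) (g : normalizer (P : Set G)) (hg : (g : G) ∈ P) : linN P ψ g = 1 := by
  rw [linN, (toNQ_eq_one_iff P).mpr hg]
  simp

/-- The difference of the inner products of two class functions which agree off `P`. -/
theorem inner_sub_of_agree [Fintype P] (ψ : NQ P →* ℂˣ) {F₁ F₂ : G → ℂ} (h₁ : IsClassFunction G F₁) (h₂ : IsClassFunction G F₂)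
    (hag : ∀ g ∈ normalizer (P : Set G), g ∉ P → F₁ g = F₂ g) :
    classInner (indL P ψ) F₁ - classInner (indL P ψ) F₂ =
      (Nat.card (normalizer (P : Set G)) : ℂ)⁻¹ * ∑ y : P, conj (F₁ y - F₂ y) := by
  classical
  letI : Fintype (normalizer (P : Set G)) := Fintype.ofFinite _
  rw [classInner_indL P ψ h₁, classInner_indL P ψ h₂, ← mul_sub, ← Finset.sum_sub_distrib]
  congr 1
  have h1 : ∀ g : normalizer (P : Set G), linN P ψ g * conj (F₁ g) - linN P ψ g * conj (F₂ g) =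
      if (g : G) ∈ P then conj (F₁ g - F₂ g) else 0 := by
    intro g
    by_cases hg : (g : G) ∈ P
    · rw [if_pos hg, linN_of_mem ψ g hg]
      simp
    · rw [if_neg hg, hag g g.2 hg, sub_self]
  simp only [h1]
  rw [← Finset.sum_filter]
  symm
  refine Finset.sum_bij (fun (y : P) _ => (⟨(y : G), Subgroup.le_normalizer y.2⟩ : normalizer (P : Set G))) ?_ ?_ ?_ ?_
  · intro y _
    exact Finset.mem_filter.mpr ⟨Finset.mem_univ _, y.2⟩
  · intro y _ y' _ e
    exact Subtype.ext (Subtype.mk.inj e)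
  · intro g hg
    exact ⟨⟨g, (Finset.mem_filter.mp hg).2⟩, Finset.mem_univ _, rfl⟩
  · intro y _
    rfl

end Ind

namespace SC

variable {P : Sylow p G} {e m t : ℕ} (h : SC P e m t)

include h

/-- Nonzero multiplicities. -/
theorem exists_LL_ne [Fintype (P : Subgroup G)] {χ : IrrCharacter G} (hT : T (P : Subgroup G) χ ≠ 0) :
    ∃ ψ : NQ (P : Subgroup G) →* ℂˣ, LL (P : Subgroup G) ψ χ ≠ 0 := by
  have hcomm := commNQ h.card_P h.hC
  have hs : ∑ y : (P : Subgroup G), (χ : G → ℂ) y ≠ 0 := by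
    rw [← T_spec]
    have hc : (Nat.card (P : Subgroup G) : ℂ) ≠ 0 := by exact_mod_cast Nat.card_pos.ne'
    exact mul_ne_zero (by exact_mod_cast hT) hc
  obtain ⟨ψ, hψ⟩ := exists_inner_ne_zero (p := p) hcomm (irr_isClassFunction χ) hs
  refine ⟨ψ, ?_⟩
  rw [LL_spec] at hψ
  intro h0
  exact hψ (by simp [h0])

/-- Exceptional characters with `T = 0` vanish off `P`. -/
theorem vanish_of_T_zero [Fintype (P : Subgroup G)] {χ : IrrCharacter G} (hT : T (P : Subgroup G) χ = 0)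
    {g : G} (hg : g ∈ normalizer ((P : Subgroup G) : Set G)) (hgP : g ∉ (P : Subgroup G)) : (χ : G → ℂ) g = 0 := by
  have hcomm := commNQ h.card_P h.hC
  have hs : ∑ y : (P : Subgroup G), (χ : G → ℂ) y = 0 := by
    rw [← T_spec, hT]
    simp
  exact vanish_of_sum_eq_zero h.card_P h.hC hcomm (IsIrrCharacter.isCharacter χ.2) hs hg hgP

/-- Characters with `T = 1` have values of norm one off `P`. -/
theorem norm_one_of_T_one [Fintype (P : Subgroup G)] {χ : IrrCharacter G} (hT : T (P : Subgroup G) χ = 1)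
    {g : G} (hg : g ∈ normalizer ((P : Subgroup G) : Set G)) (hgP : g ∉ (P : Subgroup G)) :
    (χ : G → ℂ) g * conj ((χ : G → ℂ) g) = 1 := by
  classical
  letI : Fintype (NQ (P : Subgroup G) →* ℂˣ) := Fintype.ofFinite _
  have hcomm := commNQ h.card_P h.hC
  have hcl := irr_isClassFunction χ
  have hPc : (Nat.card (P : Subgroup G) : ℂ) ≠ 0 := by exact_mod_cast Nat.card_pos.ne'
  -- at the identity
  have h1 := sum_coset hcomm hcl (1 : normalizer ((P : Subgroup G) : Set G))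
  have h2 : ∑ y : (P : Subgroup G), conj ((χ : G → ℂ) (((1 : normalizer ((P : Subgroup G) : Set G)) : G) * y)) =
      (Nat.card (P : Subgroup G) : ℂ) := by
    have h3 := T_spec (P : Subgroup G) χ
    rw [hT] at h3
    have h4 : conj (∑ y : (P : Subgroup G), (χ : G → ℂ) y) = (Nat.card (P : Subgroup G) : ℂ) := by
      rw [← h3]
      simp
    rw [map_sum] at h4
    rw [← h4]
    simp
  rw [h2, inv_mul_cancel₀ hPc] at h1
  have h5 : ∀ ψ : NQ (P : Subgroup G) →* ℂˣ, conj (linN (P : Subgroup G) ψ (1 : normalizer ((P : Subgroup G) : Set G))) * classInner (indL (P : Subgroup G) ψ) (χ : G → ℂ) =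
      (LL (P : Subgroup G) ψ χ : ℂ) := by
    intro ψ
    rw [linN_of_mem ψ _ (one_mem _), LL_spec]
    simp
  simp only [h5] at h1
  have h6 : ∑ ψ : NQ (P : Subgroup G) →* ℂˣ, LL (P : Subgroup G) ψ χ = 1 := by exact_mod_cast h1
  obtain ⟨ψ₀, -, hψ₀⟩ := Finset.exists_ne_zero_of_sum_ne_zero (s := (Finset.univ : Finset (NQ (P : Subgroup G) →* ℂˣ))) (f := fun ψ => LL (P : Subgroup G) ψ χ) (by rw [h6]; exact one_ne_zero)
  have h7 : LL (P : Subgroup G) ψ₀ χ = 1 ∧ ∀ ψ, ψ ≠ ψ₀ → LL (P : Subgroup G) ψ χ = 0 := by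
    rw [← Finset.add_sum_erase _ _ (Finset.mem_univ ψ₀)] at h6
    constructor
    · omega
    · intro ψ hψ
      have h8 : ∑ ψ ∈ Finset.univ.erase ψ₀, LL (P : Subgroup G) ψ χ = 0 := by omega
      exact (Finset.sum_eq_zero_iff.mp h8) ψ (Finset.mem_erase.mpr ⟨hψ, Finset.mem_univ _⟩)
  -- at `g`
  have h8 := sum_coset hcomm hcl (⟨g, hg⟩ : normalizer ((P : Subgroup G) : Set G))
  have h9 : ∀ y : (P : Subgroup G), conj ((χ : G → ℂ) (g * y)) = conj ((χ : G → ℂ) g) := by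
    intro y
    obtain ⟨c, hc⟩ := isConj_iff.mp (isConj_mul_of_notMem h.card_P h.hC hg hgP y.2)
    rw [← hc, hcl]
  simp only [h9, Finset.sum_const, Finset.card_univ, nsmul_eq_mul] at h8
  rw [← Nat.card_eq_fintype_card, ← mul_assoc, inv_mul_cancel₀ hPc, one_mul] at h8
  rw [Finset.sum_eq_single ψ₀] at h8
  · rw [LL_spec, h7.1] at h8
    push_cast at h8
    rw [mul_one] at h8
    have h10 : conj ((χ : G → ℂ) g) = conj (linN (P : Subgroup G) ψ₀ ⟨g, hg⟩) := h8.symm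
    have h11 : (χ : G → ℂ) g = linN (P : Subgroup G) ψ₀ ⟨g, hg⟩ := by
      have := congrArg (starRingEnd ℂ) h10
      simpa using this
    rw [h10, h11]
    -- a linear character has values of norm one
    have hfin : IsOfFinOrder (ψ₀ (toNQ (P : Subgroup G) ⟨g, hg⟩)) := MonoidHom.isOfFinOrder ψ₀ (isOfFinOrder_of_finite _)
    have hnorm : ‖((ψ₀ (toNQ (P : Subgroup G) ⟨g, hg⟩) : ℂˣ) : ℂ)‖ = 1 := by
      obtain ⟨n, hn, hpow⟩ := hfin.exists_pow_eq_one
      have h12 : ((ψ₀ (toNQ (P : Subgroup G) ⟨g, hg⟩) : ℂˣ) : ℂ) ^ n = 1 := by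
        rw [← Units.val_pow_eq_pow_val, hpow]
        rfl
      exact Complex.norm_eq_one_of_pow_eq_one h12 hn.ne'
    rw [Complex.mul_conj, Complex.normSq_eq_norm_sq]
    show ((‖((ψ₀ (toNQ (P : Subgroup G) ⟨g, hg⟩) : ℂˣ) : ℂ)‖ ^ 2 : ℝ) : ℂ) = 1
    rw [hnorm]
    simp
  · intro ψ _ hψ
    rw [LL_spec, h7.2 ψ hψ]
    simp
  · simp

/-- The exceptional characters have the same multiplicities in induced characters. -/
theorem LL_Y [Fintype (P : Subgroup G)] (D : Dat P e t) {θ₁ θ₂ : IrrCharacter G} (h₁ : θ₁ ∈ D.Y) (h₂ : θ₂ ∈ D.Y)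
    (ψ : NQ (P : Subgroup G) →* ℂˣ) : LL (P : Subgroup G) ψ θ₁ = LL (P : Subgroup G) ψ θ₂ := by
  have h1 := inner_sub_of_agree ψ (irr_isClassFunction θ₁) (irr_isClassFunction θ₂) (fun g hg hgP =>
    D.Y_reg θ₁ h₁ θ₂ h₂ g (not_dvd_orderOf_of_normalizer P h.card_P h.hC hg hgP))
  have h2 : ∑ y : (P : Subgroup G), conj ((θ₁ : G → ℂ) y - (θ₂ : G → ℂ) y) = 0 := by
    rw [← map_sum, Finset.sum_sub_distrib, h.Y_sum_P D h₁, h.Y_sum_P D h₂, D.Y_reg θ₁ h₁ θ₂ h₂ 1]
    · simp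
    · rw [orderOf_one]
      exact hp.out.one_lt.ne' ∘ Nat.dvd_one.mp
  rw [h2, mul_zero, LL_spec, LL_spec] at h1
  have h3 : ((LL (P : Subgroup G) ψ θ₁ : ℕ) : ℂ) = (LL (P : Subgroup G) ψ θ₂ : ℕ) := sub_eq_zero.mp h1
  exact_mod_cast h3

/-- The sum of `θ θ̄` over `P`. -/
theorem Lam_sum_self [Fintype (P : Subgroup G)] (D : Dat P e t) {θ : IrrCharacter G} (hθ : θ ∈ D.Y) :
    ∑ y : (P : Subgroup G), Lam θ θ y = Lam θ θ 1 + (e : ℂ) * ((p : ℂ) - e) := by
  have h1 := h.Y_norm_P D hθ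
  simp only [Lam]
  linear_combination h1

/-- The sum of `θ₁ θ̄₂` over `P`, when there are two exceptional characters. -/
theorem Lam_sum_ne [Fintype (P : Subgroup G)] (D : Dat P e t) {θ₁ θ₂ : IrrCharacter G} (hne : θ₁ ≠ θ₂) (hY : D.Y = {θ₁, θ₂}) :
    ∑ y : (P : Subgroup G), Lam θ₁ θ₂ y = Lam θ₁ θ₂ 1 + (e : ℂ) - (e : ℂ) * ((p : ℂ) - e) := by
  classical
  have h₁ : θ₁ ∈ D.Y := by simp [hY]
  have h₂ : θ₂ ∈ D.Y := by simp [hY]
  have hε : (D.ε : ℂ) * (D.ε : ℂ) = 1 := by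
    rcases D.ε_sign with e0 | e0 <;> rw [e0] <;> simp
  have hεc : conj (D.ε : ℂ) = (D.ε : ℂ) := by simp
  have key : ∀ y ∈ (Finset.univ : Finset (P : Subgroup G)).erase 1, Lam θ₁ θ₂ (y : G) =
      - (D.ε : ℂ) * (θ₁ : G → ℂ) y - (θ₁ : G → ℂ) y * conj ((θ₁ : G → ℂ) y) := by
    intro y hy
    have hy1 : (y : G) ≠ 1 := fun e0 => (Finset.ne_of_mem_erase hy) (Subtype.ext e0)
    have h1 := D.Y_sum y y.2 hy1
    rw [hY, Finset.sum_pair hne] at h1
    have h2 : (θ₂ : G → ℂ) y = -(D.ε : ℂ) - (θ₁ : G → ℂ) y := by linear_combination h1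
    simp only [Lam]
    rw [h2, map_sub, map_neg, hεc]
    ring
  have h3 : ∑ y : (P : Subgroup G), Lam θ₁ θ₂ y - Lam θ₁ θ₂ 1 = ∑ y ∈ (Finset.univ : Finset (P : Subgroup G)).erase 1, Lam θ₁ θ₂ (y : G) := by
    rw [← Finset.add_sum_erase Finset.univ (fun y : (P : Subgroup G) => Lam θ₁ θ₂ (y : G)) (Finset.mem_univ (1 : (P : Subgroup G)))]
    simp
  rw [Finset.sum_congr rfl key, Finset.sum_sub_distrib, ← Finset.mul_sum] at h3
  have h4 : ∑ y ∈ (Finset.univ : Finset (P : Subgroup G)).erase 1, (θ₁ : G → ℂ) y = ∑ y : (P : Subgroup G), (θ₁ : G → ℂ) y - (θ₁ : G → ℂ) 1 := by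
    rw [← Finset.add_sum_erase Finset.univ (fun y : (P : Subgroup G) => (θ₁ : G → ℂ) y) (Finset.mem_univ (1 : (P : Subgroup G)))]
    simp
  have h5 : ∑ y ∈ (Finset.univ : Finset (P : Subgroup G)).erase 1, (θ₁ : G → ℂ) y * conj ((θ₁ : G → ℂ) y) = ∑ y : (P : Subgroup G), (θ₁ : G → ℂ) y * conj ((θ₁ : G → ℂ) y) - (θ₁ : G → ℂ) 1 * conj ((θ₁ : G → ℂ) 1) := by
    rw [← Finset.add_sum_erase Finset.univ (fun y : (P : Subgroup G) => (θ₁ : G → ℂ) y * conj ((θ₁ : G → ℂ) y)) (Finset.mem_univ (1 : (P : Subgroup G)))]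
    simp
  rw [h4, h5, h.Y_sum_P D h₁, h.Y_norm_P D h₁] at h3
  linear_combination h3 + (e : ℂ) * hε

end SC

/-- A sum of numbers at most one which equals the size is everywhere one. -/
theorem all_one_of_sum_eq {α : Type*} (s : Finset α) (f : α → ℕ) (hle : ∀ x ∈ s, f x ≤ 1) (hs : ∑ x ∈ s, f x = s.card) :
    ∀ x ∈ s, f x = 1 := by
  have h1 : ∑ x ∈ s, f x = ∑ x ∈ s, 1 := by simp [hs]
  have h2 := (Finset.sum_eq_sum_iff_of_le hle).mp h1
  exact h2

theorem sum_le_card_of_le_one {α : Type*} (s : Finset α) (f : α → ℕ) (hle : ∀ x ∈ s, f x ≤ 1) : ∑ x ∈ s, f x ≤ s.card := by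
  have h1 : ∑ x ∈ s, f x ≤ ∑ x ∈ s, 1 := Finset.sum_le_sum hle
  simpa using h1

end Cfsg.Agent.Lib.BT
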